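import Mathlib
import Cfsg.Agent.Lib.StdW.Cov

/-! The cube of an element that rotates a four-group. -/

set_option autoImplicit false

namespace H60M

open Subgroup H69

variable {G : Type*} [Group G]

theorem Y3 {t z v u y : G} (yt : y * t = t * y) (yu : y * u = u * y) (yz : y * z * y⁻¹ = v)
    (yv : y * v * y⁻¹ = z * v) (_zz : z * z = 1) (vv : v * v = 1) (zv : z * v = v * z) :
    y ^ 3 ∈ 𝐂(closure ({t, z, v, u} : Set G)) := by
  have h3 : y * (z * v) * y⁻¹ = z := by
    calc y * (z * v) * y⁻¹ = (y * z * y⁻¹) * (y * v * y⁻¹) := by group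
      _ = z := by rw [yz, yv, zv, ← mul_assoc, vv, one_mul]
  have e : ∀ x, y ^ 3 * x * (y ^ 3)⁻¹ = y * (y * (y * x * y⁻¹) * y⁻¹) * y⁻¹ := fun x => by
    simp only [pow_succ, pow_zero]; group
  have k : closure ({t, z, v, u} : Set G) ≤ centralizer {y ^ 3} := by
    rw [closure_le]
    have f : ∀ {x : G}, y ^ 3 * x * (y ^ 3)⁻¹ = x → x ∈ centralizer ({y ^ 3} : Set G) := fun e =>
      mem_centralizer_singleton_iff.2 (mul_inv_eq_iff_eq_mul.1 e).symm
    rintro x (rfl | rfl | rfl | rfl)
    · exact f (by rw [e, yt, mul_inv_cancel_right, yt, mul_inv_cancel_right, yt, mul_inv_cancel_right])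
    · exact f (by rw [e, yz, yv, h3])
    · exact f (by rw [e, yv, h3, yz])
    · exact f (by rw [e, yu, mul_inv_cancel_right, yu, mul_inv_cancel_right, yu, mul_inv_cancel_right])
  intro x hx
  exact mem_centralizer_singleton_iff.1 (k hx)

end H60M
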