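import Mathlib
import Cfsg.Agent.Lib.B7S.Bas2

/-! The conjugates of `t` in `Z(T)`. -/

set_option autoImplicit false

namespace H60M.A7

open Subgroup H69 H36.SW

namespace Del

/-- coordinates on `Z(T)` -/
abbrev V := Fin 2 × Fin 2 × Fin 2

/-- the linear map with `t ↦ p`, `z ↦ z`, `u ↦ q` -/
def act (p q x : V) : V :=
  (x.1 * p.1 + x.2.2 * q.1, x.1 * p.2.1 + x.2.1 + x.2.2 * q.2.1, x.1 * p.2.2 + x.2.2 * q.2.2)

/-- `x` is a non-zero vector of the span -/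
def In (x p q : V) : Prop := x = p ∨ x = q ∨ x = p + q

instance decIn (x p q : V) : Decidable (In x p q) := by unfold In; infer_instance

/-- the conditions on one element -/
def ok (p q : V) : Prop := (∀ x, act p q x = 0 → x = 0) ∧ (p = (1, 0, 0) → q = (0, 0, 1)) ∧
  ¬ (In p (1, 0, 0) (0, 1, 1) ∧ In q (1, 0, 0) (0, 1, 1) ∧ In (1, 0, 0) p q ∧ In (0, 1, 1) p q)

instance decOk (p q : V) : Decidable (ok p q) := by unfold ok; infer_instance

/-- the conditions on the first three powers -/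
def L (p q : V) : Prop := ok p q ∧ ok (act p q p) (act p q q) ∧ ok (act p q (act p q p)) (act p q (act p q q))

instance decL (p q : V) : Decidable (L p q) := by unfold L; infer_instance

theorem dA0 : ∀ q, L (1, 1, 0) q → q = (0, 0, 1) ∨ q = (0, 1, 1) := by decide +kernel

theorem dA1 : ∀ p q, L p q → L (act (1, 1, 0) (0, 0, 1) p) (act (1, 1, 0) (0, 0, 1) q) →
    L (act p q (1, 1, 0)) (act p q (0, 0, 1)) → q = (0, 0, 1) := by decide +kernel

theorem dBE : ∀ q q', L (0, 0, 1) q → L (1, 1, 1) q' → L (act (0, 0, 1) q (1, 1, 1)) (act (0, 0, 1) q q') →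
    act (0, 0, 1) q (1, 1, 1) = (1, 1, 0) := by decide +kernel

theorem act_eq : ∀ p q x : V, act p q x = (if x.1 = 0 then 0 else p) + (0, x.2.1, 0) + if x.2.2 = 0 then 0 else q := by
  decide +kernel

variable {G : Type*} [Group G]

/-- the element with given coordinates -/
def e (F : Fr G) (x : V) : G := F.t ^ (x.1 : ℕ) * F.z ^ (x.2.1 : ℕ) * F.u1 ^ (x.2.2 : ℕ)

/-- the pair `(p, q)` is induced by `N(T)` -/
def R (F : Fr G) (p q : V) : Prop := ∃ g ∈ 𝐍(F.T), g * F.t * g⁻¹ = e F p ∧ g * F.u1 * g⁻¹ = e F q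

theorem eqns : True := by
  have := @act.eq_1
  have := @In.eq_1
  have := @ok.eq_1
  have := @L.eq_1
  have := @e.eq_1.{0}
  have := @R.eq_1.{0}
  trivial

theorem pw_add {a : G} (h : a * a = 1) (i j : Fin 2) : a ^ ((i + j : Fin 2) : ℕ) = a ^ (i : ℕ) * a ^ (j : ℕ) := by
  fin_cases i <;> fin_cases j <;> simp [h]

theorem cl_le {S S' : Set G} {t : G} (tt : t * t = 1) (ht : t ∈ S') (h : ∀ x ∈ S, x ∈ S' ∨ t * x ∈ S') :
    closure S ≤ closure S' := (closure_le _).2 fun x hx => (h x hx).elim (fun k => subset_closure k) fun k => by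
  have := mul_mem (subset_closure ht) (subset_closure k)
  rwa [← mul_assoc, tt, one_mul] at this

variable [Finite G] {F : Fr G}

theorem e_add (x y : V) : e F (x + y) = e F x * e F y := by
  have c1 : Commute F.z F.t := F.zt
  have c2 : Commute F.u1 F.t := F.tu1.symm
  have c3 : Commute F.u1 F.z := F.zu1.symm
  simp only [e, Prod.fst_add, Prod.snd_add, pw_add F.tt, pw_add F.zz, pw_add F.u11]
  rw [((c2.pow_pow _ _).mul_right (c3.pow_pow _ _)).mul_mul_mul_comm, (c1.pow_pow _ _).mul_mul_mul_comm]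

theorem e_zero {x : V} (hu : F.u1 ≠ 1) (h : e F x = 1) : x = 0 := by
  obtain ⟨h1, -, -, h2, h3⟩ := F.ind (a := x.1) (b := 0) (c := 0) (d := x.2.1) (e := x.2.2) (by simpa [e] using h)
  exact Prod.ext h1 (Prod.ext h2 (h3.resolve_right hu))

theorem exists_e {x : G} (h : x ∈ F.ZT) : ∃ p, x = e F p := by
  have k : ∀ y ∈ F.F0, ∃ p, y = e F p := fun y hy => by
    rcases F.memF0.1 hy with rfl | rfl | rfl | rfl
    exacts [⟨0, by simp [e]⟩, ⟨(0, 1, 0), by simp [e]⟩, ⟨(0, 0, 1), by simp [e]⟩, ⟨(0, 1, 1), by simp [e]⟩]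
  rcases F.memZT.1 h with h | h
  · exact k x h
  · obtain ⟨p, hp⟩ := k _ h
    refine ⟨(1, 0, 0) + p, ?_⟩
    rw [e_add, ← hp]
    simp [e, ← mul_assoc, F.tt]

theorem cj_e {g : G} (hg : g ∈ 𝐍(F.T)) {p q : V} (hp : g * F.t * g⁻¹ = e F p) (hq : g * F.u1 * g⁻¹ = e F q)
    (x : V) : g * e F x * g⁻¹ = e F (act p q x) := by
  have hz : g * F.z * g⁻¹ = F.z := by rw [F.Nz hg, mul_inv_cancel_right]
  have k : ∀ (i : Fin 2) (y : V), e F (if i = 0 then 0 else y) = e F y ^ (i : ℕ) := fun i y => by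
    fin_cases i <;> simp [e]
  rw [act_eq, e_add, e_add, k, k, ← hp, ← hq, e, ← conj_mul, ← conj_mul, ← conj_pow, ← conj_pow, ← conj_pow, hz]
  simp [e]

theorem R.comp {p q p' q' : V} (h : R F p q) (h' : R F p' q') : R F (act p q p') (act p q q') := by
  obtain ⟨g, hg, hp, hq⟩ := h
  obtain ⟨g', hg', hp', hq'⟩ := h'
  refine ⟨g * g', mul_mem hg hg', ?_, ?_⟩
  · rw [← cj_e hg hp hq, ← hp']; group
  · rw [← cj_e hg hp hq, ← hq']; group

theorem In.mem {x p q : V} (h : In x p q) : e F x ∈ closure ({e F p, e F q} : Set G) := by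
  rcases h with rfl | rfl | rfl
  · exact subset_closure (by simp)
  · exact subset_closure (by simp)
  · rw [e_add]
    exact mul_mem (subset_closure (by simp)) (subset_closure (by simp))

theorem R.ok {p q : V} (hu : F.u1 ≠ 1) (h : R F p q) : ok p q := by
  obtain ⟨g, hg, hp, hq⟩ := h
  refine ⟨fun x hx => e_zero hu ?_, fun h1 => ?_, fun ⟨h1, h2, h3, h4⟩ => F.typ hu (F.u2_ne hu) g ?_⟩
  · have := cj_e hg hp hq x
    rw [hx] at this
    simpa [e] using this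
  · have h2 : g * F.t = F.t * g := by
      rw [← mul_inv_eq_iff_eq_mul, hp, h1]
      simp [e]
    rw [F.fixu h2 hg, mul_inv_cancel_right] at hq
    have h3 : q + (0, 0, 1) = 0 := e_zero hu (by
      rw [e_add, ← hq]
      simp [e, F.u11])
    revert h3
    clear hq
    revert q
    decide
  · have e1 : F.t = e F (1, 0, 0) := by simp [e]
    have e2 : F.u2 = e F (0, 1, 1) := by simp [e, F.u2_eq hu]
    rw [MonoidHom.map_closure, Set.image_pair]
    change closure {g * F.t * g⁻¹, g * F.u1 * g⁻¹} = _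
    rw [hp, hq, e2, e1]
    exact le_antisymm ((closure_le _).2 (Set.pair_subset h1.mem h2.mem))
      ((closure_le _).2 (Set.pair_subset h3.mem h4.mem))

theorem R.L {p q : V} (hu : F.u1 ≠ 1) (h : R F p q) : L p q :=
  ⟨h.ok hu, (h.comp h).ok hu, (h.comp (h.comp h)).ok hu⟩

theorem tZT : F.t ∈ F.ZT := subset_closure (by simp)
theorem zZT : F.z ∈ F.ZT := subset_closure (by simp)
theorem u1ZT : F.u1 ∈ F.ZT := subset_closure (by simp)
theorem u2ZT : F.u2 ∈ F.ZT := subset_closure (by simp)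

theorem exR {p : V} (hp : e F p ∈ F.ZT) (h : F.Om (e F p)) : ∃ q, R F p q := by
  obtain ⟨g, hg, e1⟩ := F.burn h hp
  obtain ⟨q, e2⟩ := exists_e (conj_mem_of_mem_normalizer (F.NZT hg) u1ZT)
  exact ⟨q, g, hg, e1, e2⟩

theorem omZT {s : G} (hs : s ∈ F.ZT) (h : F.Om s) : s = F.t ∨ s = F.t * F.z ∨ s = F.u1 ∨ s = F.z * F.u1 ∨
    s = F.t * F.u1 ∨ s = F.t * (F.z * F.u1) := by
  rcases F.memZT.1 hs with k | k
  · rcases F.memF0.1 k with rfl | rfl | rfl | rfl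
    exacts [(h.sq.2 rfl).elim, (F.nz h).elim, by simp, by simp]
  · have e1 : s = F.t * (F.t * s) := by rw [← mul_assoc, F.tt, one_mul]
    rcases F.memF0.1 k with k | k | k | k <;> rw [k] at e1 <;> simp [e1]

theorem caseA (hu : F.u1 ≠ 1) {σ : G} (hσ : σ ∈ 𝐍(F.T)) (ht : σ * F.t * σ⁻¹ = F.t * F.z)
    (h1 : σ * F.u1 * σ⁻¹ = F.u1) : F.CI ∨ F.CA := by
  have r : R F (1, 1, 0) (0, 0, 1) := ⟨σ, hσ, by simpa [e] using ht, by simpa [e] using h1⟩
  have fx1 : ∀ g ∈ 𝐍(F.T), g * F.u1 = F.u1 * g := fun g hg => by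
    obtain ⟨p, e1⟩ := exists_e (conj_mem_of_mem_normalizer (F.NZT hg) tZT)
    obtain ⟨q, e2⟩ := exists_e (conj_mem_of_mem_normalizer (F.NZT hg) u1ZT)
    have r' : R F p q := ⟨g, hg, e1, e2⟩
    rw [dA1 p q (r'.L hu) ((r.comp r').L hu) ((r'.comp r).L hu)] at e2
    rw [← mul_inv_eq_iff_eq_mul, e2]
    simp [e]
  have fx2 : ∀ g ∈ 𝐍(F.T), g * F.u2 = F.u2 * g := fun g hg => by
    rw [F.u2_eq hu, ← mul_assoc, F.Nz hg, mul_assoc, fx1 g hg, mul_assoc]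
  have n : ∀ s ∈ F.ZT, s ∈ closure ({F.v1, F.v2, F.u1, F.u2} : Set G) → (∀ g ∈ 𝐍(F.T), g * s = s * g) →
      ¬ F.Om s := fun s hs hs' hf ho => by
    obtain ⟨g, hg, e1⟩ := F.burn ho hs
    rw [mul_inv_eq_iff_eq_mul, ← hf g hg, mul_right_inj] at e1
    exact F.tD (e1 ▸ hs')
  have n1 := n _ u1ZT (subset_closure (by simp)) fx1
  have n2 := n _ u2ZT (subset_closure (by simp)) fx2
  have e1 : σ * (F.t * F.u1) * σ⁻¹ = F.t * F.u2 := by rw [← conj_mul, ht, h1, F.u2_eq hu, mul_assoc]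
  by_cases hD : F.Om (F.t * F.u1)
  · exact .inr ⟨hu, F.u2_ne hu, ⟨σ, ht⟩, hD, e1 ▸ hD.cj σ, n1, n2, fx1, fx2⟩
  · exact .inl ⟨⟨σ, ht⟩, n1, n2, fun _ => hD, fun _ k => hD (Fr.Om.of_cj σ (e1 ▸ k)), fx1, fx2⟩

theorem not_sz (hA : ¬ F.Om (F.t * F.z)) {s : G} (hs : s ∈ F.ZT) (h : F.Om s) : ¬ F.Om (s * F.z) := fun k => by
  obtain ⟨g, hg, e1⟩ := F.burn h hs
  refine hA (Fr.Om.of_cj g ?_)
  rwa [← conj_mul, e1, F.Nz hg, mul_inv_cancel_right]

theorem notBC (hu : F.u1 ≠ 1) (hA : ¬ F.Om (F.t * F.z)) (hB : F.Om F.u1) : ¬ F.Om F.u2 := by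
  rw [F.u2_eq hu, F.zu1]
  exact not_sz hA u1ZT hB

theorem notDE (hu : F.u1 ≠ 1) (hA : ¬ F.Om (F.t * F.z)) (hD : F.Om (F.t * F.u1)) : ¬ F.Om (F.t * F.u2) := by
  rw [F.u2_eq hu, F.zu1, ← mul_assoc]
  exact not_sz hA (mul_mem tZT u1ZT) hD

theorem notBE (hu : F.u1 ≠ 1) (hA : ¬ F.Om (F.t * F.z)) (hB : F.Om F.u1) : ¬ F.Om (F.t * F.u2) := fun hE => by
  obtain ⟨q, r⟩ := exR (F := F) (p := (0, 0, 1)) (by simpa [e] using u1ZT) (by simpa [e] using hB)
  have e1 : e F (1, 1, 1) = F.t * F.u2 := by simp [e, F.u2_eq hu, mul_assoc]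
  obtain ⟨q', r'⟩ := exR (F := F) (p := (1, 1, 1)) (e1 ▸ mul_mem tZT u2ZT) (e1 ▸ hE)
  have r2 := r.comp r'
  rw [dBE q q' (r.L hu) (r'.L hu) (r2.L hu)] at r2
  obtain ⟨g, -, e2, -⟩ := r2
  exact hA ⟨g, by simpa [e] using e2⟩

theorem notBD (hu : F.u1 ≠ 1) (hA : ¬ F.Om (F.t * F.z)) (hB : F.Om F.u1) : ¬ F.Om (F.t * F.u1) := fun hD => by
  have hΔ : ∀ s ∈ F.ZT, F.Om s → s ≠ F.t → s = F.u1 ∨ s = F.t * F.u1 := fun s hs ho hn => by
    rcases omZT hs ho with k | k | k | k | k | k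
    · exact (hn k).elim
    · exact (hA (k ▸ ho)).elim
    · exact .inl k
    · exact (notBC hu hA hB (F.u2_eq hu ▸ k ▸ ho)).elim
    · exact .inr k
    · exact (notBE hu hA hB (F.u2_eq hu ▸ k ▸ ho)).elim
  have cA : ∀ s ∈ F.W2, F.Om s → s ≠ F.t → F.Om (F.t * s) := fun s hs ho hn => by
    obtain ⟨i, hi⟩ := F.sw.toZT hs
    rw [F.sw_ZT] at hi
    change F.y2 ^ i * s * (F.y2 ^ i)⁻¹ ∈ F.ZT at hi
    have c : F.y2 ^ i * F.t * (F.y2 ^ i)⁻¹ = F.t := by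
      rw [((show Commute F.y2 F.t from F.y2t).pow_left i).eq, mul_inv_cancel_right]
    refine Fr.Om.of_cj (F.y2 ^ i) ?_
    rw [← conj_mul, c]
    rcases hΔ _ hi (ho.cj _) (fun k => hn (by simpa using k.trans c.symm)) with k | k <;> rw [k]
    · exact hD
    · rwa [← mul_assoc, F.tt, one_mul]
  obtain ⟨k, hk, hc⟩ : ∃ k ∈ 𝐍(F.W2), k * F.t * k⁻¹ = F.u1 ∨ k * F.t * k⁻¹ = F.t * F.u1 := by
    obtain ⟨g, hg, e1⟩ := F.burn hB u1ZT
    obtain ⟨h, hh, e2⟩ := F.burn hD (mul_mem tZT u1ZT)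
    rcases F.permW hg with k1 | k1
    · exact ⟨g, k1.2, .inl e1⟩
    rcases F.permW hh with k2 | k2
    · exact ⟨h, k2.2, .inr e2⟩
    refine ⟨g⁻¹ * h, ?_, hΔ _ (conj_mem_of_mem_normalizer (F.NZT (mul_mem (inv_mem hg) hh)) tZT) ⟨_, rfl⟩
      fun k => F.t1 ?_⟩
    · rw [← cj_eq_self_iff, ← cj_cj, k2.2, ← k1.2, cj_cj_inv]
    · have : h * F.t * h⁻¹ = g * F.t * g⁻¹ := by
        conv_rhs => rw [← k]
        group
      simpa [e1, e2] using this
  have hz : F.u1 = F.z * F.u2 := F.sw.u2_eq (F.u2_ne hu)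
  have e1 : F.u1 * (F.y2 * F.u1 * F.y2⁻¹) = F.z * F.v2 := by
    rw [hz, ← conj_mul, F.y2z, F.y2u, mul_inv_cancel_right, ← F.u2v2, mul_assoc, ← mul_assoc F.u2, F.u22, one_mul]
  have e2 : k * F.t * k⁻¹ * (F.y2 * (k * F.t * k⁻¹) * F.y2⁻¹) = F.z * F.v2 := by
    rcases hc with hc | hc <;> rw [hc]
    · exact e1
    · rw [← conj_mul, F.y2t, mul_inv_cancel_right, ← e1, F.tu1, mul_assoc, ← mul_assoc F.t, F.tt, one_mul]
  have m : k * F.t * k⁻¹ ∈ F.W2 := conj_mem_of_mem_normalizer hk (subset_closure (by simp))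
  have o : F.Om (k * F.t * k⁻¹) := ⟨k, rfl⟩
  have o2 := (cA _ (conj_mem_of_mem_normalizer' hk (conj_mem_of_mem_normalizer F.sw.y1N m))
    (by simpa using (o.cj F.sw.y1).cj k⁻¹) fun e3 => F.z1 (by
      have e4 : F.y2 * (k * F.t * k⁻¹) * F.y2⁻¹ = k * F.t * k⁻¹ := by
        conv_rhs => rw [← e3]
        change _ = k * (k⁻¹ * (F.y2 * (k * F.t * k⁻¹) * F.y2⁻¹) * k) * k⁻¹
        group
      rw [e4, o.sq.1, ← F.y2v, ← F.y2z] at e2
      simpa using e2.symm)).cj k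
  refine F.sw.nV1 (F.sw.memV1.2 (.inr (.inr (.inr rfl)))) ?_
  change F.Om (F.z * F.v2)
  rw [← e2]
  convert o2 using 1
  change _ = k * (F.t * (k⁻¹ * (F.y2 * (k * F.t * k⁻¹) * F.y2⁻¹) * k)) * k⁻¹
  group

theorem exists_tw (F : Fr G) (hu : F.u1 ≠ 1) :
    ∃ F' : Fr G, F.Same F' ∧ F'.u1 = F.t * F.u1 ∧ F'.u2 = F.t * F.u2 ∧ F'.T = F.T := by
  have tt := F.tt
  have hh := F.hu.resolve_left fun k => hu k.1
  have cm : ∀ {a u : G}, a * F.t = F.t * a → a * u = u * a → a * (F.t * u) = F.t * u * a := fun h1 h2 =>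
    Commute.mul_right h1 h2
  have sq : ∀ {u : G}, u * u = 1 → F.t * u = u * F.t → F.t * u * (F.t * u) = 1 := fun {u} h1 h2 => by
    rw [mul_assoc, ← mul_assoc u, ← h2, mul_assoc, h1, mul_one, tt]
  have eT : closure ({F.t, F.v1, F.v2, F.t * F.u1, F.t * F.u2} : Set G) = closure {F.t, F.v1, F.v2, F.u1, F.u2} :=
    le_antisymm (cl_le tt (by simp) (by simp [← mul_assoc, tt])) (cl_le tt (by simp) (by simp))
  have eW : ∀ v u : G, closure ({F.t, F.z, v, F.t * u} : Set G) = closure {F.t, F.z, v, u} := fun v u =>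
    le_antisymm (cl_le tt (by simp) (by simp [← mul_assoc, tt])) (cl_le tt (by simp) (by simp))
  have eP : ∀ u : G, closure ({F.t, F.t * u} : Set G) = closure {F.t, u} := fun u =>
    le_antisymm (cl_le tt (by simp) (by simp [← mul_assoc, tt])) (cl_le tt (by simp) (by simp))
  have nm : ∀ {u : G}, u ∉ closure ({F.t, F.v1, F.v2} : Set G) → F.t * u ∉ closure ({F.t, F.v1, F.v2} : Set G) :=
    fun h k => h ((mul_mem_cancel_left (subset_closure (by simp))).1 k)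
  have tD : F.t ∉ closure ({F.v1, F.v2, F.t * F.u1, F.t * F.u2} : Set G) := fun k => by
    have hn : F.t * F.u1 ∈ 𝐍(closure ({F.v1, F.v2} : Set G)) := centralizer_le_normalizer _ (by
      rw [centralizer_closure]
      rintro _ (rfl | rfl)
      exacts [cm F.tv1.symm F.u1v1.symm, cm F.tv2.symm F.u1v2.symm])
    have m1 : F.v1 ∈ closure ({F.v1, F.v2} : Set G) := subset_closure (by simp)
    have m2 : F.v2 ∈ closure ({F.v1, F.v2} : Set G) := subset_closure (by simp)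
    have hle : closure ({F.v1, F.v2, F.t * F.u1, F.t * F.u2} : Set G) ≤
        closure {F.v1, F.v2} ⊔ zpowers (F.t * F.u1) := (closure_le _).2 (by
      rintro _ (rfl | rfl | rfl | rfl)
      · exact mem_sup_left m1
      · exact mem_sup_left m2
      · exact mem_sup_right (mem_zpowers _)
      · rw [hh.1, ← mul_assoc, ← F.zt, mul_assoc]
        exact mul_mem (mem_sup_left (F.hz ▸ mul_mem (mul_mem (mul_mem m1 m2) m1) m2))
          (mem_sup_right (mem_zpowers _)))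
    rcases (mem_adj hn (by rw [sq F.u11 F.tu1]; exact one_mem _)).1 (hle k) with k | k
    · exact F.tD (closure_mono (by simp [Set.insert_subset_iff]) k)
    · rw [F.tu1, mul_inv_rev, mul_inv_cancel_left, inv_mem_iff] at k
      exact hh.2.2.1 (closure_mono (by simp [Set.insert_subset_iff]) k)
  exact ⟨{ F with
    u1 := F.t * F.u1
    u2 := F.t * F.u2
    u11 := sq F.u11 F.tu1
    u22 := sq F.u22 F.tu2
    tu1 := cm rfl F.tu1
    tu2 := cm rfl F.tu2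
    u1v1 := (cm F.tv1.symm F.u1v1.symm).symm
    u1v2 := (cm F.tv2.symm F.u1v2.symm).symm
    u2v1 := (cm F.tv1.symm F.u2v1.symm).symm
    u2v2 := (cm F.tv2.symm F.u2v2.symm).symm
    tD := tD
    hu := .inr ⟨by rw [← mul_assoc, F.zt, mul_assoc, ← hh.1], by rw [← mul_assoc, F.zt, mul_assoc, ← hh.2.1],
      nm hh.2.2.1, nm hh.2.2.2⟩
    syl := eT ▸ F.syl
    y1u := cm F.y1t F.y1u
    y2u := cm F.y2t F.y2u
    nW1 := fun g hg hn => (F.nW1 g hg (eW _ _ ▸ hn)).imp_left (cm hg)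
    nW2 := fun g hg hn => (F.nW2 g hg (eW _ _ ▸ hn)).imp_left (cm hg)
    W12 := fun g hg => by rw [eW, eW]; exact F.W12 g hg
    typ := fun _ _ g => by rw [eP, eP]; exact F.typ hu (F.u2_ne hu) g },
    ⟨rfl, rfl, rfl, rfl, rfl, rfl, rfl, .inr ⟨hu, rfl, rfl⟩⟩, rfl, rfl, eT⟩

end Del

open Del

variable {G : Type*} [Group G] [Finite G]

namespace Fr

theorem cases (F : Fr G) : ∃ F' : Fr G, F.Same F' ∧ (F'.CS ∨ F'.sw.CS ∨ F'.CI ∨ F'.CA) := by
  have same : F.Same F := ⟨rfl, rfl, rfl, rfl, rfl, rfl, rfl, .inl ⟨rfl, rfl⟩⟩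
  obtain ⟨s, hs, ho, hn⟩ := F.exZ
  have hc := (omZT hs ho).resolve_left hn
  by_cases hu : F.u1 = 1
  · have hu2 : F.u2 = 1 := F.hu.elim (·.2) fun k => (k.2.2.1 (hu ▸ one_mem _)).elim
    have n1 : ¬ F.Om 1 := fun k => k.sq.2 rfl
    refine ⟨F, same, .inr (.inr (.inl ⟨?_, hu ▸ n1, hu2 ▸ n1, fun k => (k hu).elim, fun k => (k hu2).elim,
      fun g _ => by simp [hu], fun g _ => by simp [hu2]⟩))⟩
    simp only [hu, mul_one] at hc
    rcases hc with rfl | rfl | rfl | rfl | rfl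
    exacts [ho, (n1 ho).elim, (F.nz ho).elim, (hn rfl).elim, ho]
  obtain ⟨F', hS, e1, e2, eT⟩ := exists_tw F hu
  have hu2 := F.u2_ne hu
  have hu' : F'.u1 ≠ 1 := fun k => F.tD (by
    rw [e1, mul_eq_one_iff_eq_inv] at k
    rw [k]
    exact inv_mem (subset_closure (by simp)))
  have om : ∀ x, F'.Om x ↔ F.Om x := fun x => by simp only [Om, hS.t]
  by_cases hA : F.Om (F.t * F.z)
  · obtain ⟨q, r⟩ := exR (F := F) (p := (1, 1, 0)) (by simpa [e] using mul_mem tZT zZT) (by simpa [e] using hA)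
    have hq := dA0 q (r.L hu)
    obtain ⟨σ, hσ, k1, k2⟩ := r
    replace k1 : σ * F.t * σ⁻¹ = F.t * F.z := by simpa [e] using k1
    rcases hq with rfl | rfl
    · exact ⟨F, same, .inr (.inr (caseA hu hσ k1 (by simpa [e] using k2)))⟩
    · replace k2 : σ * F.u1 * σ⁻¹ = F.z * F.u1 := by simpa [e] using k2
      refine ⟨F', hS, .inr (.inr (caseA hu' (eT ▸ hσ) (by rw [hS.t, hS.z, k1]) ?_))⟩
      rw [e1, ← conj_mul, k1, k2, mul_assoc, ← mul_assoc F.z, F.zz, one_mul]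
  have hA' : ¬ F'.Om (F'.t * F'.z) := by rwa [om, hS.t, hS.z]
  have cs : ∀ {F : Fr G}, F.u1 ≠ 1 → ¬ F.Om (F.t * F.z) → F.Om F.u1 → F.CS := fun hu hA hB =>
    ⟨hu, hB, hA, notBC hu hA hB, notBD hu hA hB, notBE hu hA hB⟩
  rw [← F.u2_eq hu] at hc
  rcases hc with rfl | rfl | rfl | rfl | rfl
  · exact (hA ho).elim
  · exact ⟨F, same, .inl (cs hu hA ho)⟩
  · exact ⟨F, same, .inr (.inl (cs (F := F.sw) hu2 hA ho))⟩
  · exact ⟨F', hS, .inl (cs hu' hA' (by rwa [om, e1]))⟩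
  · exact ⟨F', hS, .inr (.inl (cs (F := F'.sw) (F'.u2_ne hu') hA' ((om F'.u2).2 (e2 ▸ ho))))⟩

end Fr

end H60M.A7
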