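import Mathlib
import Cfsg.Agent.Lib.B7S.Bas2

/-! Type `EE`: one 2-group, the structure of `U`. -/

set_option autoImplicit false

namespace H60M.A7

open Subgroup H69 H36.SW

variable {G : Type*} [Group G] [Finite G]

namespace Fr
variable {F : Fr G} {u0 g v d1 d2 : G}

omit [Finite G] in
theorem EA_cen {s : Set G} {x : G} (h : ∀ y ∈ s, y * x = x * y) : x ∈ 𝐂(closure s) := by
  rw [centralizer_closure]; exact h

omit [Finite G] in
theorem EA_zD (F : Fr G) : F.z ∈ closure ({F.v1, F.v2, F.u1} : Set G) := by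
  have a : F.v1 ∈ closure ({F.v1, F.v2, F.u1} : Set G) := subset_closure (by simp)
  have b : F.v2 ∈ closure ({F.v1, F.v2, F.u1} : Set G) := subset_closure (by simp)
  exact F.hz ▸ mul_mem (mul_mem (mul_mem a b) a) b

theorem EA_F0D (F : Fr G) : F.F0 ≤ closure ({F.v1, F.v2, F.u1} : Set G) := fun x hx => by
  have a : F.u1 ∈ closure ({F.v1, F.v2, F.u1} : Set G) := subset_closure (by simp)
  rcases F.memF0.1 hx with rfl | rfl | rfl | rfl
  exacts [one_mem _, EA_zD F, a, mul_mem (EA_zD F) a]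

omit [Finite G] in
theorem EA_z (g v : G) : F.z ∈ F.Z0 g v := subset_closure (by simp)
omit [Finite G] in
theorem EA_u (g v : G) : F.u1 ∈ F.Z0 g v := subset_closure (by simp)
omit [Finite G] in
theorem EA_g (g v : G) : g ∈ F.Z0 g v := subset_closure (by simp)
omit [Finite G] in
theorem EA_v (g v : G) : v ∈ F.Z0 g v := subset_closure (by simp)

theorem EA_F0Z (g v : G) : F.F0 ≤ F.Z0 g v := fun x hx => by
  rcases F.memF0.1 hx with rfl | rfl | rfl | rfl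
  exacts [one_mem _, EA_z g v, EA_u g v, mul_mem (EA_z g v) (EA_u g v)]

theorem EA_F0t {f : G} (hf : f ∈ F.F0) : f * F.t = F.t * f := by
  rcases F.memF0.1 hf with rfl | rfl | rfl | rfl
  · simp
  · exact F.zt
  · exact F.tu1.symm
  · rw [mul_assoc, ← F.tu1, ← mul_assoc, F.zt, mul_assoc]

theorem EA_F0sq {f : G} (hf : f ∈ F.F0) : f * f = 1 := F.sqW1 (F.X1W1 (F.F0X1 hf))

omit [Finite G] in
theorem EE.EA_u0 (h : F.EE u0 g v d1 d2) : u0 = 1 ∨ u0 = F.u1 := h.cs.imp (·.1) (·.1)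

theorem EE.EA_u0F (h : F.EE u0 g v d1 d2) : u0 ∈ F.F0 := F.memF0.2 (h.EA_u0.imp_right fun e => .inr (.inl e))

theorem EE.EA_gF (h : F.EE u0 g v d1 d2) : g ∈ 𝐂(F.F0) := centralizer_anti (EA_F0D F) h.gT
theorem EE.EA_vF (h : F.EE u0 g v d1 d2) : v ∈ 𝐂(F.F0) := centralizer_anti (EA_F0D F) h.vT

theorem EE.EA_vA (h : F.EE u0 g v d1 d2) : v ∈ 𝐂(F.F0 ⊔ zpowers g) := by
  rw [H69.centralizer_sup, centralizer_zpowers]
  exact ⟨h.EA_vF, mem_centralizer_singleton_iff.2 h.gv.symm⟩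

theorem EE.EA_eq (h : F.EE u0 g v d1 d2) : F.Z0 g v = F.F0 ⊔ zpowers g ⊔ zpowers v := by
  refine le_antisymm ((closure_le _).2 ?_) (sup_le (sup_le (EA_F0Z g v) (zpowers_le_of_mem (EA_g g v)))
    (zpowers_le_of_mem (EA_v g v)))
  rintro x (rfl | rfl | rfl | rfl)
  · exact mem_sup_left (mem_sup_left (F.memF0.2 (by simp)))
  · exact mem_sup_left (mem_sup_left (F.memF0.2 (by simp)))
  · exact mem_sup_left (mem_sup_right (mem_zpowers _))
  · exact mem_sup_right (mem_zpowers _)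

/-- `Z0` centralises `v1, v2, u1` -/
theorem EE.EA_ZD (h : F.EE u0 g v d1 d2) : F.Z0 g v ≤ 𝐂(closure ({F.v1, F.v2, F.u1} : Set G)) := by
  refine (closure_le _).2 ?_
  rintro x (rfl | rfl | rfl | rfl)
  · refine EA_cen ?_
    rintro y (rfl | rfl | rfl)
    exacts [F.zv1.symm, F.sw.zv1.symm, F.zu1.symm]
  · refine EA_cen ?_
    rintro y (rfl | rfl | rfl)
    exacts [F.u1v1.symm, F.u1v2.symm, rfl]
  · exact h.gT
  · exact h.vT

theorem EE.EA_ab (h : F.EE u0 g v d1 d2) : F.Z0 g v ≤ 𝐂(F.Z0 g v) := fun x hx => by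
  refine EA_cen ?_
  rintro y (rfl | rfl | rfl | rfl)
  · exact h.EA_ZD hx _ (EA_zD F)
  · exact h.EA_ZD hx _ (subset_closure (by simp))
  · refine (EA_cen (s := {F.z, F.u1, y, v}) ?_ _ hx).symm
    rintro w (rfl | rfl | rfl | rfl)
    exacts [h.gT _ (EA_zD F), h.gT _ (subset_closure (by simp)), rfl, h.gv.symm]
  · refine (EA_cen (s := {F.z, F.u1, g, y}) ?_ _ hx).symm
    rintro w (rfl | rfl | rfl | rfl)
    exacts [h.vT _ (EA_zD F), h.vT _ (subset_closure (by simp)), h.gv, rfl]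

omit [Finite G] in
theorem EA_inv {x : G} (h : x * x = 1) : x⁻¹ = x := inv_eq_of_mul_eq_one_right h

theorem EE.EA_gvt (h : F.EE u0 g v d1 d2) : g * v * F.t * (g * v)⁻¹ = F.t * (F.z * u0) := by
  have a := h.EA_gF _ h.EA_u0F
  calc _ = g * (v * F.t * v) * g := by rw [mul_inv_rev, EA_inv h.gg, EA_inv h.vv]; group
    _ = g * F.t * (u0 * g) := by rw [h.vt]; group
    _ = _ := by rw [a, ← mul_assoc, h.gt, mul_assoc]

omit [Finite G] in
theorem EA_ne {f x w : G} (hf : f * F.t = F.t * f) (c : f * x * F.t = F.t * (f * x))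
    (e : x * F.t * x⁻¹ = F.t * w) : w = 1 := by
  rw [← mul_assoc, ← hf, mul_assoc, mul_assoc, mul_right_inj] at c
  rw [c, mul_inv_cancel_right] at e
  exact left_eq_mul.1 e

theorem EE.EA_zu (h : F.EE u0 g v d1 d2) : F.z * u0 ≠ 1 := by
  rcases h.cs with ⟨rfl, -⟩ | ⟨rfl, c⟩
  · rw [mul_one]; exact F.z1
  · rw [← F.u2_eq c.u1]; exact c.u2

theorem EE.memZ0 (h : F.EE u0 g v d1 d2) {x : G} :
    x ∈ F.Z0 g v ↔ ∃ f ∈ F.F0, ∃ i j : Fin 2, x = f * g ^ (i : ℕ) * v ^ (j : ℕ) := by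
  rw [h.EA_eq, mem_adj (centralizer_le_normalizer _ h.EA_vA) (h.vv ▸ one_mem _),
    mem_adj (centralizer_le_normalizer _ h.EA_gF) (h.gg ▸ one_mem _),
    mem_adj (centralizer_le_normalizer _ h.EA_gF) (h.gg ▸ one_mem _)]
  refine ⟨?_, ?_⟩
  · rintro ((c | c) | c | c)
    · exact ⟨_, c, 0, 0, by simp⟩
    · exact ⟨_, c, 1, 0, by simp⟩
    · exact ⟨_, c, 0, 1, by simp⟩
    · exact ⟨_, c, 1, 1, by simp⟩
  · rintro ⟨f, hf, i, j, rfl⟩
    fin_cases i <;> fin_cases j <;> simp [hf]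

theorem EE.sqZ0 (h : F.EE u0 g v d1 d2) {x : G} (hx : x ∈ F.Z0 g v) : x * x = 1 := by
  induction hx using closure_induction with
  | mem x c => rcases c with rfl | rfl | rfl | rfl; exacts [F.zz, F.u11, h.gg, h.vv]
  | one => simp
  | mul x y hx hy a b =>
    calc _ = x * (y * x) * y := by group
      _ = (x * x) * (y * y) := by rw [h.EA_ab hx y hy]; group
      _ = 1 := by rw [a, b, one_mul]
  | inv x _ a => rw [← mul_inv_rev, a, inv_one]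

theorem EE.fix (h : F.EE u0 g v d1 d2) {x : G} (hx : x ∈ F.Z0 g v) (c : x * F.t = F.t * x) : x ∈ F.F0 := by
  obtain ⟨f, hf, i, j, rfl⟩ := h.memZ0.1 hx
  have gt : g * F.t * g⁻¹ = F.t * F.z := by rw [EA_inv h.gg, h.gt]
  have vt : v * F.t * v⁻¹ = F.t * u0 := by rw [EA_inv h.vv, h.vt]
  fin_cases i <;> fin_cases j <;> simp only [Nat.cast_zero, Nat.cast_one, pow_zero, pow_one, mul_one,
    Fin.zero_eta, Fin.mk_one, Fin.val_zero, Fin.val_one, Fin.isValue] at c ⊢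
  · exact hf
  · rcases h.cs with ⟨-, rfl, -⟩ | ⟨rfl, k⟩
    · rwa [mul_one]
    · exact absurd (EA_ne (EA_F0t hf) c vt) k.u1
  · exact absurd (EA_ne (EA_F0t hf) c gt) F.z1
  · rw [mul_assoc f] at c
    exact absurd (EA_ne (EA_F0t hf) c h.EA_gvt) h.EA_zu

theorem EE.tr (h : F.EE u0 g v d1 d2) {f : G} (hf : f ∈ F.F0) (o : F.Om (F.t * f)) :
    ∃ c ∈ F.Z0 g v, c * F.t * c⁻¹ = F.t * f := by
  have gt : g * F.t * g⁻¹ = F.t * F.z := by rw [EA_inv h.gg, h.gt]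
  have vt : v * F.t * v⁻¹ = F.t * u0 := by rw [EA_inv h.vv, h.vt]
  rcases F.memF0.1 hf with rfl | rfl | rfl | rfl
  · exact ⟨1, one_mem _, by simp⟩
  · exact ⟨g, EA_g g v, gt⟩
  · rcases h.cs with ⟨-, -, k⟩ | ⟨rfl, -⟩
    · by_cases e : F.u1 = 1
      · exact ⟨1, one_mem _, by simp [e]⟩
      · exact absurd o (k.n3 e)
    · exact ⟨v, EA_v g v, vt⟩
  · rcases h.cs with ⟨-, -, k⟩ | ⟨e, -⟩
    · by_cases e : F.u1 = 1
      · exact ⟨g, EA_g g v, by rw [e, mul_one, gt]⟩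
      · exact absurd (F.u2_eq e ▸ o) (k.n4 (F.u2_ne e))
    · exact ⟨g * v, mul_mem (EA_g g v) (EA_v g v), e ▸ h.EA_gvt⟩

theorem EE.tN (h : F.EE u0 g v d1 d2) : F.t ∈ 𝐍(F.Z0 g v) := by
  have k : ∀ {x w}, x * x = 1 → x * F.t * x = F.t * w → F.t * x * F.t⁻¹ = w * x := fun {x w} a b => by
    calc _ = F.t * (x * F.t * x) * x := by
          rw [EA_inv F.tt, mul_assoc _ _ x, mul_assoc _ x x, a, mul_one, mul_assoc]
      _ = _ := by rw [b, ← mul_assoc, F.tt, one_mul]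
  refine mem_normalizer_of_cj_le (cj_le_iff.2 ((closure_le _).2 ?_))
  rintro x hx
  rw [SetLike.mem_coe, mem_cj, inv_inv]
  rcases hx with rfl | rfl | rfl | rfl
  · rw [← F.zt, mul_inv_cancel_right]; exact EA_z _ _
  · rw [F.tu1, mul_inv_cancel_right]; exact EA_u _ _
  · rw [k h.gg h.gt]; exact mul_mem (EA_z _ _) (EA_g _ _)
  · rw [k h.vv h.vt]; exact mul_mem (EA_F0Z _ _ h.EA_u0F) (EA_v _ _)

theorem EE.cardZ0 (h : F.EE u0 g v d1 d2) : (v = 1 ∧ Nat.card (F.Z0 g v) = 2 * Nat.card F.F0) ∨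
    (u0 = F.u1 ∧ F.CA ∧ Nat.card (F.Z0 g v) = 16) := by
  have gt : g * F.t * g⁻¹ = F.t * F.z := by rw [EA_inv h.gg, h.gt]
  have vt : v * F.t * v⁻¹ = F.t * u0 := by rw [EA_inv h.vv, h.vt]
  have n : ∀ {x w}, x * F.t * x⁻¹ = F.t * w → w ≠ 1 → x ∉ F.F0 := fun e c k =>
    c (EA_ne (f := 1) (by simp) (by simpa using EA_F0t k) e)
  have c1 := card_adj (centralizer_le_normalizer _ h.EA_gF) (h.gg ▸ one_mem _) (n gt F.z1)
  rw [h.EA_eq]
  rcases h.cs with ⟨-, e, -⟩ | ⟨e, k⟩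
  · exact Or.inl ⟨e, by rw [e, zpowers_one_eq_bot, sup_bot_eq, c1]⟩
  · refine Or.inr ⟨e, k, ?_⟩
    rw [card_adj (centralizer_le_normalizer _ h.EA_vA) (h.vv ▸ one_mem _), c1,
      (F.cardF0.resolve_left fun c => k.u1 c.1).2]
    rw [mem_adj (centralizer_le_normalizer _ h.EA_gF) (h.gg ▸ one_mem _), EA_inv h.gg, ← h.gv]
    exact fun c => c.elim (n vt (e ▸ k.u1)) (n h.EA_gvt h.EA_zu)

/-- the square of `d1 d2` -/
theorem EE.EA_sq (h : F.EE u0 g v d1 d2) :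
    d1 * d2 * (d1 * d2) ∈ 𝐂(F.Z0 g v) ∧ d1 * d2 * (d1 * d2) * F.v1 * (d1 * d2 * (d1 * d2))⁻¹ = F.v1 ∧
      d1 * d2 * (d1 * d2) * F.v2 * (d1 * d2 * (d1 * d2))⁻¹ = F.v2 ∧
      ∃ c ∈ F.Z0 g v, d1 * d2 * (d1 * d2) * F.t * (d1 * d2 * (d1 * d2))⁻¹ = F.t * c := by
  have r : d1 * d2 ∈ 𝐂(F.Z0 g v) := mul_mem h.d1Z h.d2Z
  obtain ⟨c1, m1, e1⟩ : ∃ c ∈ F.Z0 g v, d1 * F.v2 * d1⁻¹ = c * F.v2 :=
    ⟨_, h.c1, by rw [EA_inv h.d11, mul_assoc _ F.v2 F.v2, F.v22, mul_one]⟩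
  obtain ⟨c2, m2, e2⟩ : ∃ c ∈ F.Z0 g v, d2 * F.v1 * d2⁻¹ = c * F.v1 :=
    ⟨_, h.c2, by rw [EA_inv h.d22, mul_assoc _ F.v1 F.v1, F.v11, mul_one]⟩
  have a1 : d1 * F.v1 * d1⁻¹ = F.v1 := by rw [h.d1v, mul_inv_cancel_right]
  have a2 : d2 * F.v2 * d2⁻¹ = F.v2 := by rw [h.d2v, mul_inv_cancel_right]
  have a3 : d1 * F.t * d1⁻¹ = F.t * F.v1 := by rw [EA_inv h.d11, h.d1t]
  have a4 : d2 * F.t * d2⁻¹ = F.t * F.v2 := by rw [EA_inv h.d22, h.d2t]
  have cj : ∀ a b x : G, a * b * x * (a * b)⁻¹ = a * (b * x * b⁻¹) * a⁻¹ := fun a b x => by group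
  have b1 : d1 * d2 * F.v1 * (d1 * d2)⁻¹ = c2 * F.v1 := by
    rw [cj, e2, ← conj_mul, a1, conj_eq_of_mem_centralizer h.d1Z m2]
  have b2 : d1 * d2 * F.v2 * (d1 * d2)⁻¹ = c1 * F.v2 := by rw [cj, a2, e1]
  have b3 : d1 * d2 * F.t * (d1 * d2)⁻¹ = F.t * F.v1 * (c1 * F.v2) := by rw [cj, a4, ← conj_mul, a3, e1]
  have k1 : ∀ c ∈ F.Z0 g v, F.v1 * c = c * F.v1 := fun c hc => h.EA_ZD hc _ (subset_closure (by simp))
  have k2 : ∀ c ∈ F.Z0 g v, F.v2 * c = c * F.v2 := fun c hc => h.EA_ZD hc _ (subset_closure (by simp))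
  refine ⟨mul_mem r r, ?_, ?_, F.z * c1 * c2, mul_mem (mul_mem (EA_z g v) m1) m2, ?_⟩
  · rw [cj, b1, ← conj_mul, b1, conj_eq_of_mem_centralizer r m2, ← mul_assoc, h.sqZ0 m2, one_mul]
  · rw [cj, b2, ← conj_mul, b2, conj_eq_of_mem_centralizer r m1, ← mul_assoc, h.sqZ0 m1, one_mul]
  · rw [cj, b3, ← conj_mul, ← conj_mul, ← conj_mul, b1, b2, b3, conj_eq_of_mem_centralizer r m1,
      ← mul_assoc c1 c1, h.sqZ0 m1, one_mul, ← F.hz]
    calc _ = F.t * (F.v1 * (c1 * F.v2) * (c2 * F.v1) * F.v2) := by group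
      _ = F.t * (F.v1 * F.v2 * (c1 * c2 * F.v1) * F.v2) := by rw [← k2 c1 m1]; group
      _ = F.t * (F.v1 * F.v2 * F.v1 * (c1 * c2 * F.v2)) := by rw [← k1 _ (mul_mem m1 m2)]; group
      _ = _ := by rw [← k2 _ (mul_mem m1 m2)]; group

theorem EE.EA_cj (h : F.EE u0 g v d1 d2) {o : G} (hZ : o ∈ 𝐂(F.Z0 g v)) (a1 : o * F.v1 * o⁻¹ = F.v1)
    (a2 : o * F.v2 * o⁻¹ = F.v2) (a3 : o * F.t * o⁻¹ = F.t) : F.EE u0 g v d1 (o * d2 * o⁻¹) :=
  { h with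
    d2Z := mul_mem (mul_mem hZ h.d2Z) (inv_mem hZ)
    d22 := cjsq h.d22 o
    d2v := by rw [← a2, conj_mul, conj_mul, h.d2v]
    d2t := by rw [← a3, conj_mul, conj_mul, h.d2t, ← conj_mul, a2]
    c2 := by
      rw [← a1, conj_mul, conj_mul, conj_mul, conj_eq_of_mem_centralizer hZ h.c2]; exact h.c2
    d2E := F.En.conj_mem _ h.d2E o }

theorem EE.EA_kk (h : F.EE u0 g v d1 d2) (p : P2 (d1 * d2)) : d1 * d2 * d1 * d2 ∈ F.Z0 g v := by
  obtain ⟨a0, a1, a2, c, hc, a3⟩ := h.EA_sq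
  have pk : P2 (d1 * d2 * (d1 * d2)) := p.mul p rfl
  rw [mul_assoc (d1 * d2)]
  generalize d1 * d2 * (d1 * d2) = k at *
  have ct : c * F.t = F.t * c := by
    have := cjsq F.tt k
    rw [a3] at this
    calc _ = F.t * F.t * c * F.t * (c * c) := by rw [F.tt, h.sqZ0 hc, one_mul, mul_one]
      _ = F.t * (F.t * c * (F.t * c)) * c := by group
      _ = _ := by rw [this, mul_one]
  obtain ⟨e, he, a4⟩ := h.tr (h.fix hc ct) ⟨k, a3⟩
  have n1 : e⁻¹ * k ∈ 𝐂(F.T) := by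
    rw [F.T_eq]
    refine EA_cen ?_
    have q : ∀ {y}, y ∈ closure ({F.v1, F.v2, F.u1} : Set G) → k * y * k⁻¹ = y →
        y * (e⁻¹ * k) = e⁻¹ * k * y := fun {y} a b => by
      rw [← mul_assoc, inv_mem (h.EA_ZD he) y a, mul_assoc, mul_assoc, mul_inv_eq_iff_eq_mul.1 b]
    rintro y (rfl | rfl | rfl | rfl)
    · rw [← a4] at a3
      calc _ = e⁻¹ * (e * F.t * e⁻¹) * k := by group
        _ = _ := by rw [← a3]; group
    · exact q (subset_closure (by simp)) a1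
    · exact q (subset_closure (by simp)) a2
    · exact q (subset_closure (by simp)) (conj_eq_of_mem_centralizer a0 (EA_u g v))
  have n2 : e⁻¹ * k ∈ F.T := F.p2T (n1 _ (subset_closure (by simp))).symm
    (centralizer_le_normalizer _ n1) ((P2.of_sq (h.sqZ0 he)).inv.mul pk (a0 _ (inv_mem he)))
  rcases F.memZT.1 ((F.cenT n2).1 n1) with q | q
  · simpa using mul_mem he (EA_F0Z g v q)
  · have q1 := h.EA_gF _ q
    have q2 := mul_mem (inv_mem (h.EA_ab he)) a0 g (EA_g g v)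
    rw [mul_assoc, ← q2, ← mul_assoc, ← mul_assoc g, mul_left_inj] at q1
    have := h.gt
    rw [← q1, mul_assoc, h.gg, mul_one] at this
    exact absurd (left_eq_mul.1 this) F.z1

theorem EE.ek (h : F.EE u0 g v d1 d2) : ∃ d2', F.EK u0 g v d1 d2' := by
  obtain ⟨a0, a1, a2, c, hc, a3⟩ := h.EA_sq
  obtain ⟨o, ho, -, p⟩ := dih2 h.d11 h.d22
  have e : (d1 * d2) ^ 4 = d1 * d2 * (d1 * d2) * (d1 * d2 * (d1 * d2)) := by
    rw [show 4 = 2 + 2 from rfl, pow_add, pow_two]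
  rw [e] at ho
  generalize d1 * d2 * (d1 * d2) = k at *
  have q : ∀ {y}, k * k * y * (k * k)⁻¹ = y → o * y * o⁻¹ = y := fun {y} b =>
    mul_inv_eq_iff_eq_mul.2 (mem_centralizer_singleton_iff.1 (zpowers_le_of_mem
      (mem_centralizer_singleton_iff.2 (mul_inv_eq_iff_eq_mul.1 b)) ho))
  have cj : ∀ x : G, k * k * x * (k * k)⁻¹ = k * (k * x * k⁻¹) * k⁻¹ := fun x => by group
  have h' := h.EA_cj (zpowers_le_of_mem (mul_mem a0 a0) ho) (q (by rw [cj, a1, a1])) (q (by rw [cj, a2, a2]))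
    (q (by rw [cj, a3, ← conj_mul, a3, conj_eq_of_mem_centralizer a0 hc, mul_assoc, h.sqZ0 hc, mul_one]))
  exact ⟨_, h', h'.EA_kk p⟩

end Fr

end H60M.A7
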