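import Mathlib
import Cfsg.Agent.Lib.B7S.EB

/-! Type `EE`: Sylow subgroup and transfer. -/

set_option autoImplicit false

namespace H60M.A7

open Subgroup H69 H36.SW

variable {G : Type*} [Group G] [Finite G]

namespace Fr
variable {F : Fr G} {u0 g v d1 d2 : G}

theorem EK.c_no (h : F.EK u0 g v d1 d2) {s : G} (hT : IsSylowIn 2 F.T (centralizer {s})) (s2 : s * s = 1)
    (k : G) : k * s * k⁻¹ ∉ F.U g v d1 d2 := fun hs => by
  obtain ⟨X, h2, sX, c⟩ := h.big hs (cjsq s2 k)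
  obtain ⟨l, -, e⟩ := hT.exists_cj_le (R := X ^ᶜ k⁻¹) (isPGroup_cj (isP_of_P2 fun x hx => .of_sq (h2 x hx)) _) (by
    rw [cj_le_iff, inv_inv, cj_centralizer_singleton]
    exact fun x hx => mem_centralizer_singleton_iff.2 (comm_of_sq h2 hx sX))
  rw [cj_cj] at e
  have : Nat.card X ≤ Nat.card F.W1 := by
    rw [← card_cj X (l * k⁻¹)]
    rcases F.b2_ea h2 e with e | e
    exacts [card_le_of_le e, F.b2_card ▸ card_le_of_le e]
  have c1 := F.cardW1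
  rcases F.cardF0 with ⟨-, c2⟩ | ⟨-, c2⟩ <;> rcases h.toEE.cardZ0 with ⟨-, c3⟩ | ⟨-, -, c3⟩ <;> omega

theorem EK.nOm (h : F.EK u0 g v d1 d2) {s : G} (hs : s ∈ F.U g v d1 d2) : ¬ F.Om s := by
  rintro ⟨k, rfl⟩
  exact h.c_no F.sylT F.tt k hs

theorem EK.c_mem (h : F.EK u0 g v d1 d2) {s : G} (hs : s ∈ F.U g v d1 d2 ⊔ zpowers F.t) :
    s ∈ F.U g v d1 d2 ∨ s * F.t ∈ F.U g v d1 d2 := by
  have := (mem_adj h.tN (F.tt ▸ one_mem _)).1 hs
  rwa [EB.inv_self F.tt] at this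

theorem EK.syl (h : F.EK u0 g v d1 d2) : IsSylowIn 2 (F.U g v d1 d2 ⊔ zpowers F.t) ⊤ := by
  have p := isP_sup h.isP (.of_sq F.tt) h.tN
  have tS : F.t ∈ F.U g v d1 d2 ⊔ zpowers F.t := mem_sup_right (mem_zpowers _)
  refine syl_of_norm (t := F.t) p le_top ?_ fun k _ hk => ?_
  · rw [top_inf_eq, F.sylT.max _ (le_inf ?_ F.sylT.le) inf_le_right (p.to_le inf_le_left)]
    · exact F.sylT
    rw [F.T_eq, closure_le]
    rintro a (rfl | rfl | rfl | rfl)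
    exacts [tS, mem_sup_left h.toEE.b_v1U, mem_sup_left h.toEE.b_v2U, mem_sup_left (h.toEE.b_ZU h.toEE.b_uZ)]
  have o : F.Om (k * F.t * k⁻¹) := ⟨k, rfl⟩
  have m := conj_mem_of_mem_normalizer h.tN
    ((h.c_mem (conj_mem_of_mem_normalizer hk tS)).resolve_left fun m => h.nOm m o)
  rw [mul_assoc, mul_inv_cancel_right] at m
  obtain ⟨l, hl, f, hf, e⟩ := h.invt m (by rw [F.b2_tt]; exact o.sq.1)
  rw [F.b2_tt] at e
  obtain ⟨c, hc, e'⟩ := h.toEE.tr hf (Om.of_cj l (e ▸ o))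
  exact ⟨l * c, mem_sup_left (mul_mem hl (h.toEE.b_ZU hc)), by rw [e, ← e']; group⟩

theorem EK.tE (h : F.EK u0 g v d1 d2) : F.t ∉ F.E :=
  thompson F.En F.Es F.ncE F.tt h.syl le_sup_left (mem_sup_right (mem_zpowers _)) (fun _ => h.c_mem)
    (h.c_no F.sylT F.tt)

theorem EK.uE (h : F.EK u0 g v d1 d2) : F.u1 ∈ F.E := by
  rcases h.cs with ⟨-, -, c⟩ | ⟨e, -⟩
  · have uU := h.toEE.b_ZU h.toEE.b_uZ
    have s2 : F.t * F.u1 * (F.t * F.u1) = 1 := F.sqW1 (mul_mem F.b2_tW (F.X1W1 F.b2_uX))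
    have le : F.T ≤ centralizer {F.t * F.u1} := fun x hx => mem_centralizer_singleton_iff.2
      ((F.cenT (F.W1T (mul_mem F.b2_tW (F.X1W1 F.b2_uX)))).2 (mul_mem F.b2_tZ F.b2_uZ) x hx)
    refine (F.top _).resolve_right (F.tu1 ▸ thompson F.En F.Es F.ncE s2 h.syl le_sup_left
      (mul_mem (mem_sup_right (mem_zpowers _)) (mem_sup_left uU))
      (fun s hs => (h.c_mem hs).imp_right fun m => mul_assoc s _ _ ▸ mul_mem m uU)
      (h.c_no (isSylowIn_of_normalizer le ⟨le_inf le le_normalizer, F.isPT, fun R h1 h2 h3 =>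
        F.sylT.max R h1 (fun x hx => mem_centralizer_singleton_iff.2 ?_) h3⟩) s2))
    have := mem_centralizer_singleton_iff.1 (h2 hx).1
    rwa [mul_assoc, ← c.fx1 x (h2 hx).2, ← mul_assoc, ← mul_assoc, mul_left_inj] at this
  · have := F.comm_mem F.t v
    rwa [EB.inv_self F.tt, EB.inv_self h.vv, mul_assoc, mul_assoc, ← mul_assoc v, h.vt, F.b2_tt, e] at this

theorem EK.fin (h : F.EK u0 g v d1 d2) (hv : v ∈ F.E) : Cl2 F.E := by
  have le : F.U g v d1 d2 ≤ F.E := by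
    refine h.toEE.b_U_le ((closure_le _).2 ?_) F.v1E h.d1E F.v2E h.d2E
    rintro a (rfl | rfl | rfl | rfl)
    exacts [F.zE, h.uE, h.gE, hv]
  have e : (F.U g v d1 d2 ⊔ zpowers F.t) ⊓ F.E = F.U g v d1 d2 := le_antisymm
    (fun s hs => (h.c_mem hs.1).resolve_right fun m => h.tE ((mul_mem_cancel_left hs.2).1 (le m)))
    (le_inf le_sup_left le)
  have := F.En
  refine ⟨_, e ▸ h.syl.inf_normal le_top (by rw [normalizer_eq_top]), fun a ha b hb => (h.Zc (h.comm ha hb)).2,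
    fun c => F.b_nc12 (c h.toEE.b_v2U _ h.toEE.b_v1U), ?_⟩
  rw [h.cardU]
  rcases F.cardF0 with ⟨-, c2⟩ | ⟨-, c2⟩ <;> rcases h.toEE.cardZ0 with ⟨-, c3⟩ | ⟨-, -, c3⟩ <;> omega

end Fr

end H60M.A7
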