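import Mathlib
import Cfsg.Agent.Lib.B7S.TrB

/-! The Held case: the element `h`. -/

set_option autoImplicit false
set_option linter.unusedSectionVars false
set_option linter.unusedSimpArgs false

namespace H60M.A7

open Subgroup H69 H36.SW

variable {G : Type*} [Group G] [Finite G]

local notation "φ" => MulAut.conj

namespace HA

theorem lc {a b c : G} (h : a * b = c) (x : G) : a * (b * x) = c * x := by rw [← mul_assoc, h]

theorem fx {a x : G} (h : x * a = a * x) : φ a x = x := mul_inv_eq_iff_eq_mul.2 h.symm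

theorem sqf {a f : G} (c : a * f = f * a) (h : f * f = 1) : a * f * (a * f) = a * a := by
  rw [mul_assoc, ← mul_assoc f, ← c, mul_assoc, h, mul_one]

theorem strip {a b f : G} (c : b * f = f * b) (h : Commute (a * f) b) : Commute a b := by
  simpa using h.mul_left (Commute.inv_left c.symm)

variable (F : Fr G)

/-- the action of the element `h` on `W2` -/
structure Ak (k : G) : Prop where
  t : φ k F.t = F.t * F.v2
  v : φ k F.v2 = F.v2
  z : φ k F.z = F.u1
  u : φ k F.u1 = F.z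

variable {F} (c : F.CA) {za zc g d v η k : G}
include c

theorem same {a b : G} (ht : φ a F.t = φ b F.t) (hv : φ a F.v2 = φ b F.v2) (hz : φ a F.z = φ b F.z)
    (hu : φ a F.u1 = φ b F.u1) : b⁻¹ * a ∈ 𝐂(F.W2) := by
  have k : ∀ x, φ a x = φ b x → x * (b⁻¹ * a) = b⁻¹ * a * x := fun x e => by
    calc _ = b⁻¹ * φ b x * a := by simp [mul_assoc]
      _ = _ := by rw [← e]; simp [mul_assoc]
  rw [Fr.W2, centralizer_closure]
  rintro _ (rfl | rfl | rfl | rfl)
  exacts [k _ ht, k _ hz, k _ hv, k _ (by rw [F.u2_eq c.u1, map_mul, map_mul, hz, hu])]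

theorem sm {a b : G} (hk : k ∈ 𝐍(F.W2)) (ht : φ (k * a) F.t = φ (b * k) F.t) (hv : φ (k * a) F.v2 = φ (b * k) F.v2)
    (hz : φ (k * a) F.z = φ (b * k) F.z) (hu : φ (k * a) F.u1 = φ (b * k) F.u1) : b⁻¹ * φ k a ∈ 𝐂(F.W2) := by
  simpa [mul_assoc] using conj_mem_of_mem_normalizer (normalizer_le_normalizer_centralizer _ hk) (same c ht hv hz hu)

omit c in
theorem FW : F.F0 ≤ F.W2 := F.sw_F0 ▸ F.sw.F0X1.trans F.sw.X1W1

omit c in
theorem WT : F.W2 ≤ F.T := F.sw_T ▸ F.sw.W1T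

omit c in
theorem form {x : G} (h : x ∈ F.W2) :
    ∃ f ∈ F.F0, x = f ∨ x = F.t * f ∨ x = F.v2 * f ∨ x = F.t * F.v2 * f := by
  obtain ⟨a, b, d, e, rfl⟩ := F.sw.memW1.1 h
  refine ⟨F.z ^ (d : ℕ) * F.u2 ^ (e : ℕ), mul_mem (pow_mem (subset_closure (by simp)) _)
    (pow_mem (subset_closure (by simp)) _), ?_⟩
  fin_cases a <;> fin_cases b <;> simp [Fr.sw, mul_assoc]

omit c in
theorem Ak.left (h : Ak F k) {o : G} (ho : o ∈ 𝐂(F.W2)) : Ak F (o * k) := by
  have m : ∀ x ∈ F.W2, φ o x = x := fun x hx => fx (ho x hx)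
  have t : F.t ∈ F.W2 := subset_closure (by simp)
  have v : F.v2 ∈ F.W2 := subset_closure (by simp)
  constructor <;> rw [map_mul, MulAut.mul_apply]
  exacts [by rw [h.t, m _ (mul_mem t v)], by rw [h.v, m _ v], by rw [h.z, m _ (FW (subset_closure (by simp)))],
    by rw [h.u, m _ (FW (subset_closure (by simp)))]]

theorem Ak.norm (h : Ak F k) : k ∈ 𝐍(F.W2) :=
  mem_normalizer_of_cj_le (map_le_iff_le_comap.2 ((closure_le _).2 (by
    have t : F.t ∈ F.W2 := subset_closure (by simp)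
    have v : F.v2 ∈ F.W2 := subset_closure (by simp)
    have z : F.z ∈ F.W2 := subset_closure (by simp)
    have u : F.u1 ∈ F.W2 := FW (subset_closure (by simp))
    rintro _ (rfl | rfl | rfl | rfl) <;> change φ k _ ∈ F.W2
    exacts [h.t ▸ mul_mem t v, h.z ▸ u, h.v.symm ▸ v, by
      rw [F.u2_eq c.u1, map_mul, h.z, h.u]; exact mul_mem u z])))

theorem Ak.sq (h : Ak F k) : k * k ∈ 𝐂(F.W2) := by
  simpa using same c (a := k * k) (b := 1) (by simp only [map_mul, MulAut.mul_apply, h.t, h.v, mul_assoc, F.v22]; simp)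
    (by simp only [map_mul, MulAut.mul_apply, h.v]; simp) (by simp only [map_mul, MulAut.mul_apply, h.z, h.u]; simp)
    (by simp only [map_mul, MulAut.mul_apply, h.z, h.u]; simp)

omit c in
theorem Ak.f (h : Ak F k) {f : G} (hf : f ∈ F.F0) : φ k f ∈ F.F0 := by
  rcases F.memF0.1 hf with rfl | rfl | rfl | rfl <;> simp only [map_one, map_mul, h.z, h.u, ← F.zu1, F.memF0] <;> simp

end HA

open HA

namespace Fr

set_option maxHeartbeats 1600000 in
theorem CA.hb0 {F : Fr G} (c : F.CA) {za zc g d v η : G} (h : F.Tr F.u1 F.u1 za zc g d v η)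
    (h2 : F.v2 * v * F.v2 = v * F.u1) : ∃ v' k, F.HB0 g d v' η k := by
  set T2 := closure ({F.t, F.v1, F.v2, F.u1, g, v} : Set G) with hT2
  have mt : F.t ∈ T2 := subset_closure (by simp)
  have m1 : F.v1 ∈ T2 := subset_closure (by simp)
  have m2 : F.v2 ∈ T2 := subset_closure (by simp)
  have mg : g ∈ T2 := subset_closure (by simp)
  have mv : v ∈ T2 := subset_closure (by simp)
  have fz : F.z ∈ F.F0 := subset_closure (by simp)
  have fu : F.u1 ∈ F.F0 := subset_closure (by simp)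
  have fc : zc ∈ F.F0 := h.hc.elim (· ▸ one_mem _) (· ▸ fz)
  have W2T : F.W2 ≤ T2 := WT.trans h.TT
  have cf : ∀ {a f}, a ∈ T2 → f ∈ F.F0 → a * f = f * a := fun ha hf => h.F0c hf _ ha
  have ff : ∀ {f}, f ∈ F.F0 → f * f = 1 := fun hf => F.sqW1 (F.X1W1 (F.F0X1 hf))
  have zu : F.z * F.u1 ≠ 1 := F.u2_eq c.u1 ▸ c.u2
  have g1 : g * F.v1 = F.v1 * g := (h.gX _ (subset_closure (by simp))).symm
  have vv1 : v * F.v1 = F.v1 * v := (h.vX _ (subset_closure (by simp))).symm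
  have r1 := F.tv2.symm
  have r2 := F.zt
  have r3 := F.tu1.symm
  have r4 := (cf m2 fz).symm
  have r5 := F.u1v2
  have r6 := F.zu1.symm
  have gv2 : g * F.v2 = F.v2 * (g * F.u1) := by rw [← h.v2g, mul_assoc, lc F.v22, one_mul]
  have vv2 : v * F.v2 = F.v2 * (v * F.u1) := by rw [← h2, mul_assoc, lc F.v22, one_mul]
  have vt : v * F.t * v = F.t * F.u1 := by rw [← h.vt, inv_eq_of_mul_eq_one_right h.vv]
  have a1t : φ F.v1 F.t = F.t := fx F.tv1
  have a1v : φ F.v1 F.v2 = F.z * F.v2 := by rw [← F.v121, MulAut.conj_apply, inv_eq_of_mul_eq_one_right F.v11]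
  have a1z : φ F.v1 F.z = F.z := fx F.zv1
  have a1u : φ F.v1 F.u1 = F.u1 := fx F.u1v1
  have agt : φ g F.t = F.t * F.z := h.gt
  have agv : φ g F.v2 = F.v2 * F.u1 := by rw [MulAut.conj_apply, gv2, cf mg fu]; group
  have agz : φ g F.z = F.z := fx (cf mg fz).symm
  have agu : φ g F.u1 = F.u1 := fx (cf mg fu).symm
  have avt : φ v F.t = F.t * F.u1 := h.vt
  have avv : φ v F.v2 = F.v2 * F.u1 := by rw [MulAut.conj_apply, vv2, cf mv fu]; group
  have avz : φ v F.z = F.z := fx (cf mv fz).symm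
  have avu : φ v F.u1 = F.u1 := fx (cf mv fu).symm
  have ayt : φ F.y2 F.t = F.t := fx F.y2t.symm
  have ayv : φ F.y2 F.v2 = F.z * F.v2 := F.y2v
  have ayz : φ F.y2 F.z = F.v2 := F.y2z
  have ayw : φ F.y2 (F.z * F.u1) = F.z * F.u1 := F.u2_eq c.u1 ▸ fx F.y2u.symm
  have ayu : φ F.y2 F.u1 = F.v2 * (F.z * F.u1) := by rw [← ayw, map_mul, ayz, lc F.v22, one_mul]
  obtain ⟨O, hO, dec, nO⟩ := F.sw.exO1
  rw [sw_W1] at hO dec nO
  have TN : T2 ≤ 𝐍(F.W2) := fun x hx => (c.ns (h.norm hx)).2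
  have mw := mul_mem mg mv
  -- the square of `g v`
  have ww : g * v * (g * v) = F.z * F.u1 := by
    have ne : g * v * (g * v) ≠ F.u1 := fun e => by
      obtain ⟨x, hx, o, ho, e1⟩ := dec _ (sm c (k := F.y2) (a := g * v) (b := g * v) F.sw.y1N
        (by simp only [map_mul, MulAut.mul_apply, ayt, ayz, ayu, agt, agz, agu, avt, mul_assoc, lc F.v22, one_mul])
        (by simp only [map_mul, MulAut.mul_apply, ayv, ayz, ayu, agv, agz, agu, avv, avz, mul_assoc, F.u11, mul_one])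
        (by simp only [map_mul, MulAut.mul_apply, ayz, agv, agz, agu, avv, avz, mul_assoc, F.u11, mul_one])
        (by simp only [map_mul, MulAut.mul_apply, ayu, agv, agz, agu, avv, avz, avu, mul_assoc, lc F.u11, one_mul]))
      generalize g * v = w at e e1 mw
      rw [inv_mul_eq_iff_eq_mul] at e1
      have o1 := conj_mem_of_mem_normalizer' (nO (TN mw)) ho
      have cm := h.comm (inv_mem mw) (W2T hx)
      have e2 : F.v2 * (F.z * F.u1) = F.u1 * (w⁻¹ * x * w⁻¹⁻¹ * x⁻¹) * (w⁻¹ * o * w * o) := by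
        rw [← ayu, ← e, map_mul, e1, inv_eq_of_mul_eq_one_right (F.sw.sqW1 hx)]
        calc _ = w * w * (w⁻¹ * x * w) * (w⁻¹ * o * w * x) * o := by group
          _ = _ := by rw [← ((hO _).1 o1).1 x hx]; group
      have e3 := (P2.of_sq (F.sw.sqW1 ((mul_mem_cancel_left (FW (mul_mem fu cm))).1 (e2 ▸ mul_mem
        (subset_closure (by simp)) (FW (mul_mem fz fu)))))).eq_one ((hO _).1 (mul_mem o1 ho)).2
      rw [e3, mul_one] at e2
      have := cf m1 ((mul_mem_cancel_right (mul_mem fz fu)).1 (e2 ▸ mul_mem fu cm))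
      exact F.z1 (by simpa [this] using F.v21.symm)
    rw [mul_assoc, ← mul_assoc v, h.vg, ← mul_assoc, h.gg] at ne ⊢
    rcases h.ha with rfl | rfl <;> rcases h.hc with rfl | rfl
    · simp at ne
    · rw [one_mul, r6]
    · rw [mul_one]
    · exact (ne (by rw [mul_assoc, r6, lc F.zz, one_mul])).elim
  have s1 : ∀ {k}, Ak F k → v⁻¹ * φ k F.v1 ∈ 𝐂(F.W2) := fun {k} a => by
    refine sm c (a.norm c) ?_ ?_ ?_ ?_ <;>
      simp only [map_mul, MulAut.mul_apply, a.t, a.v, a.z, a.u, a1t, a1v, a1z, a1u, avt, avv, avz, avu, mul_assoc,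
        lc r5, r5, F.u11, mul_one]
  have s2 : ∀ {k}, Ak F k → F.v1⁻¹ * φ k v ∈ 𝐂(F.W2) := fun {k} a => by
    refine sm c (a.norm c) ?_ ?_ ?_ ?_ <;>
      simp only [map_mul, MulAut.mul_apply, a.t, a.v, a.z, a.u, a1t, a1v, a1z, a1u, avt, avv, avz, avu, mul_assoc,
        r4]
  have s3 : ∀ {k}, Ak F k → (g * v)⁻¹ * φ k (g * v) ∈ 𝐂(F.W2) := fun {k} a => by
    refine sm c (a.norm c) ?_ ?_ ?_ ?_ <;>
      simp only [map_mul, MulAut.mul_apply, a.t, a.v, a.z, a.u, agt, agv, agz, agu, avt, avv, avz, avu, mul_assoc,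
        lc r4, lc r5, r4, r5, r6, lc r6, F.u11, lc F.u11, F.zz, mul_one, one_mul]
  -- the element `k`
  obtain ⟨k, a, kN, kE, kk⟩ : ∃ k, Ak F k ∧ k ∈ 𝐍(T2) ∧ k ∈ F.E ∧ k * k = φ F.y2 (g * g) := by
    have e0 : ∀ x, φ (φ F.y2 (g * F.v1)) (φ F.y2 x) = φ F.y2 (φ g (φ F.v1 x)) := fun x => by simp [mul_assoc]
    have kE : φ F.y2 (g * F.v1) ∈ F.E := F.En.conj_mem _ (mul_mem h.gE F.v1E) _
    have kk : φ F.y2 (g * F.v1) * φ F.y2 (g * F.v1) = φ F.y2 (g * g) := by rw [← map_mul, sqf g1 F.v11]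
    generalize φ F.y2 (g * F.v1) = k at e0 kE kk
    have kv : φ k F.v2 = F.v2 := by simpa only [ayz, a1z, agz] using e0 F.z
    have kz : φ k F.z = F.u1 := by
      have := e0 F.v2
      simp only [ayv, a1v, map_mul, agz, agv, ayz, ayu, kv, mul_assoc, lc r4, lc F.v22, one_mul, lc F.zz] at this
      exact mul_right_cancel (this.trans r5.symm)
    have a : Ak F k := ⟨by simpa only [ayt, a1t, agt, map_mul, ayz] using e0 F.t, kv, kz, by
      have := e0 F.u1
      simp only [a1u, agu, ayu, map_mul, kv, kz, mul_right_inj] at this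
      exact mul_left_cancel (this.trans r6.symm)⟩
    have le : 𝐂(F.W2) ≤ T2 ⊔ O := fun x hx => by
      obtain ⟨w, hw, o, ho, rfl⟩ := dec x hx
      exact mul_mem_sup (W2T hw) ho
    have mv' : φ k v ∈ T2 ⊔ O := (mul_mem_cancel_left (inv_mem (mem_sup_left m1))).1 (le (s2 a))
    obtain ⟨o, ho, oN⟩ := frat_odd h.isP2 (fun o ho => ((hO o).1 ho).2) (TN.trans nO) (g := k)
      (map_le_iff_le_comap.2 ((closure_le _).2 (by
        rintro _ (rfl | rfl | rfl | rfl | rfl | rfl) <;> change φ k _ ∈ T2 ⊔ O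
        · exact a.t ▸ mem_sup_left (mul_mem mt m2)
        · exact (mul_mem_cancel_left (inv_mem (mem_sup_left mv))).1 (le (s1 a))
        · exact a.v.symm ▸ mem_sup_left m2
        · exact a.u ▸ mem_sup_left (W2T (FW fz))
        · exact (mul_mem_cancel_right mv').1 (map_mul (φ k) _ _ ▸
            (mul_mem_cancel_left (inv_mem (mem_sup_left mw))).1 (le (s3 a)))
        · exact mv')))
    obtain ⟨m, hm, p⟩ := exists_odd_P2 (o * k)
    have a' := a.left ((hO o).1 ho).1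
    refine ⟨(o * k) ^ m, ?_, pow_mem oN _, pow_mem (mul_mem (F.odd_mem ((hO o).1 ho).2 (by simp)) kE) _, ?_⟩
    · obtain ⟨j, rfl⟩ := hm
      rw [pow_succ, pow_mul, pow_two]
      exact a'.left (pow_mem (a'.sq c) j)
    have o' := mul_mem ho (conj_mem_of_mem_normalizer (nO (a.norm c)) ho)
    have kW : k * k ∈ F.W2 := kk ▸ conj_mem_of_mem_normalizer F.sw.y1N (FW (h.sq mg))
    have cm : Commute (k * k) (o * (k * o * k⁻¹)) := ((hO _).1 o').1 _ kW
    have e : (o * k) ^ m * (o * k) ^ m = k * k * (o * (k * o * k⁻¹)) ^ m := by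
      rw [← (Commute.refl _).mul_pow, show o * k * (o * k) = o * (k * o * k⁻¹) * (k * k) by group, ← cm.eq,
        cm.mul_pow, pow_odd_of_sq (F.sw.sqW1 kW) hm]
    rw [e, (P2.of_sq (F.sw.sqW1 kW)).odd_eq_one (e ▸ p.mul p rfl) (cm.pow_right m).eq ((hO _).1 (pow_mem o' m)).2,
      mul_one, kk]
  have kT : k * k ∈ T2 := W2T (kk ▸ conj_mem_of_mem_normalizer F.sw.y1N (FW (h.sq mg)))
  have toW : ∀ {b x}, b ∈ T2 → x ∈ T2 → b⁻¹ * φ k x ∈ 𝐂(F.W2) → ∃ f ∈ F.F0, φ k x = b * f ∨ φ k x = b * F.t * f ∨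
      φ k x = b * F.v2 * f ∨ φ k x = b * (F.t * F.v2) * f := fun {b x} hb hx e => by
    have m : b⁻¹ * φ k x ∈ T2 := mul_mem (inv_mem hb) (conj_mem_of_mem_normalizer kN hx)
    have m' : b⁻¹ * φ k x ∈ F.W2 := F.sw.p2W1 e (P2.of_mem h.isP2 m)
    simpa only [inv_mul_eq_iff_eq_mul, mul_assoc] using form m'
  have q1 : φ k F.v1 * φ k F.v1 = 1 := by rw [← map_mul, F.v11, map_one]
  have cc : Commute (φ k F.v1) (φ k v) := Commute.map vv1.symm _
  obtain ⟨c0, hc0, k2⟩ : ∃ c0 ∈ F.F0, φ k (φ k F.v1) = F.v1 * c0 :=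
    ⟨_, h.comm (inv_mem m1) kT, by simp [mul_assoc]⟩
  obtain ⟨f1, hf1, e1⟩ : ∃ f ∈ F.F0, φ k F.v1 = v * f := by
    obtain ⟨f, hf, e | e | e | e⟩ := toW mv m1 (s1 a)
    · exact ⟨f, hf, e⟩
    · rw [e, sqf (cf (mul_mem mv mt) hf) (ff hf), ← mul_assoc, vt, mul_assoc, r3, lc F.tt, one_mul] at q1
      exact (c.u1 q1).elim
    · rw [e, sqf (cf (mul_mem mv m2) hf) (ff hf), mul_assoc, ← mul_assoc F.v2, h2, lc h.vv, one_mul] at q1
      exact (c.u1 q1).elim
    · have e2 : φ k v = F.v1 * F.t * (c0 * (φ k f)⁻¹) := by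
        rw [e, map_mul, map_mul, map_mul, a.t, a.v, mul_assoc F.t, F.v22, mul_one] at k2
        rw [mul_assoc, ← mul_assoc F.t, cf mt hc0, ← mul_assoc, ← mul_assoc, ← k2, mul_assoc _ F.t,
          cf mt (inv_mem (a.f hf)), ← mul_assoc, mul_inv_cancel_right, mul_assoc, F.tt, mul_one]
      rw [e, e2] at cc
      have f' := mul_mem hc0 (inv_mem (a.f hf))
      have := (strip (cf (mul_mem mv (mul_mem mt m2)) f') (strip (cf (mul_mem (mul_mem m1 mt) (W2T (FW f'))) hf)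
        cc).symm).eq
      have tv : F.t * v = v * (F.t * F.u1) := by rw [← vt, mul_assoc, lc h.vv, one_mul]
      have v21 : F.v2 * F.v1 = F.v1 * (F.v2 * F.z) := by rw [F.v21, cf (mul_mem m1 m2) fz |>.symm, mul_assoc]
      simp only [mul_assoc, lc v21, lc F.tv1, lc vv1, mul_right_inj, r2, lc r1, lc tv, lc r3, lc F.tt,
        one_mul, r5] at this
      exact (zu (by rw [this, F.zz])).elim
  have e2 : φ k v = F.v1 * (c0 * (φ k f1)⁻¹) := by rw [← mul_assoc, ← k2, e1, map_mul, mul_inv_cancel_right]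
  have f2 := mul_mem hc0 (inv_mem (a.f hf1))
  generalize c0 * (φ k f1)⁻¹ = f at e2 f2
  have q2 : φ k (g * v) * φ k (g * v) = F.z * F.u1 := by rw [← map_mul, ww, map_mul, a.z, a.u, r6]
  have c2 : Commute v (φ k (g * v)) := strip (cf (conj_mem_of_mem_normalizer kN mw) hf1)
    (e1 ▸ Commute.map (Commute.mul_right g1.symm vv1.symm) _)
  have vw : v * (g * v) = g * v * (v * zc) := by rw [← mul_assoc, h.vg, mul_assoc, lc h.vv, one_mul]
  have wt : g * v * F.t * (g * v * F.t) = 1 := by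
    have e : φ (g * v) F.t = F.t * (F.z * F.u1) := by
      simp only [map_mul, MulAut.mul_apply, avt, agt, agu, mul_assoc]
    calc _ = φ (g * v) F.t * (g * v * (g * v)) * F.t := by simp [mul_assoc]
      _ = _ := by rw [e, ww, mul_assoc F.t, ff (mul_mem fz fu), mul_one, F.tt]
  obtain ⟨f3, hf3, e3, rfl⟩ : ∃ f ∈ F.F0, φ k (g * v) = g * v * f ∧ zc = 1 := by
    obtain ⟨f, hf, e | e | e | e⟩ := toW mw mw (s3 a)
    · refine ⟨f, hf, e, ?_⟩
      have := (strip (cf mv hf) (e ▸ c2).symm).eq.symm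
      rwa [vw, mul_right_inj, mul_eq_left] at this
    · rw [e, sqf (cf (mul_mem mw mt) hf) (ff hf), wt] at q2
      exact (zu q2.symm).elim
    · have := (strip (cf mv hf) (e ▸ c2).symm).eq
      rw [← mul_assoc v, vw, mul_assoc, mul_assoc _ (v * zc), mul_right_inj, mul_assoc, ← cf m2 fc, lc vv2,
        mul_assoc, mul_right_inj, mul_assoc, left_eq_mul] at this
      rcases h.hc with rfl | rfl
      · exact (c.u1 (by simpa using this)).elim
      · exact (zu (r6 ▸ this)).elim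
    · have : g * v * F.v2 = F.v2 * (g * v) := by
        rw [mul_assoc, vv2, lc gv2]
        simp only [mul_assoc, lc (cf mv fu).symm, F.u11, mul_one]
      rw [e, sqf (cf (mul_mem mw (mul_mem mt m2)) hf) (ff hf), ← mul_assoc (g * v),
        sqf (Commute.mul_left this F.tv2).eq F.v22, wt] at q2
      exact (zu q2.symm).elim
  obtain rfl : za = F.z := by
    rw [mul_assoc, ← mul_assoc v, h.vg, mul_one, h.gg] at ww
    exact mul_right_cancel ww
  have hh : k * k = F.u2 := by rw [kk, h.gg, ayw, F.u2_eq c.u1]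
  have hg : (g * v * F.v1)⁻¹ * (k * g * k⁻¹) ∈ F.F0 := by
    have e : k * g * k⁻¹ = g * v * F.v1 * (f3 * f⁻¹) := by
      rw [show k * g * k⁻¹ = φ k (g * v) * (φ k v)⁻¹ by simp [mul_assoc], e3, e2, mul_inv_rev, inv_eq_of_mul_eq_one_right F.v11,
        mul_assoc _ f3, ← mul_assoc f3, ← cf m1 (mul_mem hf3 (inv_mem f2)), mul_assoc (g * v)]
    rw [e, inv_mul_cancel_left]
    exact mul_mem hf3 (inv_mem f2)
  have hv2 : k * F.v2 = F.v2 * k := mul_inv_eq_iff_eq_mul.1 a.v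
  have hv : φ k F.v1 = v ∨ φ k F.v1 = v * F.z ∨ φ k F.v1 = v * F.u1 ∨ φ k F.v1 = v * F.u1 * F.z := by
    rcases F.memF0.1 hf1 with rfl | rfl | rfl | rfl <;> simp only [e1, mul_one, mul_assoc, r6, true_or, or_true]
  rw [← or_assoc] at hv
  rcases hv with hv | hv
  · exact ⟨v, k, c, h, h2, a.t, hv2, a.z, a.u, hh, hv, hg, kE⟩
  · refine ⟨v * F.u1, k, c, h.vu c.u1, by rw [← mul_assoc, mul_assoc _ F.u1, r5, ← mul_assoc, h2], a.t, hv2, a.z, a.u,
      hh, hv, ?_, kE⟩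
    rw [← mul_assoc g, mul_assoc _ F.u1, F.u1v1, ← mul_assoc _ F.v1, mul_inv_rev, mul_assoc]
    exact mul_mem (inv_mem fu) hg

end Fr

end H60M.A7
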