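import Mathlib
import Cfsg.Agent.Lib.B7S.TrB
import Cfsg.Agent.Lib.LocStruct.Res

/-! The Held case: `d` and `h` in one 2-group. -/

set_option autoImplicit false

namespace H60M.A7

open Subgroup H69 H36.SW

variable {G : Type*} [Group G] [Finite G]

/-- `L` normalises `N ≤ T` and the elements of odd order of `L` centralise `N` -/
structure HBbG (L N T : Subgroup G) : Prop where
  le : N ≤ T
  nm : L ≤ 𝐍(N)
  ce : ∀ o ∈ L, Odd (orderOf o) → o ∈ 𝐂(N)

theorem HBbG.step {s : Set G} {N T : Subgroup G} {y : G} (k : HBbG (closure s) N T) (hT : IsPGroup 2 T)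
    (hy : y ∈ T) (h : ∀ x ∈ s, y⁻¹ * (x * y * x⁻¹) ∈ N) :
    ∃ N', HBbG (closure s) N' T ∧ N ≤ N' ∧ y ∈ N' := by
  have a : ∀ x ∈ closure s, y⁻¹ * (x * y * x⁻¹) ∈ N := fun x hx => by
    induction hx using closure_induction with
    | mem x hx => exact h x hx
    | one => simp
    | mul a b ha hb ia ib =>
      have := mul_mem ia (conj_mem_of_mem_normalizer (k.nm ha) ib)
      convert this using 1
      group
    | inv a ha ia =>
      have := conj_mem_of_mem_normalizer' (k.nm ha) (inv_mem ia)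
      convert this using 1
      group
  have l : N ≤ closure (insert y (N : Set G)) := fun x hx => subset_closure (Set.mem_insert_of_mem _ hx)
  have m : y ∈ closure (insert y (N : Set G)) := subset_closure (Set.mem_insert _ _)
  refine ⟨_, ⟨(closure_le _).2 (Set.insert_subset hy k.le), fun x hx => mem_normalizer_of_cj_le ?_,
    fun o ho oo => ?_⟩, l, m⟩
  · rw [MonoidHom.map_closure, closure_le]
    rintro _ ⟨w, rfl | hw, rfl⟩
    · have := mul_mem m (l (a x hx))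
      rwa [mul_inv_cancel_left] at this
    · exact l (conj_mem_of_mem_normalizer (k.nm hx) hw)
  · rw [centralizer_closure]
    rintro w (rfl | hw)
    · have n := a o ho
      have c : Commute (w⁻¹ * (o * w * o⁻¹)) o := k.ce o ho oo _ n
      have e := c.mul_pow (orderOf o)
      rw [show w⁻¹ * (o * w * o⁻¹) * o = w⁻¹ * o * w⁻¹⁻¹ by group, conj_pow, pow_orderOf_eq_one, mul_one,
        mul_one, mul_inv_cancel] at e
      have := (P2.of_mem hT (k.le n)).eq_one (oo.of_dvd_nat (orderOf_dvd_of_pow_eq_one e.symm))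
      rw [inv_mul_eq_one, eq_mul_inv_iff_mul_eq] at this
      exact this
    · exact k.ce o ho oo w hw

theorem hbb_cm {N : Subgroup G} {x y : G} (h : x * y = y * x) : y⁻¹ * (x * y * x⁻¹) ∈ N := by
  rw [h, mul_inv_cancel_right, inv_mul_cancel]
  exact one_mem _

namespace Fr

theorem HB0.hbb_chain {F : Fr G} {g d v η h : G} (b : F.HB0 g d v η h) (hv : h * F.v1 * h⁻¹ = v)
    {T : Subgroup G} (e : T = closure ({F.t, F.v1, F.v2, F.u1, g, v} : Set G)) :
    HBbG (closure (insert d⁻¹ (insert h (T : Set G)))) T T := by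
  have tr := b.tr
  have hP : IsPGroup 2 T := e ▸ tr.isP2
  have tT : F.t ∈ T := e ▸ subset_closure (by simp)
  have v1T : F.v1 ∈ T := e ▸ subset_closure (by simp)
  have v2T : F.v2 ∈ T := e ▸ subset_closure (by simp)
  have uT : F.u1 ∈ T := e ▸ subset_closure (by simp)
  have gT : g ∈ T := e ▸ subset_closure (by simp)
  have vT : v ∈ T := e ▸ subset_closure (by simp)
  have zX : F.z ∈ F.X1 := subset_closure (by simp)
  have v1X : F.v1 ∈ F.X1 := subset_closure (by simp)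
  have uX : F.u1 ∈ F.X1 := subset_closure (by simp)
  have zF : F.z ∈ F.F0 := subset_closure (by simp)
  have u2F : F.u2 ∈ F.F0 := subset_closure (by simp)
  have XT : F.X1 ≤ T := e ▸ F.X1W1.trans (F.W1T.trans tr.TT)
  have u2 := F.u2_eq b.ca.u1
  have dX : ∀ x ∈ F.X1, d⁻¹ * x = x * d⁻¹ := fun x hx => (inv_mem tr.dX x hx).symm
  have FT : ∀ y ∈ F.F0, ∀ x ∈ T, x * y = y * x := fun y hy x hx => tr.F0c hy x (e ▸ hx)
  have cm : ∀ y ∈ T, ∀ x ∈ T, y⁻¹ * (x * y * x⁻¹) ∈ F.F0 := fun y hy x hx => by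
    have := tr.comm (e ▸ inv_mem hy) (e ▸ hx)
    rwa [inv_inv, mul_assoc, mul_assoc, ← mul_assoc x] at this
  have dd : d * d = F.v1 * F.u1 := (tr.dd.resolve_left fun e => F.z1 e.1).2
  have vd : v * d * v = d := (tr.vd.resolve_right fun e => F.z1 e.1.symm).2
  have vi : v⁻¹ = v := inv_eq_of_mul_eq_one_right tr.vv
  have vv1 : F.v1 * v = v * F.v1 := tr.vX _ v1X
  have st : ∀ {N : Subgroup G} {y : G}, HBbG (closure (insert d⁻¹ (insert h (T : Set G)))) N T → y ∈ T →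
      y⁻¹ * (d⁻¹ * y * d⁻¹⁻¹) ∈ N → y⁻¹ * (h * y * h⁻¹) ∈ N → (∀ x ∈ T, y⁻¹ * (x * y * x⁻¹) ∈ N) →
      ∃ N', HBbG (closure (insert d⁻¹ (insert h (T : Set G)))) N' T ∧ N ≤ N' ∧ y ∈ N' :=
    fun k hy h1 h2 h3 => k.step hP hy (by
      rintro x (rfl | rfl | hx)
      exacts [h1, h2, h3 x hx])
  obtain ⟨N1, k1, -, m1⟩ := st (N := ⊥) (y := F.u2) ⟨bot_le, fun x _ => mem_normalizer_of_cj_le (by simp),
    fun o _ _ w hw => by rw [mem_bot.1 hw, one_mul, mul_one]⟩ (XT F.u2X1) (hbb_cm (dX _ F.u2X1))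
    (hbb_cm (by rw [← b.hh, mul_assoc])) fun x hx => hbb_cm (FT _ u2F x hx)
  obtain ⟨N2, k2, l2, m2⟩ := st k1 (XT zX) (hbb_cm (dX _ zX))
    (by rw [b.hz, inv_eq_of_mul_eq_one_right F.zz, ← u2]; exact m1) fun x hx => hbb_cm (FT _ zF x hx)
  have uN : F.u1 ∈ N2 := by
    have := mul_mem (inv_mem m2) (l2 m1)
    rwa [u2, inv_mul_cancel_left] at this
  have FN : F.F0 ≤ N2 := (closure_le _).2 (by
    rintro x (rfl | rfl | rfl)
    exacts [m2, uN, l2 m1])
  have hv' : h * v * h⁻¹ = F.v1 := by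
    rw [← hv, show h * (h * F.v1 * h⁻¹) * h⁻¹ = h * h * F.v1 * (h * h)⁻¹ by group, b.hh, F.u2v1,
      mul_inv_cancel_right]
  obtain ⟨N3, k3, l3, m3⟩ := st (y := v * F.v1) k2 (mul_mem vT v1T)
    (hbb_cm (by
      have : d⁻¹ * v = v * d⁻¹ := by
        rw [inv_mul_eq_iff_eq_mul, ← mul_assoc, eq_mul_inv_iff_mul_eq, ← mul_inv_eq_iff_eq_mul, vi, vd]
      rw [← mul_assoc, this, mul_assoc, dX _ v1X, mul_assoc]))
    (hbb_cm (by rw [← mul_inv_eq_iff_eq_mul, ← conj_mul, hv, hv', vv1]))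
    fun x hx => FN (cm _ (mul_mem vT v1T) x hx)
  obtain ⟨N4, k4, l4, m4⟩ := st k3 v1T (hbb_cm (dX _ v1X))
    (by rw [hv, inv_eq_of_mul_eq_one_right F.v11, vv1]; exact m3) fun x hx => l3 (FN (cm _ v1T x hx))
  have l24 := l3.trans l4
  obtain ⟨N5, k5, l5, m5⟩ := st k4 gT
    (by
      rw [inv_inv, mul_assoc, tr.gd, mul_assoc d, inv_mul_cancel_left, inv_mul_cancel_left]
      exact l24 uN)
    (by
      have := mul_mem (l4 m3) (l24 (FN b.hg))
      convert this using 1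
      group)
    fun x hx => l24 (FN (cm _ gT x hx))
  have l25 := l24.trans l5
  obtain ⟨N6, k6, l6, m6⟩ := st k5 v2T
    (by
      rw [inv_inv, tr.dv2, dd, mul_assoc, mul_assoc, inv_mul_cancel_left]
      exact mul_mem m5 (mul_mem (mul_mem (l5 m4) (l25 uN)) (l25 uN)))
    (hbb_cm b.hv2) fun x hx => l25 (FN (cm _ v2T x hx))
  have l26 := l25.trans l6
  obtain ⟨N7, k7, l7, m7⟩ := st k6 tT
    (by
      have : d⁻¹ * F.t * d⁻¹⁻¹ = F.t * F.v1⁻¹ := by
        rw [eq_mul_inv_iff_mul_eq, mul_assoc, inv_inv, ← tr.dX _ v1X, ← mul_assoc, mul_assoc d⁻¹, ← tr.dt]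
        group
      rw [this, inv_mul_cancel_left]
      exact inv_mem (l6 (l5 m4)))
    (by rw [b.ht, inv_mul_cancel_left]; exact m6) fun x hx => l26 (FN (cm _ tT x hx))
  have l47 := (l5.trans l6).trans l7
  have : T ≤ N7 := e.le.trans ((closure_le _).2 (by
    rintro x (rfl | rfl | rfl | rfl | rfl | rfl)
    · exact m7
    · exact l47 m4
    · exact l7 m6
    · exact l7 (l26 uN)
    · exact l7 (l6 m5)
    · have := mul_mem (l47 (l4 m3)) (inv_mem (l47 m4))
      rwa [mul_inv_cancel_right] at this))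
  rwa [le_antisymm k7.le this] at k7

theorem HB0.hb {F : Fr G} {g d v η h : G} (b : F.HB0 g d v η h) (hv : h * F.v1 * h⁻¹ = v) : ∃ k, F.HB g d v η k := by
  have tr := b.tr
  have c := b.hbb_chain hv rfl
  obtain ⟨O, hO, nO, -⟩ := F.exOP tr.isP2 tr.TT tr.Ct
  have TT := tr.TT
  have tT : F.t ∈ closure ({F.t, F.v1, F.v2, F.u1, g, v} : Set G) := subset_closure (by simp)
  have v1T : F.v1 ∈ closure ({F.t, F.v1, F.v2, F.u1, g, v} : Set G) := subset_closure (by simp)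
  have v2T : F.v2 ∈ closure ({F.t, F.v1, F.v2, F.u1, g, v} : Set G) := subset_closure (by simp)
  have uT : F.u1 ∈ closure ({F.t, F.v1, F.v2, F.u1, g, v} : Set G) := subset_closure (by simp)
  have gT : g ∈ closure ({F.t, F.v1, F.v2, F.u1, g, v} : Set G) := subset_closure (by simp)
  have vT : v ∈ closure ({F.t, F.v1, F.v2, F.u1, g, v} : Set G) := subset_closure (by simp)
  generalize closure ({F.t, F.v1, F.v2, F.u1, g, v} : Set G) = T at c hO nO TT tT v1T v2T uT gT vT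
  have zT : F.z ∈ T := F.hz ▸ mul_mem (mul_mem (mul_mem v1T v2T) v1T) v2T
  have u2T : F.u2 ∈ T := F.u2_eq b.ca.u1 ▸ mul_mem zT uT
  have TL : T ≤ closure (insert d⁻¹ (insert h (T : Set G))) := fun x hx => subset_closure (by simp [hx])
  have dL : d ∈ closure (insert d⁻¹ (insert h (T : Set G))) := inv_mem_iff.1 (subset_closure (by simp))
  have hL : h ∈ closure (insert d⁻¹ (insert h (T : Set G))) := subset_closure (by simp)
  generalize closure (insert d⁻¹ (insert h (T : Set G))) = L at c TL dL hL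
  obtain ⟨S, hS, PS⟩ := exists_isSylowIn_le tr.isP (L := L) ((closure_le _).2 (by
    rintro x (rfl | rfl | rfl | rfl | rfl | rfl | rfl)
    exacts [TL tT, TL v1T, TL v2T, TL uT, TL gT, dL, TL vT]))
  have SO : S ≤ 𝐍(O) := hS.le.trans (c.nm.trans nO)
  have LS : L ≤ S ⊔ O := hS.eq_of_res_le le_sup_left (res_le_iff.2 fun o ho oo =>
    mem_sup_right ((hO o).2 ⟨c.ce o ho (Nat.coprime_two_right.1 oo), Nat.coprime_two_right.1 oo⟩))
  obtain ⟨k, kS, o, oO, rfl⟩ := (mem_sup_of_le_normalizer_right SO).1 (LS hL)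
  obtain ⟨oC, oo⟩ := (hO o).1 oO
  have a : ∀ x ∈ T, k * o * x * (k * o)⁻¹ = k * x * k⁻¹ := fun x hx => by
    rw [mul_assoc k, ← oC x hx]
    group
  have kk : k * k = F.u2 := by
    have o' := mul_mem (conj_mem_of_mem_normalizer' (SO kS) oO) oO
    obtain ⟨oC', oo'⟩ := (hO _).1 (inv_mem o')
    have e : k * k = F.u2 * (k⁻¹ * o * k * o)⁻¹ := by rw [← b.hh]; group
    rw [e, (P2.of_sq F.u22).odd_eq_one (e ▸ P2.of_mem hS.isP (mul_mem kS kS)) (oC' _ u2T) oo', mul_one]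
  refine ⟨k, ⟨b.ca, tr, b.v2v, a _ tT ▸ b.ht, ?_, a _ zT ▸ b.hz, a _ uT ▸ b.hu, kk, Or.inl (a _ v1T ▸ hv),
    a _ gT ▸ b.hg, ?_⟩, a _ v1T ▸ hv, hS.isP.to_le ((closure_le _).2 ?_)⟩
  · rw [← mul_inv_eq_iff_eq_mul, ← a _ v2T, b.hv2, mul_inv_cancel_right]
  · have := mul_mem b.hE (inv_mem (F.odd_mem oo (pow_orderOf_eq_one o ▸ one_mem _)))
    rwa [mul_inv_cancel_right] at this
  · rintro x (rfl | rfl | rfl | rfl | rfl | rfl | rfl)
    any_goals exact kS
    all_goals exact PS (subset_closure (by simp))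

end Fr

end H60M.A7
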