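import Mathlib
import Cfsg.Agent.Lib.B7S.HC

/-! The Held case: a Sylow 2-subgroup of `C(Y)`. -/

set_option autoImplicit false
set_option linter.unusedSectionVars false

namespace H60M.A7

open Subgroup H69 H36.SW

variable {G : Type*} [Group G] [Finite G]

namespace Fr
variable {F : Fr G} {g d v η h : G}

theorem HB.hd_memQ (b : F.HB g d v η h) {x : G} :
    x ∈ F.U1 g d v ⊔ zpowers F.t ↔ x ∈ F.U1 g d v ∨ x * F.t ∈ F.U1 g d v := by
  rw [mem_adj b.NU1.1 (F.tt ▸ one_mem _), b.hcR.ti]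

theorem HB.hd_tC (b : F.HB g d v η h) : F.t ∉ 𝐂(F.Y v) := fun e => b.nOm e F.om_t

theorem HB.hd_sqU (b : F.HB g d v η h) {x : G} (hx : x ∈ F.U1 g d v) : x * x ∈ F.Y v := by
  obtain ⟨y, hy, i, j, rfl⟩ := b.memU1.1 hx
  have m : g ^ (i : ℕ) * d ^ (j : ℕ) ∈ F.U1 g d v :=
    mul_mem (pow_mem (F.hc_gU g d v) _) (pow_mem (F.hc_dU g d v) _)
  have e : g ^ (i : ℕ) * d ^ (j : ℕ) * (g ^ (i : ℕ) * d ^ (j : ℕ)) ∈ F.Y v := by
    fin_cases i <;> fin_cases j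
    · simp
    · simpa using b.hc_d2
    · simpa using b.hc_g2
    · simp only [Fin.mk_one, Fin.isValue, Fin.val_one, pow_one, b.sqs.2.2]
      exact mul_mem (mul_mem (F.hc_zY v) (F.hc_v1Y v)) (F.hc_uY v)
  rw [mul_assoc y]
  generalize g ^ (i : ℕ) * d ^ (j : ℕ) = a at m e
  have c := b.hc_UC m y hy
  have : y * a * (y * a) = y * y * (a * a) := by
    calc y * a * (y * a) = y * (a * y) * a := by group
      _ = _ := by rw [← c]; group
  rw [this]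
  exact mul_mem (mul_mem hy hy) e

theorem HB.hd_fix (b : F.HB g d v η h) {x : G} (hx : x ∈ F.U1 g d v) :
    x⁻¹ * (h * d * h⁻¹ * x * (h * d * h⁻¹)⁻¹) ∈ F.Y v := by
  have cY := b.CY.2.2
  have e1 := b.hc_d'g
  have e2 := F.hc_XY v b.hc_d'd
  generalize h * d * h⁻¹ = a at *
  have k : ∀ y ∈ F.Y v, y⁻¹ * (a * y * a⁻¹) ∈ F.Y v := fun y hy => by
    rw [conj_eq_of_mem_centralizer cY hy, inv_mul_cancel]; exact one_mem _
  have nY : F.U1 g d v ≤ 𝐍(F.Y v) := b.hc_UC.trans (centralizer_le_normalizer _)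
  induction hx using closure_induction with
  | mem x hx =>
    rcases hx with rfl | rfl | rfl | rfl | rfl | rfl
    · exact k _ (F.hc_zY v)
    · exact k _ (F.hc_v1Y v)
    · exact k _ (F.hc_uY v)
    · exact k _ (F.hc_vY _)
    · rw [e1, inv_mul_cancel_left]; exact F.hc_zY v
    · have := mul_mem (F.hc_vY v) e2
      rwa [mul_inv_rev, mul_assoc v⁻¹, mul_inv_cancel_left] at this
  | one => simp
  | mul x y hx hy ih1 ih2 =>
    have := mul_mem (conj_mem_of_mem_normalizer' (nY hy) ih1) ih2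
    rwa [show y⁻¹ * (x⁻¹ * (a * x * a⁻¹)) * y * (y⁻¹ * (a * y * a⁻¹)) = (x * y)⁻¹ * (a * (x * y) * a⁻¹) by
      group] at this
  | inv x hx ih =>
    have := conj_mem_of_mem_normalizer (nY hx) (inv_mem ih)
    rwa [show x * (x⁻¹ * (a * x * a⁻¹))⁻¹ * x⁻¹ = x⁻¹⁻¹ * (a * x⁻¹ * a⁻¹) by group] at this

/-- `a` moves `t` into `t c X1` -/
structure HdG (F : Fr G) (g d v a c : G) : Prop where
  cY : a ∈ 𝐂(F.Y v)
  nU : a ∈ 𝐍(F.U1 g d v)
  sq : ∀ x ∈ F.U1 g d v, a * x * (a * x) ∈ F.Y v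
  tr : (F.t * c)⁻¹ * (a * F.t * a⁻¹) ∈ F.X1

theorem HB.hd_ηX (b : F.HB g d v η h) : η ∈ 𝐍(F.X1) := by
  obtain ⟨e1, e2, e3, -⟩ := b.hc_η
  refine hc_nrm ?_
  rintro x (rfl | rfl | rfl)
  · rw [e1]; exact F.hc_v1X
  · rw [e2]; exact mul_mem F.hc_zX F.hc_v1X
  · rw [e3]; exact F.hc_uX

theorem HB.hd_cj (b : F.HB g d v η h) {a c : G} (k : HdG F g d v a c) :
    HdG F g d v (η * a * η⁻¹) (η * c * η⁻¹) := by
  have nY := b.NY.2.2.2
  have nU := b.NU1.2.2.1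
  refine ⟨conj_mem_of_mem_normalizer (normalizer_le_normalizer_centralizer _ nY) k.cY,
    mul_mem (mul_mem nU k.nU) (inv_mem nU), fun x hx => ?_, ?_⟩
  · have := conj_mem_of_mem_normalizer nY (k.sq _ (conj_mem_of_mem_normalizer' nU hx))
    rwa [show η * (a * (η⁻¹ * x * η) * (a * (η⁻¹ * x * η))) * η⁻¹ = η * a * η⁻¹ * x * (η * a * η⁻¹ * x) by
      group] at this
  · have := conj_mem_of_mem_normalizer b.hd_ηX k.tr
    rwa [show η * ((F.t * c)⁻¹ * (a * F.t * a⁻¹)) * η⁻¹ = (η * F.t * η⁻¹ * (η * c * η⁻¹))⁻¹ *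
      (η * a * η⁻¹ * (η * F.t * η⁻¹) * (η * a * η⁻¹)⁻¹) by group, b.hc_η.2.2.2.2] at this

theorem HB.hd_g0 (b : F.HB g d v η h) : HdG F g d v 1 1 :=
  ⟨one_mem _, one_mem _, fun x hx => by simpa using b.hd_sqU hx, by simp⟩

theorem HB.hd_g1 (b : F.HB g d v η h) : HdG F g d v (h * d * h⁻¹) (g * v) := by
  refine ⟨b.CY.2.2, b.NU1.2.2.2, fun x hx => ?_, ?_⟩
  · have e1 := b.hd_fix hx
    have e2 : h * d * h⁻¹ * (h * d * h⁻¹) ∈ F.Y v := by
      have := conj_mem_of_mem_normalizer b.NY.2.2.1 b.hc_d2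
      rwa [show h * (d * d) * h⁻¹ = h * d * h⁻¹ * (h * d * h⁻¹) by group] at this
    generalize h * d * h⁻¹ = a at *
    have := mul_mem (conj_mem_of_mem_normalizer (centralizer_le_normalizer _ (b.hc_UC hx)) (mul_mem e1 e2))
      (b.hd_sqU hx)
    rwa [show x * (x⁻¹ * (a * x * a⁻¹) * (a * a)) * x⁻¹ * (x * x) = a * x * (a * x) by group] at this
  · have := mul_mem F.hc_v1X (F.F0X1 b.d't)
    generalize h * d * h⁻¹ * F.t * (h * d * h⁻¹)⁻¹ = s at *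
    rwa [show F.v1 * ((F.t * g * v * F.v1)⁻¹ * s) = (F.t * (g * v))⁻¹ * s by group] at this

theorem HB.hd_g2 (b : F.HB g d v η h) : ∃ a, HdG F g d v a (d * v) := by
  have := b.hd_cj b.hd_g1
  rw [show η * (g * v) * η⁻¹ = η * g * η⁻¹ * (η * v * η⁻¹) by group, b.tr.ηg, b.hc_η.2.2.2.1] at this
  exact ⟨_, this⟩

theorem HB.hd_g3 (b : F.HB g d v η h) : ∃ a, HdG F g d v a (g * d * v) := by
  obtain ⟨a, k⟩ := b.hd_g2
  have := b.hd_cj k
  rw [show η * (d * v) * η⁻¹ = η * d * η⁻¹ * (η * v * η⁻¹) by group, b.tr.ηd, b.hc_η.2.2.2.1] at this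
  refine ⟨_, this.cY, this.nU, this.sq, ?_⟩
  have e := mul_mem (mul_mem F.hc_zX (mul_mem F.hc_uX F.hc_v1X)) this.tr
  generalize η * a * η⁻¹ * F.t * (η * a * η⁻¹)⁻¹ = s at *
  convert e using 1
  simp only [mul_assoc, mul_inv_rev, one_mul, mul_one, b.hcR.nf]

theorem HB.hd_K (b : F.HB g d v η h) {x : G} (hx : x ∈ F.U1 g d v) (h2 : F.t * x * (F.t * x) = 1) :
    ∃ n ∈ 𝐂(F.Y v) ⊓ 𝐍(F.U1 g d v ⊔ zpowers F.t), (∀ y ∈ F.U1 g d v, n * y * (n * y) ∈ F.Y v) ∧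
      n * F.t * n⁻¹ = F.t * x := by
  obtain ⟨a, c, k, hc⟩ : ∃ a c, HdG F g d v a c ∧ c⁻¹ * x ∈ F.X1 := by
    rcases b.invU1 hx h2 with e | e | e | e
    · exact ⟨_, _, b.hd_g0, by simpa using e⟩
    · exact ⟨_, _, b.hd_g1, e⟩
    · exact b.hd_g2.elim fun a k => ⟨_, _, k, e⟩
    · exact b.hd_g3.elim fun a k => ⟨_, _, k, e⟩
  have hw := mul_mem (inv_mem k.tr) hc
  obtain ⟨x0, h0, e0⟩ := b.trX hw
  have e : a * x0 * F.t * (a * x0)⁻¹ = F.t * x := by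
    calc _ = a * (x0 * F.t * x0⁻¹) * a⁻¹ := by group
      _ = a * F.t * a⁻¹ * (a * (((F.t * c)⁻¹ * (a * F.t * a⁻¹))⁻¹ * (c⁻¹ * x)) * a⁻¹) := by rw [e0]; group
      _ = _ := by rw [conj_eq_of_mem_centralizer k.cY (F.hc_XY v hw)]; group
  refine ⟨a * x0, ⟨mul_mem k.cY (b.hc_UC h0), mem_normalizer_of_cj_le ?_⟩, fun y hy => ?_, e⟩
  · rw [cj_sup, cj_eq_of_mem_normalizer (mul_mem k.nU (le_normalizer h0)), cj_zpowers, e]
    exact sup_le le_sup_left (zpowers_le_of_mem (mul_mem (mem_sup_right (mem_zpowers _)) (mem_sup_left hx)))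
  · rw [mul_assoc a]
    exact k.sq _ (mul_mem h0 hy)

theorem HB.hd_K' (b : F.HB g d v η h) {n : G} (hn : n ∈ 𝐍(F.U1 g d v ⊔ zpowers F.t)) :
    ∃ x ∈ F.U1 g d v, F.t * x * (F.t * x) = 1 ∧ n * F.t * n⁻¹ = F.t * x := by
  have o := F.om_t.cj n
  rcases b.hd_memQ.1 (conj_mem_of_mem_normalizer hn (mem_sup_right (mem_zpowers F.t))) with e | e
  · exact absurd o (b.nOm (b.hc_UC e))
  · have e1 : n * F.t * n⁻¹ = F.t * (F.t * (n * F.t * n⁻¹ * F.t) * F.t⁻¹) := by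
      rw [← mul_assoc, ← mul_assoc, F.tt]; group
    exact ⟨_, conj_mem_of_mem_normalizer b.NU1.1 e, e1 ▸ o.sq.1, e1⟩

theorem HB.hd_ind (b : F.HB g d v η h) {y y' : G} (hy : y ∈ F.Y v) (hy' : y' ∈ F.Y v) {i j i' j' : Fin 2}
    (e : y * g ^ (i : ℕ) * d ^ (j : ℕ) = y' * g ^ (i' : ℕ) * d ^ (j' : ℕ)) : i = i' ∧ j = j' := by
  let f : F.Y v × Fin 2 × Fin 2 → F.U1 g d v := fun p =>
    ⟨p.1 * g ^ (p.2.1 : ℕ) * d ^ (p.2.2 : ℕ), b.memU1.2 ⟨_, p.1.2, _, _, rfl⟩⟩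
  have hs : Function.Surjective f := fun x => by
    obtain ⟨y, hy, i, j, e⟩ := b.memU1.1 x.2
    exact ⟨(⟨y, hy⟩, i, j), Subtype.ext e.symm⟩
  have hb : Function.Bijective f := (Nat.bijective_iff_surjective_and_card f).2 ⟨hs, by
    rw [Nat.card_prod, Nat.card_prod, b.cardY, b.hc_cardU]; simp⟩
  have := hb.1 (a₁ := (⟨y, hy⟩, i, j)) (a₂ := (⟨y', hy'⟩, i', j')) (Subtype.ext e)
  simp only [Prod.mk.injEq] at this
  exact this.2

theorem HB.hd_card (b : F.HB g d v η h) :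
    Set.ncard {s | ∃ n ∈ 𝐂(F.Y v) ⊓ 𝐍(F.U1 g d v ⊔ zpowers F.t), n * F.t * n⁻¹ = s} = 2 ^ 5 := by
  let f : F.X1 × Fin 2 × Fin 2 → G := fun p =>
    F.t * (p.1 * (if p.2.1 = 0 ∧ p.2.2 = 0 then 1 else v) * g ^ (p.2.1 : ℕ) * d ^ (p.2.2 : ℕ))
  have mY : ∀ (w : F.X1) (i j : Fin 2), (w : G) * (if i = 0 ∧ j = 0 then 1 else v) ∈ F.Y v := fun w i j =>
    mul_mem (F.hc_XY v w.2) (by split_ifs; exacts [one_mem _, F.hc_vY v])
  have hi : Function.Injective f := by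
    rintro ⟨w, i, j⟩ ⟨w', i', j'⟩ e
    have e1 := mul_left_cancel e
    dsimp only at e1
    obtain ⟨rfl, rfl⟩ := b.hd_ind (mY w i j) (mY w' i' j') e1
    rw [Subtype.ext (mul_right_cancel (mul_right_cancel (mul_right_cancel e1)))]
  have rules : ∀ w ∈ F.X1, (F.z * w = w * F.z ∧ ∀ r, F.z * (w * r) = w * F.z * r) ∧
      (F.u1 * w = w * F.u1 ∧ ∀ r, F.u1 * (w * r) = w * F.u1 * r) ∧
      (F.v1 * w = w * F.v1 ∧ ∀ r, F.v1 * (w * r) = w * F.v1 * r) ∧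
      (v * w = w * v ∧ ∀ r, v * (w * r) = w * v * r) ∧ (g * w = w * g ∧ ∀ r, g * (w * r) = w * g * r) ∧
      (d * w = w * d ∧ ∀ r, d * (w * r) = w * d * r) ∧
      (F.t * w = w * F.t ∧ ∀ r, F.t * (w * r) = w * F.t * r) ∧
      (w * w = 1 ∧ ∀ r, w * (w * r) = 1 * r) := fun w hw => by
    have wY := F.hc_XY v hw
    have c : ∀ a ∈ F.U1 g d v, a * w = w * a := fun a ha => (b.hc_UC ha w wY).symm
    have YU := F.hc_YU g d v
    exact ⟨hc_asc (c _ (YU (F.hc_zY v))), hc_asc (c _ (YU (F.hc_uY v))), hc_asc (c _ (YU (F.hc_v1Y v))),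
      hc_asc (c _ (YU (F.hc_vY v))), hc_asc (c _ (F.hc_gU g d v)), hc_asc (c _ (F.hc_dU g d v)),
      hc_asc (F.hc_Xt hw).symm, hc_asc (b.sqY wY)⟩
  have hr : {s | ∃ n ∈ 𝐂(F.Y v) ⊓ 𝐍(F.U1 g d v ⊔ zpowers F.t), n * F.t * n⁻¹ = s} = Set.range f := by
    ext s
    constructor
    · rintro ⟨n, hn, rfl⟩
      obtain ⟨x, hx, h2, e⟩ := b.hd_K' hn.2
      rw [e]
      have k : ∀ c : G, c⁻¹ * x ∈ F.X1 → ∃ w ∈ F.X1, x = c * w := fun c hc => ⟨_, hc, by group⟩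
      rcases b.invU1 hx h2 with e | e | e | e
      · exact ⟨(⟨x, e⟩, 0, 0), by simp [f]⟩
      · obtain ⟨w, hw, rfl⟩ := k _ e
        exact ⟨(⟨w, hw⟩, 1, 0), by
          simp only [f, Fin.isValue, one_ne_zero, false_and, if_false, Fin.val_zero, Fin.val_one, pow_zero,
            pow_one, mul_assoc, mul_one, one_mul, rules w hw, b.hcR.nf]⟩
      · obtain ⟨w, hw, rfl⟩ := k _ e
        exact ⟨(⟨w, hw⟩, 0, 1), by
          simp only [f, Fin.isValue, one_ne_zero, and_false, if_false, Fin.val_zero, Fin.val_one, pow_zero,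
            pow_one, mul_assoc, mul_one, one_mul, rules w hw, b.hcR.nf]⟩
      · obtain ⟨w, hw, rfl⟩ := k _ e
        exact ⟨(⟨w, hw⟩, 1, 1), by
          simp only [f, Fin.isValue, one_ne_zero, false_and, if_false, Fin.val_zero, Fin.val_one, pow_zero,
            pow_one, mul_assoc, mul_one, one_mul, rules w hw, b.hcR.nf]⟩
    · rintro ⟨⟨⟨w, hw⟩, i, j⟩, rfl⟩
      obtain ⟨n, hn, -, e⟩ := b.hd_K (b.memU1.2 ⟨_, mY ⟨w, hw⟩ i j, i, j, rfl⟩) (by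
        fin_cases i <;> fin_cases j <;>
          simp only [Fin.zero_eta, Fin.mk_one, Fin.isValue, one_ne_zero, false_and, and_false, and_self,
            if_false, if_true, Fin.val_zero, Fin.val_one, pow_zero, pow_one, mul_assoc, mul_one, one_mul,
            rules w hw, b.hcR.nf])
      exact ⟨n, hn, e⟩
  rw [hr, ← Nat.card_coe_set_eq, Nat.card_range_of_injective hi, Nat.card_prod, Nat.card_prod, b.hc_cardX]
  simp

theorem HB.hd_sq (b : F.HB g d v η h) {P : Subgroup G} (hP : IsPGroup 2 P) (hU : F.U1 g d v ≤ P)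
    (hL : P ≤ 𝐂(F.Y v) ⊓ 𝐍(F.U1 g d v ⊔ zpowers F.t)) {p : G} (hp : p ∈ P) : p * p ∈ F.Y v := by
  obtain ⟨x, hx, h2, e⟩ := b.hd_K' (hL hp).2
  obtain ⟨n, hn, sq, e'⟩ := b.hd_K hx h2
  have cL := mul_mem (inv_mem hn) (hL hp)
  have ct : n⁻¹ * p * F.t = F.t * (n⁻¹ * p) := by
    calc n⁻¹ * p * F.t = n⁻¹ * (p * F.t * p⁻¹) * p := by group
      _ = _ := by rw [e, ← e']; group
  have cW : n⁻¹ * p ∈ 𝐂(F.W1) := hc_cen (by
    rintro y (rfl | rfl | rfl | rfl)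
    exacts [ct.symm, cL.1 _ (F.hc_zY v), cL.1 _ (F.hc_v1Y v), cL.1 _ (F.hc_uY v)])
  obtain ⟨O, hO, dec, nO⟩ := F.exO1
  obtain ⟨w, hw, o, ho, eo⟩ := dec _ cW
  have tW : F.t ∈ F.W1 := subset_closure (by simp)
  have WQ : F.W1 ≤ F.U1 g d v ⊔ zpowers F.t := fun y hy => by
    rcases F.memW1'.1 hy with e | e
    · exact mem_sup_left (F.hc_YU g d v (F.hc_XY v e))
    · have := mul_mem (mem_sup_right (mem_zpowers F.t) : F.t ∈ F.U1 g d v ⊔ zpowers F.t)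
        (mem_sup_left (F.hc_YU g d v (F.hc_XY v e)))
      rwa [← mul_assoc, F.tt, one_mul] at this
  have nW : ∀ a ∈ 𝐂(F.Y v), a * F.t * a⁻¹ ∈ F.W1 → a ∈ 𝐍(F.W1) := fun a ha e => hc_nrm (by
    rintro y (rfl | rfl | rfl | rfl)
    · exact e
    · rw [conj_eq_of_mem_centralizer ha (F.hc_zY v)]; exact F.X1W1 F.hc_zX
    · rw [conj_eq_of_mem_centralizer ha (F.hc_v1Y v)]; exact F.X1W1 F.hc_v1X
    · rw [conj_eq_of_mem_centralizer ha (F.hc_uY v)]; exact F.X1W1 F.hc_uX)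
  have QN : F.U1 g d v ⊔ zpowers F.t ≤ 𝐍(F.W1) := by
    refine sup_le ((closure_le _).2 ?_) (zpowers_le_of_mem (le_normalizer tW))
    rintro y (rfl | rfl | rfl | rfl | rfl | rfl)
    · exact le_normalizer (F.X1W1 F.hc_zX)
    · exact le_normalizer (F.X1W1 F.hc_v1X)
    · exact le_normalizer (F.X1W1 F.hc_uX)
    · exact nW _ (b.hc_YC (F.hc_vY _)) (b.tr.vt ▸ mul_mem tW (F.X1W1 F.hc_uX))
    · exact nW _ b.CY.1 (b.tr.gt ▸ mul_mem tW (F.X1W1 F.hc_zX))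
    · exact nW _ b.CY.2.1 (b.tr.dt ▸ mul_mem tW (F.X1W1 F.hc_v1X))
  have oQ : o ∈ 𝐂(F.U1 g d v ⊔ zpowers F.t) := by
    refine odd_norm_cent (isP_sup b.hc_isPU (P2.of_sq F.tt) b.NU1.1) (fun o ho => ((hO o).1 ho).2)
      (QN.trans nO) ho ?_
    have := mul_mem (inv_mem (le_normalizer (WQ hw))) (mem_inf.1 cL).2
    rwa [eo, inv_mul_cancel_left] at this
  have wX : w ∈ F.X1 := by
    refine b.Ct ?_ (mem_centralizer_singleton_iff.1 (F.sylT.le (F.W1T hw))) (P2.of_sq (F.sqW1 hw))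
    have := mul_mem (mem_inf.1 cL).1 (inv_mem (centralizer_anti ((F.hc_YU g d v).trans le_sup_left) oQ))
    rwa [eo, mul_inv_cancel_right] at this
  have wU := F.hc_YU g d v (F.hc_XY v wX)
  have ep : p = n * w * o := by rw [mul_assoc, ← eo, mul_inv_cancel_left]
  have o' : (n * w)⁻¹ * o * (n * w) ∈ O := by
    refine (hO _).2 ⟨centralizer_anti WQ (conj_mem_of_mem_normalizer'
      (normalizer_le_normalizer_centralizer _ (mul_mem hn.2 (le_normalizer (WQ hw)))) oQ), ?_⟩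
    have := (MulAut.conj (n * w)⁻¹).orderOf_eq o
    rw [MulAut.conj_apply, inv_inv] at this
    rw [this]
    exact ((hO o).1 ho).2
  have e1 : (n * w * (n * w))⁻¹ * (p * p) = (n * w)⁻¹ * o * (n * w) * o := by rw [ep]; group
  have e2 := (P2.of_mem hP (mul_mem (inv_mem (hU (F.hc_YU g d v (sq w wU)))) (mul_mem hp hp))).eq_one
    (e1 ▸ ((hO _).1 (mul_mem o' ho)).2)
  rw [← inv_mul_eq_one.1 e2]
  exact sq w wU

theorem HB.sylY (b : F.HB g d v η h) : ∃ P : Subgroup G, IsSylowIn 2 P 𝐂(F.Y v) ∧ Nat.card P = 256 ∧ ∀ x ∈ P, x * x ∈ F.Y v := by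
  haveI : Fact (Nat.Prime 2) := ⟨Nat.prime_two⟩
  have ti := b.hcR.ti
  obtain ⟨P, hP, hU, tr⟩ := ret b.hc_isPU (le_inf b.hc_UC (le_sup_left.trans le_normalizer)) b.hd_card
  have sq : ∀ x ∈ P, x * x ∈ F.Y v := fun x hx => b.hd_sq hP.isP hU hP.le hx
  have PC : P ≤ 𝐂(F.Y v) := hP.le.trans inf_le_left
  have XP : F.X1 ≤ P := (F.hc_XY v).trans ((F.hc_YU g d v).trans hU)
  refine ⟨P, ?_, ?_, sq⟩
  · have tP : F.t ∈ 𝐍(P) := by
      refine mem_normalizer_of_cj_le fun y hy => ?_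
      obtain ⟨p, hp, rfl⟩ := mem_cj'.1 hy
      obtain ⟨x, hx, -, e⟩ := b.hd_K' (inv_mem (hP.le hp).2)
      have := mul_mem hp (hU (conj_mem_of_mem_normalizer b.NU1.1 hx))
      rwa [← e, show p * (p⁻¹ * F.t * p⁻¹⁻¹ * F.t⁻¹) = F.t * p * F.t⁻¹ by group] at this
    have tC : F.t ∈ 𝐍(𝐂(F.Y v)) := normalizer_le_normalizer_centralizer _ b.NY.1
    have mS : ∀ x, x ∈ P ⊔ zpowers F.t ↔ x ∈ P ∨ x * F.t ∈ P := fun x => by
      rw [mem_adj tP (F.tt ▸ one_mem _), ti]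
    have hS : IsPGroup 2 (P ⊔ zpowers F.t : Subgroup G) := isP_sup hP.isP (P2.of_sq F.tt) tP
    have tS : F.t ∈ P ⊔ zpowers F.t := mem_sup_right (mem_zpowers _)
    have MW : (𝐂(F.Y v) ⊔ zpowers F.t) ⊓ centralizer {F.t} ≤ 𝐂(F.W1) := fun x hx => by
      have cX : x ∈ 𝐂(F.X1) := (sup_le (centralizer_anti (F.hc_XY v))
        (zpowers_le_of_mem fun y hy => F.hc_Xt hy) : 𝐂(F.Y v) ⊔ zpowers F.t ≤ 𝐂(F.X1)) hx.1
      refine hc_cen ?_
      rintro y (rfl | rfl | rfl | rfl)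
      exacts [(mem_centralizer_singleton_iff.1 hx.2).symm, cX _ F.hc_zX, cX _ F.hc_v1X, cX _ F.hc_uX]
    have WS : F.W1 ≤ (P ⊔ zpowers F.t) ⊓ centralizer {F.t} := by
      refine le_inf (fun y hy => ?_) (F.W1T.trans F.sylT.le)
      rcases F.memW1'.1 hy with e | e
      · exact mem_sup_left (XP e)
      · have := mul_mem tS (mem_sup_left (XP e))
        rwa [← mul_assoc, F.tt, one_mul] at this
    have le1 : (P ⊔ zpowers F.t) ⊓ centralizer {F.t} ≤ (𝐂(F.Y v) ⊔ zpowers F.t) ⊓ centralizer {F.t} :=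
      inf_le_inf_right _ (sup_le_sup_right PC _)
    have syl : IsSylowIn 2 (P ⊔ zpowers F.t) (𝐂(F.Y v) ⊔ zpowers F.t) := by
      refine syl_of_norm (t := F.t) hS (sup_le_sup_right PC _) ?_ fun k _ hk => ?_
      · rw [F.sylW1.max _ WS (le1.trans MW) hS.to_inf_left]
        exact F.sylW1.mono (WS.trans le1) MW
      · have o := F.om_t.cj k
        rcases (mS _).1 (conj_mem_of_mem_normalizer hk tS) with e | e
        · exact absurd o (b.nOm (PC e))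
        have s2 := o.sq.1
        generalize k * F.t * k⁻¹ = s at *
        obtain ⟨p, rfl⟩ : ∃ p, s = p * F.t := ⟨s * F.t, by rw [mul_assoc, F.tt, mul_one]⟩
        rw [mul_assoc, F.tt, mul_one] at e
        have y1 := inv_mem (sq p e)
        have e1 : p * F.t * p⁻¹ = F.t * (p * p)⁻¹ := by
          calc p * F.t * p⁻¹ = p * F.t * (p * F.t) * F.t⁻¹ * (p * p)⁻¹ := by group
            _ = _ := by rw [s2, one_mul, ti]
        have yX : (p * p)⁻¹ ∈ F.X1 := by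
          refine b.Ct (b.hc_YC y1) ?_ (P2.of_sq (b.sqY y1))
          have h1 := cjsq F.tt p
          have h2 := b.sqY y1
          rw [e1] at h1
          generalize (p * p)⁻¹ = y at *
          calc y * F.t = (F.t * F.t) * y * F.t * (y * y) := by rw [F.tt, h2]; group
            _ = F.t * (F.t * y * (F.t * y)) * y := by group
            _ = _ := by rw [h1, mul_one]
        obtain ⟨x, hx, e2⟩ := b.trX yX
        have pU : p ∈ F.U1 g d v := by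
          have m := mul_mem (inv_mem (hU hx)) e
          have := mul_mem hx (F.hc_YU g d v (F.hc_XY v (b.Ct (PC m) (by
            calc x⁻¹ * p * F.t = x⁻¹ * (p * F.t * p⁻¹) * p := by group
              _ = _ := by rw [e1, ← e2]; group) (P2.of_mem hP.isP m))))
          rwa [mul_inv_cancel_left] at this
        have e3 : p * F.t = F.t * (F.t * p * F.t⁻¹) := by
          rw [← mul_assoc, ← mul_assoc, F.tt, one_mul, ti]
        obtain ⟨n, hn, -, e4⟩ := b.hd_K (conj_mem_of_mem_normalizer b.NU1.1 pU) (e3 ▸ s2)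
        obtain ⟨q, hq, e5⟩ := tr n hn
        exact ⟨q, mem_sup_left hq, by rw [e5, e4, e3]⟩
    have := syl.inf_normal le_sup_left (sup_le le_normalizer (zpowers_le_of_mem tC))
    have e : (P ⊔ zpowers F.t) ⊓ 𝐂(F.Y v) = P := by
      refine le_antisymm (fun x hx => ?_) (le_inf le_sup_left PC)
      refine ((mS x).1 hx.1).resolve_right fun e => b.hd_tC ?_
      have := mul_mem (inv_mem (mem_inf.1 hx).2) (PC e)
      rwa [inv_mul_cancel_left] at this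
    rwa [e] at this
  · have e1 : {s | ∃ n ∈ P, n * F.t * n⁻¹ = s} =
        {s | ∃ n ∈ 𝐂(F.Y v) ⊓ 𝐍(F.U1 g d v ⊔ zpowers F.t), n * F.t * n⁻¹ = s} := by
      ext s
      constructor
      · rintro ⟨n, hn, rfl⟩
        exact ⟨n, hP.le hn, rfl⟩
      · rintro ⟨n, hn, rfl⟩
        exact tr n hn
    have e2 : P ⊓ centralizer {F.t} = F.X1 :=
      le_antisymm (fun x hx => b.Ct (PC hx.1) (mem_centralizer_singleton_iff.1 hx.2) (P2.of_mem hP.isP hx.1))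
        (le_inf XP fun x hx => mem_centralizer_singleton_iff.2 (F.hc_Xt hx))
    rw [card_orbit F.t P, e1, b.hd_card, e2, b.hc_cardX]
    norm_num

end Fr

end H60M.A7
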