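import Mathlib
import Cfsg.Agent.Lib.B7S.HF

/-! The Held case: the Sylow 2-subgroup of `N(Y)`. -/

set_option autoImplicit false
set_option linter.unusedSectionVars false

namespace H60M.A7

open Subgroup H69 H36.SW

variable {G : Type*} [Group G] [Finite G]

namespace Fr
variable {F : Fr G} {g d v η h θ e : G} {P : Subgroup G}

namespace HG

theorem tX (F : Fr G) {x : G} (hx : x ∈ F.X1) : F.t * x = x * F.t := by
  obtain ⟨b, d, e, rfl⟩ := F.memX1.1 hx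
  exact (((show Commute F.t F.v1 from F.tv1).pow_right _).mul_right
    ((show Commute F.t F.z from F.zt.symm).pow_right _)).mul_right
    ((show Commute F.t F.u1 from F.tu1).pow_right _)

theorem zX (F : Fr G) : F.z ∈ F.X1 := subset_closure (by simp)
theorem vX (F : Fr G) : F.v1 ∈ F.X1 := subset_closure (by simp)
theorem uX (F : Fr G) : F.u1 ∈ F.X1 := subset_closure (by simp)

theorem zv2 (F : Fr G) : F.z * F.v2 = F.v2 * F.z := F.sw.zv1

theorem v2X (F : Fr G) {x : G} (hx : x ∈ F.X1) : F.v2⁻¹ * x * F.v2 ∈ F.X1 := by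
  have i2 : F.v2⁻¹ = F.v2 := inv_eq_of_mul_eq_one_right F.v22
  induction hx using closure_induction with
  | mem x hx =>
    rcases hx with rfl | rfl | rfl
    · rw [mul_assoc, zv2, inv_mul_cancel_left]; exact zX F
    · rw [i2, show F.v2 * F.v1 * F.v2 = F.z * F.v1 from F.sw.v121]; exact mul_mem (zX F) (vX F)
    · rw [mul_assoc, F.u1v2, inv_mul_cancel_left]; exact uX F
  | one => simp
  | mul a b _ _ ha hb =>
    rw [show F.v2⁻¹ * (a * b) * F.v2 = F.v2⁻¹ * a * F.v2 * (F.v2⁻¹ * b * F.v2) by group]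
    exact mul_mem ha hb
  | inv a _ ha =>
    rw [show F.v2⁻¹ * a⁻¹ * F.v2 = (F.v2⁻¹ * a * F.v2)⁻¹ by group]
    exact inv_mem ha

theorem wX (F : Fr G) (a c : Fin 2) {x : G} (hx : x ∈ F.X1) :
    (F.t ^ (a : ℕ) * F.v2 ^ (c : ℕ))⁻¹ * x * (F.t ^ (a : ℕ) * F.v2 ^ (c : ℕ)) ∈ F.X1 := by
  have h1 : (F.t ^ (a : ℕ))⁻¹ * x * F.t ^ (a : ℕ) = x := by
    rw [mul_assoc, ← ((show Commute F.t x from tX F hx).pow_left _).eq, inv_mul_cancel_left]
  rw [show (F.t ^ (a : ℕ) * F.v2 ^ (c : ℕ))⁻¹ * x * (F.t ^ (a : ℕ) * F.v2 ^ (c : ℕ)) =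
    (F.v2 ^ (c : ℕ))⁻¹ * ((F.t ^ (a : ℕ))⁻¹ * x * F.t ^ (a : ℕ)) * F.v2 ^ (c : ℕ) by group, h1]
  fin_cases c
  · simpa using hx
  · simpa using v2X F hx

theorem XY (b : F.HB g d v η h) {x : G} (hx : x ∈ F.X1) : x ∈ F.Y v := b.memY.2 (Or.inl hx)

/-- a conjugate of `t` under `N(Y)` fixes one of `y, y', y y'` -/
theorem fix3 (b : F.HB g d v η h) {k : G} (hk : k ∈ 𝐍(F.Y v)) {y y' : G} (hy : y ∈ F.Y v)
    (hy' : y' ∈ F.Y v) : ∃ x, (x = y ∨ x = y' ∨ x = y * y') ∧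
      k * F.t * k⁻¹ * x = x * (k * F.t * k⁻¹) := by
  have key : ∀ x, k⁻¹ * x * k ∈ F.X1 → k * F.t * k⁻¹ * x = x * (k * F.t * k⁻¹) := by
    intro x hx
    calc k * F.t * k⁻¹ * x = k * (F.t * (k⁻¹ * x * k)) * k⁻¹ := by group
      _ = _ := by rw [tX F hx]; group
  have m : ∀ x ∈ F.Y v, k⁻¹ * x * k ∈ F.Y v := fun x hx => by
    simpa using (mem_normalizer_iff.1 (inv_mem hk) x).1 hx
  rcases b.memY.1 (m y hy) with h1 | h1
  · exact ⟨y, Or.inl rfl, key y h1⟩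
  rcases b.memY.1 (m y' hy') with h2 | h2
  · exact ⟨y', Or.inr (Or.inl rfl), key y' h2⟩
  refine ⟨y * y', Or.inr (Or.inr rfl), key _ ?_⟩
  have vY : v ∈ F.Y v := subset_closure (by simp)
  have c : k⁻¹ * y' * k * v = v * (k⁻¹ * y' * k) :=
    comm_of_sq (A := F.Y v) (fun a ha => b.sqY ha) (m y' hy') vY
  have := mul_mem h1 h2
  rw [c] at this
  rwa [show k⁻¹ * y * k * v * (v * (k⁻¹ * y' * k)) = k⁻¹ * y * k * (v * v) * (k⁻¹ * y' * k) by group,
    b.tr.vv, show k⁻¹ * y * k * 1 * (k⁻¹ * y' * k) = k⁻¹ * (y * y') * k by group] at this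

theorem tcos (b : F.HP g d v η h P θ e) {p : G} (hp : p ∈ P) (ho : F.Om (p * F.t)) :
    ∃ q ∈ P, q * F.t * q⁻¹ = p * F.t := by
  have it : F.t⁻¹ = F.t := inv_eq_of_mul_eq_one_right F.tt
  have h1 : F.t⁻¹ * p * F.t ∈ P := by
    simpa using (mem_normalizer_iff.1 (inv_mem b.tN) p).1 hp
  have e1 : F.t * (F.t⁻¹ * p * F.t) = p * F.t := by group
  obtain ⟨q, hq, e2⟩ := b.invt h1 (by rw [e1]; exact ho.sq.1)
  exact ⟨q, hq, by rw [← e2, e1]⟩

end HG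

theorem HP.sylN (b : F.HP g d v η h P θ e) : IsSylowIn 2 (P ⊔ closure {F.t, F.v2, h} : Subgroup G) 𝐍(F.Y v) := by
  have tS : F.t ∈ (P ⊔ closure {F.t, F.v2, h} : Subgroup G) := mem_sup_right (subset_closure (by simp))
  have vS : F.v2 ∈ (P ⊔ closure {F.t, F.v2, h} : Subgroup G) := mem_sup_right (subset_closure (by simp))
  have hS : h ∈ (P ⊔ closure {F.t, F.v2, h} : Subgroup G) := mem_sup_right (subset_closure (by simp))
  have XS : ∀ x ∈ F.X1, x ∈ (P ⊔ closure {F.t, F.v2, h} : Subgroup G) := fun x hx =>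
    mem_sup_left (b.YP (HG.XY b.toHB hx))
  have TS : F.T ≤ (P ⊔ closure {F.t, F.v2, h} : Subgroup G) := by
    rw [F.T_eq, closure_le]
    rintro x (rfl | rfl | rfl | rfl)
    exacts [tS, XS _ (HG.vX F), vS, XS _ (HG.uX F)]
  refine syl_of_norm (t := F.t) b.isPS b.SN ?_ ?_
  · have e1 : (P ⊔ closure {F.t, F.v2, h} : Subgroup G) ⊓ centralizer {F.t} = F.T :=
      F.sylT.max _ (le_inf TS F.sylT.le) inf_le_right (b.isPS.to_le inf_le_left)
    rw [e1]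
    exact F.sylT.mono (le_inf (TS.trans b.SN) F.sylT.le) inf_le_right
  intro k hk hkS
  have ho : F.Om (k * F.t * k⁻¹) := ⟨k, rfl⟩
  obtain ⟨p, hp, a, c, j, e1⟩ := b.memS.1 ((mem_normalizer_iff.1 hkS F.t).1 tS)
  have hj : j = 0 := by
    by_contra hj
    obtain rfl : j = 1 := by omega
    simp only [Fin.isValue, Fin.val_one, pow_one] at e1
    obtain ⟨x, hx, cx⟩ := HG.fix3 b.toHB hk (HG.XY b.toHB (HG.zX F)) (HG.XY b.toHB (HG.vX F))
    have xX : x ∈ F.X1 := by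
      rcases hx with rfl | rfl | rfl
      exacts [HG.zX F, HG.vX F, mul_mem (HG.zX F) (HG.vX F)]
    have px : x * p = p * x := mem_centralizer_iff.1 (b.cen hp) x (HG.XY b.toHB xX)
    have e2 : h * x * h⁻¹ = (F.t ^ (a : ℕ) * F.v2 ^ (c : ℕ))⁻¹ * x * (F.t ^ (a : ℕ) * F.v2 ^ (c : ℕ)) := by
      rw [e1] at cx
      calc h * x * h⁻¹ = (F.t ^ (a : ℕ) * F.v2 ^ (c : ℕ))⁻¹ * p⁻¹ *
            (p * F.t ^ (a : ℕ) * F.v2 ^ (c : ℕ) * h * x) * h⁻¹ := by group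
        _ = (F.t ^ (a : ℕ) * F.v2 ^ (c : ℕ))⁻¹ * p⁻¹ * (x * p) * (F.t ^ (a : ℕ) * F.v2 ^ (c : ℕ)) := by
            rw [cx]; group
        _ = _ := by rw [px]; group
    have e3 := HG.wX F a c xX
    rcases hx with rfl | rfl | rfl
    · have c1 : Commute F.z (F.t ^ (a : ℕ) * F.v2 ^ (c : ℕ)) :=
        ((show Commute F.z F.t from F.zt).pow_right _).mul_right
          ((show Commute F.z F.v2 from HG.zv2 F).pow_right _)
      rw [b.hz, mul_assoc, c1.eq, inv_mul_cancel_left] at e2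
      apply b.ca.u2
      rw [F.u2_eq b.ca.u1, e2, F.zz]
    · rw [← e2, b.hv] at e3
      exact b.vX e3
    · rw [← e2, show h * (F.z * F.v1) * h⁻¹ = h * F.z * h⁻¹ * (h * F.v1 * h⁻¹) by group, b.hz,
        b.hv] at e3
      exact b.vX ((mul_mem_cancel_left (HG.uX F)).1 e3)
  subst hj
  simp only [Fin.isValue, Fin.val_zero, pow_zero, mul_one] at e1
  rw [e1] at ho ⊢
  fin_cases a <;> fin_cases c <;>
    simp only [pow_zero, pow_one, mul_one] at ho ⊢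
  · exact absurd ho (b.nOm (b.cen hp))
  · have h1 : F.v2⁻¹ * p * F.v2 ∈ P := by
      simpa using (mem_normalizer_iff.1 (inv_mem b.v2N) p).1 hp
    refine absurd ?_ (b.invv h1)
    rwa [show F.v2 * (F.v2⁻¹ * p * F.v2) = p * F.v2 by group]
  · obtain ⟨q, hq, e2⟩ := HG.tcos b hp ho
    exact ⟨q, mem_sup_left hq, e2.symm⟩
  · have h1 : h⁻¹ * p * h ∈ P := by
      simpa using (mem_normalizer_iff.1 (inv_mem b.hN) p).1 hp
    have e2 : p * F.t * F.v2 = h * (h⁻¹ * p * h * F.t) * h⁻¹ := by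
      rw [mul_assoc, ← b.ht]; group
    rw [e2] at ho ⊢
    obtain ⟨q, hq, e3⟩ := HG.tcos b h1 (Om.of_cj h ho)
    exact ⟨h * q, mul_mem hS (mem_sup_left hq), by rw [← e3]; group⟩

end Fr

end H60M.A7
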