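import Mathlib
import Cfsg.Agent.Lib.B7S.HF

/-! The Held case: generators of `UT₅(2)`. -/

set_option autoImplicit false

namespace H60M.A7

open Subgroup H69 H36.SW

variable {G : Type*} [Group G] [Finite G]

set_option linter.unusedSectionVars false

namespace HQ

/-- exponent vectors -/
abbrev V4 := Fin 2 × Fin 2 × Fin 2 × Fin 2

/-- normal forms -/
def n4 {G : Type*} [Group G] (a b c d : G) (x : V4) : G :=
  a ^ (x.1 : ℕ) * b ^ (x.2.1 : ℕ) * c ^ (x.2.2.1 : ℕ) * d ^ (x.2.2.2 : ℕ)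

/-- the commutator -/
def bt {G : Type*} [Group G] (x y : G) : G := x * y * x⁻¹ * y⁻¹

/-- the squaring map -/
def Qf (a : V4) : V4 :=
  (a.1 + a.2.2.1 + a.1 * a.2.2.1 + a.1 * a.2.2.2 + a.2.1 * a.2.2.1,
   a.2.1 + a.2.2.2 + a.1 * a.2.2.2 + a.2.1 * a.2.2.1 + a.2.1 * a.2.2.2,
   a.1 + a.2.1 + a.1 * a.2.1 + a.1 * a.2.2.2 + a.2.1 * a.2.2.1,
   a.2.2.1 + a.2.2.2 + a.1 * a.2.2.2 + a.2.1 * a.2.2.1 + a.2.2.1 * a.2.2.2)

theorem eqns : True := by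
  have := @n4.eq_1.{0}
  have := @bt.eq_1.{0}
  have := @Qf.eq_1
  trivial

theorem n4_add {G : Type*} [Group G] {A : Subgroup G} (h : ∀ x ∈ A, x * x = 1) {a b c d : G} (ha : a ∈ A)
    (hb : b ∈ A) (hc : c ∈ A) (hd : d ∈ A) (x y : V4) :
    n4 a b c d (x + y) = n4 a b c d x * n4 a b c d y := by
  have pw : ∀ {x : G}, x ∈ A → ∀ a b : Fin 2, x ^ ((a + b : Fin 2) : ℕ) = x ^ (a : ℕ) * x ^ (b : ℕ) :=
    fun hx a b => by fin_cases a <;> fin_cases b <;> simp [h _ hx]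
  have k : ∀ {p q : G}, p ∈ A → q ∈ A → ∀ (m n : ℕ) w, p ^ m * (q ^ n * w) = q ^ n * (p ^ m * w) :=
    fun hp hq m n w => by
      rw [← mul_assoc, comm_of_sq h (pow_mem hp m) (pow_mem hq n), mul_assoc]
  simp only [n4, Prod.fst_add, Prod.snd_add, pw ha, pw hb, pw hc, pw hd, mul_assoc]
  rw [k hd ha, k hc ha, k hb ha, k hd hb, k hc hb, k hd hc]

theorem n4_zero {G : Type*} [Group G] (a b c d : G) : n4 a b c d 0 = 1 := by simp [n4]

theorem bt_cj (s x y : G) : s * bt x y * s⁻¹ = bt (s * x * s⁻¹) (s * y * s⁻¹) := by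
  simp only [bt]; group

/-- A central extension of an elementary abelian group by an elementary abelian group. -/
structure Cx (P Y : Subgroup G) (g d D e : G) : Prop where
  YP : Y ≤ P
  cen : P ≤ 𝐂(Y)
  sq : ∀ x ∈ P, x * x ∈ Y
  sqY : ∀ x ∈ Y, x * x = 1
  cm : ∀ x ∈ P, ∀ y ∈ P, bt x y ∈ Y
  gP : g ∈ P
  dP : d ∈ P
  DP : D ∈ P
  eP : e ∈ P

/-- the class of `x` modulo `Y` -/
structure Cl (Y : Subgroup G) (g d D e x : G) (a : V4) : Prop where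
  out : (n4 g d D e a)⁻¹ * x ∈ Y

namespace Cx
variable {P Y : Subgroup G} {g d D e : G} (c : Cx P Y g d D e)
include c

theorem cc {x y : G} (hx : x ∈ P) (hy : y ∈ Y) : y * x = x * y :=
  mem_centralizer_iff_commute.1 (c.cen hx) y hy

theorem wP (a : V4) : n4 g d D e a ∈ P :=
  mul_mem (mul_mem (mul_mem (pow_mem c.gP _) (pow_mem c.dP _)) (pow_mem c.DP _)) (pow_mem c.eP _)

theorem mem {x : G} {a : V4} (h : Cl Y g d D e x a) : x ∈ P := by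
  have := mul_mem (c.wP a) (c.YP h.out)
  rwa [mul_inv_cancel_left] at this

theorem ww (a b : V4) : Cl Y g d D e (n4 g d D e a * n4 g d D e b) (a + b) := by
  haveI : (Y.subgroupOf P).Normal := ⟨fun n hn p => by
    rw [mem_subgroupOf] at hn ⊢
    rw [coe_mul, coe_mul, ← c.cc p.2 hn, coe_inv, mul_inv_cancel_right]
    exact hn⟩
  have k := n4_add (A := (⊤ : Subgroup (P ⧸ Y.subgroupOf P))) (fun x _ => by
    obtain ⟨x, rfl⟩ := QuotientGroup.mk_surjective x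
    rw [← QuotientGroup.mk_mul, QuotientGroup.eq_one_iff]
    exact c.sq _ x.2) (mem_top ((⟨g, c.gP⟩ : P) : P ⧸ Y.subgroupOf P)) (mem_top ((⟨d, c.dP⟩ : P) : P ⧸ Y.subgroupOf P))
    (mem_top ((⟨D, c.DP⟩ : P) : P ⧸ Y.subgroupOf P)) (mem_top ((⟨e, c.eP⟩ : P) : P ⧸ Y.subgroupOf P)) a b
  simp only [n4, ← QuotientGroup.mk_pow, ← QuotientGroup.mk_mul] at k
  rw [QuotientGroup.eq, mem_subgroupOf] at k
  exact ⟨by simpa [n4] using k⟩

theorem mul {x y : G} {a b : V4} (h : Cl Y g d D e x a) (k : Cl Y g d D e y b) :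
    Cl Y g d D e (x * y) (a + b) := by
  have := mul_mem (mul_mem (c.ww a b).out h.out) k.out
  rw [mul_assoc, mul_assoc, mul_assoc, ← mul_assoc (n4 g d D e b), ← c.cc (c.wP b) h.out] at this
  exact ⟨by simpa [mul_assoc] using this⟩

theorem mul' {x y : G} {a b r : V4} (h : Cl Y g d D e x a) (k : Cl Y g d D e y b)
    (s : a + b = r := by decide) : Cl Y g d D e (x * y) r := s ▸ c.mul h k

omit c in
theorem of {x y : G} {a : V4} (h : Cl Y g d D e x a) (k : x⁻¹ * y ∈ Y) : Cl Y g d D e y a := by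
  have := mul_mem h.out k
  exact ⟨by simpa [mul_assoc] using this⟩

omit c in
theorem rel {x y : G} {a : V4} (h : Cl Y g d D e x a) (k : Cl Y g d D e y a) : x⁻¹ * y ∈ Y := by
  have := mul_mem (inv_mem h.out) k.out
  simpa [mul_assoc] using this

omit c in
theorem cj {x y s : G} {a b : V4} (hs : s ∈ 𝐍(Y)) (h : Cl Y g d D e x a) (k : Cl Y g d D e y a)
    (l : Cl Y g d D e (s * x * s⁻¹) b) : Cl Y g d D e (s * y * s⁻¹) b :=
  of l (by simpa [mul_assoc] using conj_mem_of_mem_normalizer hs (rel h k))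

theorem sq_eq {x y : G} (hx : x ∈ P) (k : x⁻¹ * y ∈ Y) : y * y = x * x := by
  obtain ⟨u, rfl⟩ : ∃ u, y = x * u := ⟨x⁻¹ * y, by group⟩
  rw [inv_mul_cancel_left] at k
  rw [mul_assoc, ← mul_assoc u, c.cc hx k, mul_assoc, c.sqY u k, mul_one]

theorem bl {x y w : G} (hx : x ∈ P) (hy : y ∈ P) (hw : w ∈ P) : bt (x * y) w = bt x w * bt y w := by
  have : bt (x * y) w = x * bt y w * x⁻¹ * bt x w := by simp only [bt]; group
  rw [this, ← c.cc hx (c.cm y hy w hw), mul_inv_cancel_right,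
    c.cc (c.YP (c.cm x hx w hw)) (c.cm y hy w hw)]

theorem sy {x y : G} (hx : x ∈ P) (hy : y ∈ P) : bt x y = bt y x := by
  rw [← inv_eq_of_mul_eq_one_right (c.sqY _ (c.cm x hx y hy))]
  simp only [bt]; group

theorem br {x y w : G} (hx : x ∈ P) (hy : y ∈ P) (hw : w ∈ P) : bt w (x * y) = bt w x * bt w y := by
  rw [c.sy hw (mul_mem hx hy), c.bl hx hy hw, c.sy hx hw, c.sy hy hw]

theorem bl_eq {x y w : G} (hx : x ∈ P) (k : x⁻¹ * y ∈ Y) (hw : w ∈ P) : bt y w = bt x w := by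
  obtain ⟨u, rfl⟩ : ∃ u, y = x * u := ⟨x⁻¹ * y, by group⟩
  rw [inv_mul_cancel_left] at k
  rw [c.bl hx (c.YP k) hw, bt.eq_1 u, c.cc hw k]
  group

theorem br_eq {x y w : G} (hx : x ∈ P) (k : x⁻¹ * y ∈ Y) (hw : w ∈ P) : bt w y = bt w x := by
  have hy : y ∈ P := by simpa using mul_mem hx (c.YP k)
  rw [c.sy hw hy, c.bl_eq hx k hw, c.sy hx hw]

theorem qm {x y : G} (hx : x ∈ P) (hy : y ∈ P) : x * y * (x * y) = x * x * (y * y) * bt x y := by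
  have : x * y * (x * y) = x * (bt y x * (x * y * y)) := by simp only [bt]; group
  rw [this, c.cc (mul_mem (mul_mem hx hy) hy) (c.cm y hy x hx), c.sy hy hx]
  group

end Cx

theorem bp (x y : G) (i j : Fin 2) : bt (x ^ (i : ℕ)) (y ^ (j : ℕ)) = bt x y ^ ((i * j : Fin 2) : ℕ) := by
  fin_cases i <;> fin_cases j <;> simp [bt]

theorem qp (x : G) (i : Fin 2) : x ^ (i : ℕ) * x ^ (i : ℕ) = (x * x) ^ (i : ℕ) := by
  fin_cases i <;> simp

theorem np (a b c d : G) (x : V4) (i : Fin 2) : n4 a b c d x ^ (i : ℕ) = n4 a b c d (i • x) := by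
  fin_cases i <;> simp [n4_zero]

end HQ

open HQ

namespace Fr
variable {F : Fr G} {g d v η h θ e : G} {P : Subgroup G}

theorem HP.cx (b : F.HP g d v η h P θ e) : Cx P (F.Y v) g d (h * d * h⁻¹) e where
  YP := b.YP
  cen := b.cen
  sq := b.sq
  sqY := fun _ => b.toHB.sqY
  cm := fun _ hx _ hy => b.comm hx hy
  gP := b.gen ▸ subset_closure (by simp)
  dP := b.gen ▸ subset_closure (by simp)
  DP := b.gen ▸ subset_closure (by simp)
  eP := b.gen ▸ subset_closure (by simp)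

theorem HQm (F : Fr G) (v : G) : F.z ∈ F.Y v ∧ F.v1 ∈ F.Y v ∧ F.u1 ∈ F.Y v ∧ v ∈ F.Y v :=
  ⟨subset_closure (by simp), subset_closure (by simp), subset_closure (by simp), subset_closure (by simp)⟩

theorem HP.yadd (b : F.HP g d v η h P θ e) (x y : V4) :
    n4 F.z F.v1 F.u1 v x * n4 F.z F.v1 F.u1 v y = n4 F.z F.v1 F.u1 v (x + y) :=
  let ⟨h1, h2, h3, h4⟩ := F.HQm v
  (n4_add b.cx.sqY h1 h2 h3 h4 x y).symm

theorem HP.ymem (b : F.HP g d v η h P θ e) {x : G} (hx : x ∈ F.Y v) : ∃ a, x = n4 F.z F.v1 F.u1 v a := by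
  induction hx using closure_induction with
  | mem x hx =>
    rcases hx with rfl | rfl | rfl | rfl
    exacts [⟨(1, 0, 0, 0), by simp [n4]⟩, ⟨(0, 1, 0, 0), by simp [n4]⟩, ⟨(0, 0, 1, 0), by simp [n4]⟩,
      ⟨(0, 0, 0, 1), by simp [n4]⟩]
  | one => exact ⟨0, (n4_zero _ _ _ _).symm⟩
  | mul x y _ _ hx hy =>
    obtain ⟨a, rfl⟩ := hx
    obtain ⟨c, rfl⟩ := hy
    exact ⟨_, b.yadd a c⟩
  | inv x m hx => rwa [inv_eq_of_mul_eq_one_right (b.toHB.sqY m)]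

theorem HP.yone (b : F.HP g d v η h P θ e) {x : V4} (k : n4 F.z F.v1 F.u1 v x = 1) : x = 0 := by
  obtain ⟨i, j, l, m⟩ := x
  have h4 : m = 0 := by
    by_contra n
    obtain rfl : m = 1 := by omega
    apply b.toHB.vX
    have : v = (F.z ^ (i : ℕ) * F.v1 ^ (j : ℕ) * F.u1 ^ (l : ℕ))⁻¹ := by
      rw [eq_comm, inv_eq_iff_mul_eq_one, ← k]
      simp [n4]
    rw [this]
    exact inv_mem (mul_mem (mul_mem (pow_mem (subset_closure (by simp)) _)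
      (pow_mem (subset_closure (by simp)) _)) (pow_mem (subset_closure (by simp)) _))
  subst h4
  obtain ⟨-, h1, -, h2, h3⟩ := F.ind (a := 0) (b := j) (c := 0) (d := i) (e := l) (by
    rw [← k, n4, ((show Commute F.z F.v1 from F.zv1).pow_pow _ _).eq]
    simp)
  rw [h1, h2, h3.resolve_right b.ca.u1]
  rfl

theorem HP.yinj (b : F.HP g d v η h P θ e) {x y : V4}
    (k : n4 F.z F.v1 F.u1 v x = n4 F.z F.v1 F.u1 v y) : x = y := by
  have : x + y = 0 := b.yone (by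
    rw [← b.yadd, k, b.yadd, show y + y = 0 by clear k; revert y; decide, n4_zero])
  clear k
  revert x y
  decide

theorem HP.yh (b : F.HP g d v η h P θ e) (x : V4) :
    h * n4 F.z F.v1 F.u1 v x * h⁻¹ = n4 F.z F.v1 F.u1 v (x.2.2.1, x.2.2.2, x.1, x.2.1) := by
  have k : ∀ {x y}, h * x * h⁻¹ = y → (MulAut.conj h) x = y := id
  change (MulAut.conj h) _ = _
  rw [show (x.2.2.1, x.2.2.2, x.1, x.2.1) = ((0, 0, x.1, 0) + (0, 0, 0, x.2.1) + (x.2.2.1, 0, 0, 0) +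
    (0, x.2.2.2, 0, 0) : V4) by simp, ← b.yadd, ← b.yadd, ← b.yadd]
  simp only [n4, map_mul, map_pow, k b.hz, k b.hu, k b.hv, k b.toHB.hv']
  simp

theorem HP.yθ (b : F.HP g d v η h P θ e) (x : V4) :
    θ * n4 F.z F.v1 F.u1 v x * θ⁻¹ = n4 F.z F.v1 F.u1 v (x.2.1, x.1 + x.2.1, x.2.2.1, x.2.2.2) := by
  obtain ⟨h1, h2, h3, h4, -⟩ := b.θact
  have k : ∀ {x y}, θ * x * θ⁻¹ = y → (MulAut.conj θ) x = y := id
  change (MulAut.conj θ) _ = _
  rw [show (x.2.1, x.1 + x.2.1, x.2.2.1, x.2.2.2) = ((0, x.1, 0, 0) + (x.2.1, x.2.1, 0, 0) +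
    (0, 0, x.2.2.1, 0) + (0, 0, 0, x.2.2.2) : V4) by simp, ← b.yadd, ← b.yadd, ← b.yadd]
  simp only [n4, map_mul, map_pow, k h1, k h2, k h3, k h4, (show Commute F.z F.v1 from F.zv1).mul_pow]
  simp

theorem HP.Q0 (b : F.HP g d v η h P θ e) (a : V4) :
    n4 g d (h * d * h⁻¹) e a * n4 g d (h * d * h⁻¹) e a = n4 F.z F.v1 F.u1 v (Qf a) := by
  have c := b.cx
  obtain ⟨s1, s2, s3⟩ := b.toHB.sqs
  obtain ⟨-, -, -, -, -, t1, t2, t3⟩ := b.θact
  obtain ⟨k1, k2⟩ := b.hact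
  have he := b.he
  generalize hD : h * d * h⁻¹ = D at *
  have cj : ∀ s x : G, s * x * s⁻¹ * (s * x * s⁻¹) = s * (x * x) * s⁻¹ := fun s x => by group
  have qg : g * g = n4 F.z F.v1 F.u1 v (1, 0, 1, 0) := by simp [n4, s1]
  have qd : d * d = n4 F.z F.v1 F.u1 v (0, 1, 1, 0) := by simp [n4, s2]
  have qD : D * D = n4 F.z F.v1 F.u1 v (1, 0, 0, 1) := by rw [← hD, cj, qd, b.yh]
  have qe : e * e = n4 F.z F.v1 F.u1 v (0, 1, 0, 1) := by rw [he, cj, qD, b.yθ]; rfl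
  have sol : ∀ {x y : G} {p q r : V4}, x ∈ P → y ∈ P → x * x = n4 F.z F.v1 F.u1 v p →
      y * y = n4 F.z F.v1 F.u1 v q → x * y * (x * y) = n4 F.z F.v1 F.u1 v r →
      bt x y = n4 F.z F.v1 F.u1 v (p + q + r) := fun {x y p q r} hx hy e1 e2 e3 => by
    obtain ⟨m, hm⟩ := b.ymem (c.cm x hx y hy)
    rw [c.qm hx hy, e1, e2, hm, b.yadd, b.yadd] at e3
    rw [hm, ← b.yinj e3]
    congr 1
    clear * -
    revert p q m
    decide +kernel
  have gd : bt g d = n4 F.z F.v1 F.u1 v (0, 0, 1, 0) :=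
    sol (r := (1, 1, 1, 0)) c.gP c.dP qg qd (by simp [n4, s3])
  have gD : bt g D = n4 F.z F.v1 F.u1 v (1, 0, 0, 0) := by
    rw [← c.bl_eq c.gP k1 c.DP, ← hD, ← bt_cj, gd, b.yh]
  have de : bt d e = n4 F.z F.v1 F.u1 v (0, 1, 0, 0) := by
    rw [← t1, he, ← bt_cj, gD, b.yθ]; rfl
  have De : bt D e = n4 F.z F.v1 F.u1 v (0, 0, 0, 1) :=
    sol (r := (1, 1, 0, 1)) c.DP c.eP qD qe (by
      rw [← c.sq_eq (mul_mem c.DP c.eP) t3, cj, qe, b.yθ]; rfl)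
  obtain ⟨m, dD⟩ := b.ymem (c.cm d c.dP D c.DP)
  obtain ⟨n, ge⟩ := b.ymem (c.cm g c.gP e c.eP)
  have gdP := mul_mem c.gP c.dP
  have DeP := mul_mem c.DP c.eP
  have r1 := b.yh m
  rw [← dD, bt_cj, hD, k2, c.sy c.DP c.dP, dD] at r1
  have r2 := b.yθ n
  rw [← ge, bt_cj, t1, c.br_eq DeP t3 c.dP, c.br c.DP c.eP c.dP, dD, de, b.yadd] at r2
  have r3 := b.yθ (0, 1, 0, 0)
  rw [← de, bt_cj, t2, c.br_eq DeP t3 (inv_mem gdP),
    c.bl_eq gdP (by simpa using inv_mem (c.sq _ gdP)) DeP, c.bl c.gP c.dP DeP, c.br c.DP c.eP c.gP,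
    c.br c.DP c.eP c.dP, gD, ge, dD, de, b.yadd, b.yadd, b.yadd] at r3
  have r : m = (1, 1, 1, 1) ∧ n = (1, 1, 1, 1) := by
    have r1 := b.yinj r1
    have r2 := b.yinj r2
    have r3 := b.yinj r3
    clear * - r1 r2 r3
    revert m n
    decide +kernel
  obtain ⟨rfl, rfl⟩ := r
  obtain ⟨i, j, k, l⟩ := a
  have p1 := pow_mem c.gP (i : ℕ)
  have p2 := pow_mem c.dP (j : ℕ)
  have p3 := pow_mem c.DP (k : ℕ)
  have p4 := pow_mem c.eP (l : ℕ)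
  rw [n4.eq_1 g, c.qm (mul_mem (mul_mem p1 p2) p3) p4, c.qm (mul_mem p1 p2) p3, c.qm p1 p2,
    c.bl (mul_mem p1 p2) p3 p4, c.bl p1 p2 p4, c.bl p1 p2 p3]
  simp only [bp, qp, qg, qd, qD, qe, gd, gD, de, De, dD, ge, np, b.yadd]
  congr 1
  clear * -
  revert i j k l
  decide +kernel

theorem HP.Q (b : F.HP g d v η h P θ e) {x : G} {a : V4} (k : Cl (F.Y v) g d (h * d * h⁻¹) e x a) :
    x * x = n4 F.z F.v1 F.u1 v (Qf a) :=
  (b.cx.sq_eq (b.cx.wP a) k.out).trans (b.Q0 a)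

theorem HP.Q1 (b : F.HP g d v η h P θ e) {x : G} {a : V4} (k : Cl (F.Y v) g d (h * d * h⁻¹) e x a) :
    x * x = 1 ↔ Qf a = 0 := by
  rw [b.Q k]
  exact ⟨b.yone, fun e => by rw [e, n4_zero]⟩

theorem HP.cls (b : F.HP g d v η h P θ e) {x : G} (hx : x ∈ P) :
    ∃ a, Cl (F.Y v) g d (h * d * h⁻¹) e x a := by
  obtain ⟨y, hy, i, j, k, l, rfl⟩ := b.memP.1 hx
  refine ⟨(i, j, k, l), ⟨?_⟩⟩
  have := b.cx.cc (b.cx.wP (i, j, k, l)) hy
  simp only [n4, ← mul_assoc] at this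
  rw [this, n4, inv_mul_cancel_left]
  exact hy

theorem HQc (Y : Subgroup G) (g d D e : G) : Cl Y g d D e g (1, 0, 0, 0) ∧ Cl Y g d D e d (0, 1, 0, 0) ∧
    Cl Y g d D e D (0, 0, 1, 0) ∧ Cl Y g d D e e (0, 0, 0, 1) := by
  refine ⟨⟨?_⟩, ⟨?_⟩, ⟨?_⟩, ⟨?_⟩⟩ <;> simp [n4]

theorem HP.sing (b : F.HP g d v η h P θ e) : g * e * (g * e) = 1 := by
  obtain ⟨c1, -, -, c4⟩ := HQc (F.Y v) g d (h * d * h⁻¹) e
  exact (b.Q1 (b.cx.mul c1 c4)).2 (by decide)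

/-- The class of a conjugate of `g e`. -/
theorem HP.cge (b : F.HP g d v η h P θ e) {s : G} (hs : s ∈ 𝐍(P)) {p q : V4}
    (h1 : Cl (F.Y v) g d (h * d * h⁻¹) e (s * (g * d * (h * d * h⁻¹)) * s⁻¹) (1, 1, 1, 0))
    (h2 : Cl (F.Y v) g d (h * d * h⁻¹) e (s * (h * d * h⁻¹) * s⁻¹) p)
    (h3 : ∀ a, Qf (a + (1, 1, 1, 0)) = 0 → Qf (a + p) = 0 → Qf a = 0 → a = q) :
    Cl (F.Y v) g d (h * d * h⁻¹) e (s * (g * e) * s⁻¹) q := by
  have c := b.cx
  obtain ⟨c1, c2, c3, c4⟩ := HQc (F.Y v) g d (h * d * h⁻¹) e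
  obtain ⟨a, ha⟩ := b.cls (conj_mem_of_mem_normalizer hs (mul_mem c.gP c.eP))
  have m : ∀ x y : G, s * x * s⁻¹ * (s * y * s⁻¹) = s * (x * y) * s⁻¹ := fun x y => by group
  refine h3 a ((b.Q1 (c.mul ha h1)).1 ?_) ((b.Q1 (c.mul ha h2)).1 ?_) ((b.Q1 ha).1 (cjsq b.sing s)) ▸ ha
  · rw [m]
    exact cjsq ((b.Q1 (c.mul (c.mul c1 c4) (c.mul (c.mul c1 c2) c3))).2 (by decide)) s
  · rw [m]
    exact cjsq ((b.Q1 (c.mul (c.mul c1 c4) c3)).2 (by decide)) s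

theorem HP.u5 (b : F.HP g d v η h P θ e) : ∃ x, U5 (P ⊔ closure {F.v2, h} : Subgroup G) (F.v2 * h * F.z) x (F.t * x * F.t) (h * F.z) := by
  have c := b.cx
  obtain ⟨c1, c2, c3, c4⟩ := HQc (F.Y v) g d (h * d * h⁻¹) e
  obtain ⟨zY, -, uY, -⟩ := F.HQm v
  obtain ⟨tY, vY, hY, -⟩ := b.toHB.NY
  obtain ⟨k1, k2⟩ := b.hact
  obtain ⟨w1, w2, w3, -⟩ := b.vact
  obtain ⟨t1, t2, t3, -⟩ := b.tact
  have iv : F.v2⁻¹ = F.v2 := inv_eq_of_mul_eq_one_right F.v22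
  have it : F.t⁻¹ = F.t := inv_eq_of_mul_eq_one_right F.tt
  have m3 : ∀ s x y w : G, s * (x * y * w) * s⁻¹ = s * x * s⁻¹ * (s * y * s⁻¹) * (s * w * s⁻¹) :=
    fun s x y w => by group
  have c14 := c.mul' (r := (1, 0, 0, 1)) c1 c4
  have c123 := c.mul' (r := (1, 1, 1, 0)) (c.mul c1 c2) c3
  have c13 := c.mul' (r := (1, 0, 1, 0)) c1 c3
  have hh : h * h = F.z * F.u1 := b.hh.trans (F.u2_eq b.ca.u1)
  have a1 := b.cge b.hN (p := (0, 1, 0, 0)) (q := (1, 0, 0, 1))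
    (by rw [m3, k2]; exact c.mul' (c.mul (Cx.of c1 k1) c3) c2) (by rw [k2]; exact c2) (by decide +kernel)
  have a2 := b.cge b.v2N (p := (1, 0, 1, 0)) (q := (0, 1, 1, 1))
    (by
      rw [m3, iv]
      exact c.mul' (c.mul (Cx.of c1 w1) (Cx.of (c.mul c1 c2) w2)) (Cx.of c13 w3))
    (by rw [iv]; exact Cx.of c13 w3) (by decide +kernel)
  obtain ⟨y, hy⟩ := b.ymem (Cx.rel c14 a1)
  have hy1 : h * (g * e) * h⁻¹ = g * e * n4 F.z F.v1 F.u1 v y := by rw [← hy]; group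
  have hy2 : y + (y.2.2.1, y.2.2.2, y.1, y.2.1) = 0 := b.yone (by
    have : h * (h * (g * e) * h⁻¹) * h⁻¹ = g * e := by
      rw [show h * (h * (g * e) * h⁻¹) * h⁻¹ = h * h * (g * e) * (h * h)⁻¹ by group, hh,
        c.cc (c.mem c14) (mul_mem zY uY), mul_inv_cancel_right]
    rw [hy1, show h * (g * e * n4 F.z F.v1 F.u1 v y) * h⁻¹ =
      h * (g * e) * h⁻¹ * (h * n4 F.z F.v1 F.u1 v y * h⁻¹) by group, hy1, b.yh, mul_assoc, b.yadd] at this
    exact mul_left_cancel (this.trans (mul_one _).symm))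
  obtain ⟨x, cx, hx⟩ : ∃ x, Cl (F.Y v) g d (h * d * h⁻¹) e x (1, 0, 0, 1) ∧ h * x * h⁻¹ = x := by
    refine ⟨g * e * n4 F.z F.v1 F.u1 v (y.1, y.2.1, 0, 0), Cx.of c14 ?_, ?_⟩
    · obtain ⟨h1, h2, h3, h4⟩ := F.HQm v
      rw [inv_mul_cancel_left]
      exact mul_mem (mul_mem (mul_mem (pow_mem h1 _) (pow_mem h2 _)) (pow_mem h3 _)) (pow_mem h4 _)
    · rw [show ∀ w, h * (g * e * w) * h⁻¹ = h * (g * e) * h⁻¹ * (h * w * h⁻¹) from fun w => by group,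
        hy1, b.yh, mul_assoc (g * e), b.yadd]
      congr 2
      clear * - hy2
      revert y
      decide
  have xP := c.mem cx
  have xx : x * x = 1 := (b.Q1 cx).2 (by decide)
  have ee : h * F.z * (h * F.z) = 1 := by
    rw [show h * F.z * (h * F.z) = h * F.z * h⁻¹ * (h * h) * F.z by group, b.hz, hh, F.zu1, ← mul_assoc,
      F.u11, one_mul, F.zz]
  have be : x * (h * F.z) = h * F.z * x := by
    rw [mul_assoc h, c.cc xP zY, ← mul_assoc, ← mul_assoc, mul_inv_eq_iff_eq_mul.1 hx]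
  have ta : F.v2 * h * F.z = F.t * (h * F.z) * F.t := by
    rw [mul_assoc F.t, mul_assoc h, F.zt, ← mul_assoc h, mul_inv_eq_iff_eq_mul.1 b.ht]
    simp only [← mul_assoc, F.tt, one_mul]
  have ve : F.v2 * (h * F.z) = h * F.z * F.v2 := by
    rw [← mul_assoc, ← b.hv2, mul_assoc, mul_assoc, F.B1zv2]
  have axa : F.v2 * h * F.z * x * (F.v2 * h * F.z) = F.v2 * x * F.v2⁻¹ := by
    rw [mul_assoc F.v2 h, iv]
    nth_rw 2 [ve]
    rw [mul_assoc F.v2, ← be, show F.v2 * (x * (h * F.z)) * (h * F.z * F.v2) =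
      F.v2 * x * (h * F.z * (h * F.z)) * F.v2 by group, ee, mul_one]
  have cv : Cl (F.Y v) g d (h * d * h⁻¹) e (F.v2 * x * F.v2⁻¹) (0, 1, 1, 1) := Cx.cj vY c14 cx a2
  have ab2 : (F.v2 * h * F.z * x) ^ 2 = F.v2 * x * F.v2⁻¹ * x := by rw [← axa, pow_two]; group
  have ce2 : (F.t * x * F.t * (h * F.z)) ^ 2 = F.t * (x * (F.v2 * x * F.v2⁻¹)) * F.t⁻¹ := by
    rw [← axa, ta, pow_two, it]
    simp only [mul_assoc, F.tt, mul_one]
  have cab : Cl (F.Y v) g d (h * d * h⁻¹) e ((F.v2 * h * F.z * x) ^ 2) (1, 1, 1, 0) := by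
    rw [ab2]; exact c.mul' cv cx
  have cce : Cl (F.Y v) g d (h * d * h⁻¹) e ((F.t * x * F.t * (h * F.z)) ^ 2) (0, 1, 1, 0) := by
    rw [ce2]
    refine Cx.cj tY c123 (c.mul' cx cv) ?_
    rw [m3, it]
    exact c.mul' (c.mul (Cx.of c1 t1) (Cx.of c2 t2)) (Cx.of c13 t3)
  have cP : F.t * x * F.t ∈ P := by
    have := conj_mem_of_mem_normalizer b.tN xP
    rwa [it] at this
  have m1 : F.v2 ∈ (P ⊔ closure {F.v2, h} : Subgroup G) := mem_sup_right (subset_closure (by simp))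
  have m2 : h ∈ (P ⊔ closure {F.v2, h} : Subgroup G) := mem_sup_right (subset_closure (by simp))
  have m4 : F.z ∈ (P ⊔ closure {F.v2, h} : Subgroup G) := mem_sup_left (c.YP zY)
  have p4 : ∀ w : G, w ^ 4 = w ^ 2 * w ^ 2 := fun w => by group
  have aP : F.v2 * h * F.z * x * (F.v2 * h * F.z) ∈ P := axa ▸ c.mem cv
  have eP : h * F.z * (F.t * x * F.t) * (h * F.z) ∈ P := by
    have := conj_mem_of_mem_normalizer (mul_mem b.hN (le_normalizer (c.YP zY))) cP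
    rwa [inv_eq_of_mul_eq_one_right ee] at this
  refine ⟨x, mul_mem (mul_mem m1 m2) m4, mem_sup_left xP, mem_sup_left cP, mul_mem m2 m4, ?_, xx, ?_, ee,
    ?_, ?_, be, ?_, ?_, ?_, ?_⟩
  · have := cjsq ee F.t
    rwa [it, ← ta] at this
  · have := cjsq xx F.t
    rwa [it] at this
  · rw [mul_assoc F.v2 h, ← mul_assoc (h * F.z), ← ve]
  · rw [ta, show F.t * (h * F.z) * F.t * (F.t * x * F.t) = F.t * (h * F.z * (F.t * F.t) * x) * F.t by group,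
      show F.t * x * F.t * (F.t * (h * F.z) * F.t) = F.t * (x * (F.t * F.t) * (h * F.z)) * F.t by group,
      F.tt, mul_one, mul_one, be]
  · rw [p4]; exact (b.Q1 cab).2 (by decide)
  · rw [p4]; exact (b.Q1 cce).2 (by decide)
  · intro p hp q hq
    have pP : p ∈ P := by rcases hp with rfl | rfl; exacts [xP, aP]
    have qP : q ∈ P := by rcases hq with rfl | rfl; exacts [cP, eP]
    have s : (p * q) ^ 2 ∈ F.Y v := by rw [pow_two]; exact c.sq _ (mul_mem pP qP)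
    refine ⟨by rw [p4]; exact c.sqY _ s, centralizer_anti (B := P) ((closure_le _).2 ?_) ?_⟩
    · rintro r (rfl | rfl | rfl | rfl)
      exacts [xP, aP, cP, eP]
    · exact mem_centralizer_iff_commute.2 fun r hr => (c.cc hr s).symm
  · rw [pow_two, Ne, b.Q1 (c.mul cab cce)]
    decide

end Fr

end H60M.A7
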