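import Mathlib
import Cfsg.Agent.Lib.B7S.ZA

/-! Type `ZZ`: the element `f`. -/

set_option autoImplicit false
set_option linter.unusedSectionVars false

namespace H60M.A7

open Subgroup H69 H36.SW

variable {G : Type*} [Group G] [Finite G]

namespace ZC

local notation "κ" => MulAut.conj

/-- `n` normalizes `R` and moves `t` to `t e` with `e² = a`. -/
structure Pt (R : Subgroup G) (t n a : G) : Prop where
  nm : n ∈ 𝐍(R)
  ex : ∃ e ∈ R, n * t * n⁻¹ = t * e ∧ e * e = a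

section
variable {R : Subgroup G} {t n m a b e e' x : G}
omit [Finite G]

theorem cm (hn : n ∈ 𝐍(R)) (hx : x ∈ R) : n * x * n⁻¹ ∈ R := (mem_normalizer_iff.1 hn x).1 hx

theorem Pt.mul (hR : R ≤ 𝐂(R)) (h : Pt R t n a) (h' : Pt R t m b) : Pt R t (n * m) (a * κ n b) := by
  obtain ⟨e, he, e1, rfl⟩ := h.ex
  obtain ⟨f, hf, f1, rfl⟩ := h'.ex
  have c := hR (cm h.nm hf) e he
  refine ⟨mul_mem h.nm h'.nm, e * (n * f * n⁻¹), mul_mem he (cm h.nm hf), ?_, ?_⟩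
  · calc n * m * t * (n * m)⁻¹ = n * (m * t * m⁻¹) * n⁻¹ := by group
      _ = n * t * n⁻¹ * (n * f * n⁻¹) := by rw [f1]; group
      _ = _ := by rw [e1, mul_assoc]
  · calc e * (n * f * n⁻¹) * (e * (n * f * n⁻¹)) = e * ((n * f * n⁻¹) * e) * (n * f * n⁻¹) := by group
      _ = _ := by rw [← c, MulAut.conj_apply]; group

theorem Pt.of (hR : R ≤ 𝐂(R)) (hn : n ∈ 𝐍(R)) (he : e ∈ R) (he' : e' ∈ R) (h : n * (t * e) * n⁻¹ = t * e') :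
    Pt R t n (e' * e' * (κ n (e * e))⁻¹) := by
  have c := hR (inv_mem (cm hn he)) e' he'
  refine ⟨hn, e' * (n * e * n⁻¹)⁻¹, mul_mem he' (inv_mem (cm hn he)), ?_, ?_⟩
  · rw [← mul_assoc, ← h]; group
  · calc e' * (n * e * n⁻¹)⁻¹ * (e' * (n * e * n⁻¹)⁻¹) = e' * ((n * e * n⁻¹)⁻¹ * e') * (n * e * n⁻¹)⁻¹ := by group
      _ = _ := by rw [← c, MulAut.conj_apply]; group

theorem Pt.one (hn : n ∈ 𝐍(R)) (h : n * t = t * n) : Pt R t n 1 :=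
  ⟨hn, 1, one_mem _, by rw [h]; group, mul_one _⟩

theorem Pt.inv (hR : R ≤ 𝐂(R)) (h : Pt R t n a) : Pt R t n⁻¹ (κ n⁻¹ a)⁻¹ := by
  obtain ⟨e, he, e1, rfl⟩ := h.ex
  have := Pt.of (t := t) hR (inv_mem h.nm) he (one_mem _) (by rw [← e1]; group)
  rwa [one_mul, one_mul] at this

theorem Pt.cg (h : Pt R t n a) (e : a = b) : Pt R t n b := e ▸ h

theorem kfix (h : n * x = x * n) : κ n x = x := by rw [MulAut.conj_apply, h, mul_inv_cancel_right]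

theorem of_kfix (h : κ n x = x) : n * x = x * n := mul_inv_eq_iff_eq_mul.1 h

end

/-- the rewriting rules in `X1` -/
theorem xr (F : Fr G) : (F.z * F.z = 1 ∧ F.v1 * F.v1 = 1 ∧ F.u1 * F.u1 = 1 ∧ F.v1 * F.z = F.z * F.v1 ∧
    F.u1 * F.z = F.z * F.u1 ∧ F.u1 * F.v1 = F.v1 * F.u1 ∧ F.z⁻¹ = F.z ∧ F.v1⁻¹ = F.v1 ∧ F.u1⁻¹ = F.u1) ∧
    ∀ x, F.z * (F.z * x) = x ∧ F.v1 * (F.v1 * x) = x ∧ F.u1 * (F.u1 * x) = x ∧
      F.v1 * (F.z * x) = F.z * (F.v1 * x) ∧ F.u1 * (F.z * x) = F.z * (F.u1 * x) ∧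
      F.u1 * (F.v1 * x) = F.v1 * (F.u1 * x) := by
  refine ⟨⟨F.zz, F.v11, F.u11, F.zv1.symm, F.zu1.symm, F.u1v1, inv_eq_of_mul_eq_one_left F.zz,
    inv_eq_of_mul_eq_one_left F.v11, inv_eq_of_mul_eq_one_left F.u11⟩, fun x => ⟨?_, ?_, ?_, ?_, ?_, ?_⟩⟩ <;>
    rw [← mul_assoc]
  · rw [F.zz, one_mul]
  · rw [F.v11, one_mul]
  · rw [F.u11, one_mul]
  · rw [← F.zv1, mul_assoc]
  · rw [← F.zu1, mul_assoc]
  · rw [F.u1v1, mul_assoc]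

theorem uV (F : Fr G) (h : F.u1 ≠ 1) : F.u1 ∉ F.V1 := fun hu => by
  rcases F.hu with e | e
  · exact h e.1
  · have m1 : F.v1 ∈ closure ({F.t, F.v1, F.v2} : Set G) := subset_closure (by simp)
    have m2 : F.v2 ∈ closure ({F.t, F.v1, F.v2} : Set G) := subset_closure (by simp)
    refine e.2.2.1 ((closure_le _).2 ?_ hu)
    rintro _ (rfl | rfl)
    exacts [F.hz ▸ mul_mem (mul_mem (mul_mem m1 m2) m1) m2, m1]

theorem zV (F : Fr G) : F.z ∈ F.V1 := subset_closure (by simp)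
theorem vV (F : Fr G) : F.v1 ∈ F.V1 := subset_closure (by simp)

theorem cenV {F : Fr G} {n : G} (h1 : κ n F.z = F.z) (h2 : κ n F.v1 = F.v1) : n ∈ 𝐂(F.V1) := fun x hx => by
  rcases F.memV1.1 hx with rfl | rfl | rfl | rfl
  · simp
  · exact (of_kfix h1).symm
  · exact (of_kfix h2).symm
  · exact (of_kfix (by rw [map_mul, h1, h2])).symm

variable {F : Fr G} {u0 g g' r r' d1 d2 η1 η2 : G}

theorem eta (h : F.ZZ u0 g g' r r' d1 d2 η1 η2) : Pt (F.R g r d1) F.t η1 1 ∧ κ η1 F.z = F.v1 ∧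
    κ η1 F.v1 = F.z * F.v1 ∧ κ η1 F.u1 = F.u1 := by
  have c : Commute g d1 := h.d1M g (subset_closure (by simp))
  refine ⟨Pt.one h.ηN h.η1t, ?_, ?_, kfix h.η1u⟩
  · rw [← h.gg, map_mul, MulAut.conj_apply, h.η1g, h.d11]
  · conv_lhs => rw [← h.d11, map_mul, MulAut.conj_apply, h.η1d, ← mul_inv_rev, c.symm.mul_mul_mul_comm, h.gg, h.d11]
    simp only [mul_inv_rev, xr F]

theorem SP1 (h : F.ZZ u0 g g' r r' d1 d2 η1 η2) {n : G} (p : Pt (F.R g r d1) F.t n 1) :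
    n * F.u1 = F.u1 * n ∧ n ∈ 𝐍(F.V1) :=
  let ⟨_, he, e1, e2⟩ := p.ex; h.SP p.nm he e1 e2

theorem F0M (h : F.ZZ u0 g g' r r' d1 d2 η1 η2) : F.F0 ≤ closure ({g, r, F.u1} : Set G) := fun x hx =>
  h.memM.2 ⟨x, hx, 0, 0, by simp⟩

/-- the image of `t` under `ρ` -/
theorem e0 (h : F.ZZ u0 g g' r r' d1 d2 η1 η2) {ρ : G}
    (hρ : (F.t * g * F.v1)⁻¹ * (ρ * F.t * ρ⁻¹) ∈ F.F0) :
    ∃ e ∈ F.R g r d1, ρ * F.t * ρ⁻¹ = F.t * e ∧ e * e = F.z := by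
  have gR : g ∈ F.R g r d1 := subset_closure (by simp)
  have wX := mul_mem (F.V1X1 (vV F)) (F.F0X1 hρ)
  refine ⟨g * (F.v1 * _), mul_mem gR (h.XR wX), by group, ?_⟩
  rw [(show Commute _ g from h.ab gR _ (h.XR wX)).mul_mul_mul_comm, h.gg, F.sqW1 (F.X1W1 wX), mul_one]

theorem mu (h : F.ZZ u0 g g' r r' d1 d2 η1 η2) {ρ : G}
    (hρ : ρ ∈ 𝐂(closure ({g, r, F.u1} : Set G)) ∧ F.R g r d2 ^ᶜ ρ = F.R g r d1 ∧
    (F.t * g * F.v1)⁻¹ * (ρ * F.t * ρ⁻¹) ∈ F.F0 ∧ F.v1⁻¹ * (ρ * F.v2 * ρ⁻¹) ∈ F.F0) :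
    ∃ μ, Pt (F.R g r d1) F.t μ (F.z * (ρ * F.v2 * ρ⁻¹)⁻¹) ∧ κ μ F.z = ρ * F.v2 * ρ⁻¹ ∧
      κ μ (ρ * F.v2 * ρ⁻¹) = F.z * (ρ * F.v2 * ρ⁻¹) ∧ κ μ F.u2 = F.u2 := by
  obtain ⟨u0', -, h'⟩ := h.sw
  obtain ⟨p, e1, e2, e3⟩ := eta h'
  obtain ⟨e, he, te, ee⟩ := e0 h hρ.2.2.1
  have cz : κ ρ F.z = F.z := kfix (hρ.1 _ (F0M h (subset_closure (by simp)))).symm
  have cu : κ ρ F.u2 = F.u2 := kfix (hρ.1 _ (F0M h (subset_closure (by simp)))).symm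
  have k : ∀ x, κ (ρ * η2 * ρ⁻¹) (κ ρ x) = κ ρ (κ η2 x) := fun x => by simp only [MulAut.conj_apply]; group
  have kz : κ (ρ * η2 * ρ⁻¹) F.z = ρ * F.v2 * ρ⁻¹ := by
    conv_lhs => rw [← cz, k]
    exact congrArg (κ ρ) e1
  refine ⟨ρ * η2 * ρ⁻¹, ?_, kz, ?_, ?_⟩
  · have n : ρ * η2 * ρ⁻¹ ∈ 𝐍(F.R g r d1) := by
      rw [← hρ.2.1, ← cj_normalizer, ← h.R_sw]
      exact cj_mem ρ p.nm
    have := Pt.of (t := F.t) h.ab n he he (by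
      rw [← te]
      exact (k F.t).trans (congrArg (κ ρ) (kfix h.η2t)))
    rwa [ee, kz] at this
  · refine (k F.v2).trans ((congrArg (κ ρ) e2).trans ?_)
    rw [map_mul]
    exact congrArg (· * _) cz
  · conv_lhs => rw [← cu, k]
    exact (congrArg (κ ρ) e3).trans cu

end ZC

open ZC

local notation "κ" => MulAut.conj

namespace Fr
variable {F : Fr G} {u0 g g' r r' d1 d2 η1 η2 : G}

theorem ZZ.plane (h : F.ZZ u0 g g' r r' d1 d2 η1 η2) {ρ : G} (hρ : ρ ∈ 𝐂(closure ({g, r, F.u1} : Set G)) ∧ F.R g r d2 ^ᶜ ρ = F.R g r d1 ∧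
    (F.t * g * F.v1)⁻¹ * (ρ * F.t * ρ⁻¹) ∈ F.F0 ∧ F.v1⁻¹ * (ρ * F.v2 * ρ⁻¹) ∈ F.F0) :
    ρ * F.v2 * ρ⁻¹ = F.v1 ∨ ρ * F.v2 * ρ⁻¹ = F.z * F.v1 := by
  obtain ⟨μ, p, m1, m2, m3⟩ := mu h hρ
  obtain ⟨q, e1, e2, e3⟩ := eta h
  have ha := F.memF0.1 hρ.2.2.2
  generalize ρ * F.v2 * ρ⁻¹ = a at *
  simp only [inv_mul_eq_iff_eq_mul, mul_one] at ha
  by_cases hu : F.u1 = 1
  · rw [hu, mul_one, mul_one] at ha
    rcases ha with e | e | e | e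
    exacts [Or.inl e, Or.inr (e.trans F.zv1.symm), Or.inl e, Or.inr (e.trans F.zv1.symm)]
  have fin : ∀ n, Pt (F.R g r d1) F.t n 1 → κ n F.z = F.z * F.u1 → False := fun n pn e =>
    uV F hu ((mul_mem_cancel_left (zV F)).1 (e ▸ cm (SP1 h pn).2 (zV F)))
  rw [F.u2_eq hu] at m3
  have mu : κ μ F.u1 = a * (F.z * F.u1) := by
    rw [← m1, ← m3, ← map_mul]; simp only [xr F]
  rcases ha with e | e | rfl | rfl
  · exact Or.inl e
  · exact Or.inr (e.trans F.zv1.symm)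
  · have mv : κ μ F.v1 = F.u1 := by
      rw [show F.v1 = F.v1 * F.u1 * F.u1 by simp only [mul_assoc, xr F, mul_one], map_mul, m2, mu]
      simp only [mul_assoc, xr F, mul_one]
    refine (fin _ ((p.mul h.ab (q.mul h.ab (q.mul h.ab p))).cg ?_) ?_).elim <;>
      simp only [map_mul, MulAut.mul_apply, m1, mu, mv, e1, e2, e3, mul_inv_rev, mul_assoc, xr F, mul_one, one_mul]
  · have mv : κ μ F.v1 = F.z * F.v1 := by
      rw [show F.v1 = F.v1 * (F.z * F.u1) * (F.z * F.u1) by simp only [mul_assoc, xr F, mul_one], map_mul, m2, m3]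
      simp only [mul_assoc, xr F, mul_one]
    refine (fin _ ((p.mul h.ab (q.mul h.ab p)).cg ?_) ?_).elim <;>
      simp only [map_mul, MulAut.mul_apply, m1, mu, mv, e1, e2, e3, mul_inv_rev, mul_assoc, xr F, mul_one, one_mul]

theorem ZZ.exf (h : F.ZZ u0 g g' r r' d1 d2 η1 η2) {ρ : G} (hρ : ρ ∈ 𝐂(closure ({g, r, F.u1} : Set G)) ∧ F.R g r d2 ^ᶜ ρ = F.R g r d1 ∧
    (F.t * g * F.v1)⁻¹ * (ρ * F.t * ρ⁻¹) ∈ F.F0 ∧ F.v1⁻¹ * (ρ * F.v2 * ρ⁻¹) ∈ F.F0) :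
    ∃ f ∈ 𝐍((F.R g r d1 ⊔ closure {F.t, F.v2} : Subgroup G)), f ∈ 𝐍(F.R g r d1) ∧
      ∃ e ∈ F.R g r d1, f * F.t * f⁻¹ = F.t * e ∧ e * e = F.z := by
  obtain ⟨μ, p, m1, m2, -⟩ := mu h hρ
  obtain ⟨q, e1, e2, e3⟩ := eta h
  obtain ⟨f, pf, fz, fv⟩ : ∃ f, Pt (F.R g r d1) F.t f F.z ∧ κ f F.z = F.z ∧ κ f F.v1 = F.v1 := by
    rcases h.plane hρ with e | e <;> rw [e] at p m1 m2
    · refine ⟨_, (q.mul h.ab (q.mul h.ab (p.mul h.ab (p.mul h.ab (q.mul h.ab q))))).cg ?_, ?_, ?_⟩ <;>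
        simp only [map_mul, map_one, MulAut.mul_apply, m1, m2, e1, e2, mul_inv_rev, mul_assoc, xr F, mul_one,
          one_mul]
    · have mv : κ μ F.v1 = F.z := by
        rw [show F.v1 = F.z * (F.z * F.v1) by simp only [xr F], map_mul, m2, m1]
        simp only [mul_assoc, xr F, mul_one]
      refine ⟨_, (q.mul h.ab (q.mul h.ab (p.mul h.ab (q.mul h.ab q)))).cg ?_, ?_, ?_⟩ <;>
        simp only [map_mul, map_one, MulAut.mul_apply, m1, mv, e1, e2, mul_inv_rev, mul_assoc, xr F, mul_one,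
          one_mul]
  have p2 : Pt (F.R g r d1) F.t F.v2 1 := Pt.one h.v2N F.tv2.symm
  have i2 : F.v2⁻¹ = F.v2 := inv_eq_of_mul_eq_one_left F.v22
  have vz : κ F.v2 F.z = F.z := kfix F.sw.zv1.symm
  have vv : κ F.v2 F.v1 = F.z * F.v1 := by rw [MulAut.conj_apply, i2]; exact F.sw.v121
  have iz : κ f⁻¹ F.z = F.z := kfix (Commute.inv_left (of_kfix fz))
  have iv : κ f⁻¹ F.v1 = F.v1 := kfix (Commute.inv_left (of_kfix fv))
  have pc : Pt (F.R g r d1) F.t (f * (F.v2 * (f⁻¹ * F.v2))) 1 :=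
    (pf.mul h.ab (p2.mul h.ab ((pf.inv h.ab).mul h.ab p2))).cg (by
      simp only [map_one, iz, vz, fz, xr F, mul_one, one_mul])
  obtain ⟨e, he, c1, c2⟩ := pc.ex
  obtain ⟨s, hs, o, ho, oo, eo⟩ := h.SP' pc.nm he c1 c2 (cenV
    (by simp only [map_mul, MulAut.mul_apply, iz, vz, fz])
    (by simp only [map_mul, MulAut.mul_apply, iz, iv, vz, vv, fz, fv, xr F]))
  obtain ⟨O, hO, -, -⟩ := F.exO1
  have tQ : F.t ∈ F.R g r d1 ⊔ zpowers F.t := mem_sup_right (mem_zpowers _)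
  have WQ : F.W1 ≤ F.R g r d1 ⊔ zpowers F.t := fun x hx => (F.memW1'.1 hx).elim (fun a => mem_sup_left (h.XR a))
    fun a => (mul_mem_cancel_left tQ).1 (mem_sup_left (h.XR a))
  have mO : ∀ x, x ∈ O ⊓ 𝐂((F.R g r d1 ⊔ zpowers F.t : Subgroup G)) ↔
      x ∈ 𝐂((F.R g r d1 ⊔ zpowers F.t : Subgroup G)) ∧ Odd (orderOf x) := fun x =>
    ⟨fun a => ⟨a.2, ((hO x).1 a.1).2⟩, fun a => ⟨(hO x).2 ⟨centralizer_le WQ a.1, a.2⟩, a.1⟩⟩
  have tS : F.t ∈ F.R g r d1 ⊔ closure {F.t, F.v2} := mem_sup_right (subset_closure (by simp))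
  have vS : F.v2 ∈ F.R g r d1 ⊔ closure {F.t, F.v2} := mem_sup_right (subset_closure (by simp))
  have SN : F.R g r d1 ⊔ closure {F.t, F.v2} ≤ 𝐍((F.R g r d1 ⊔ zpowers F.t : Subgroup G)) := by
    refine sup_le (le_sup_left.trans le_normalizer) ((closure_le _).2 ?_)
    rintro _ (rfl | rfl)
    · exact le_normalizer tQ
    · refine cj_eq_self_iff.1 ?_
      rw [cj_sup, cj_eq_of_mem_normalizer h.v2N, cj_zpowers, ← F.tv2, mul_inv_cancel_right]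
  obtain ⟨o', ho', hn⟩ := frat_odd (g := f) h.isP (fun o ho => ((mO o).1 ho).2) (le_normalizer_of_cj_le
    fun s hs => by
      rintro _ ⟨x, hx, rfl⟩
      refine (mO _).2 ⟨?_, ?_⟩
      · have := cj_mem s hx.2
        rwa [cj_centralizer, cj_eq_of_mem_normalizer (SN hs)] at this
      · exact (MulEquiv.orderOf_eq (κ s) x).symm ▸ ((mO x).1 hx).2) (by
    rw [cj_sup, cj_eq_of_mem_normalizer pf.nm, MonoidHom.map_closure]
    refine sup_le (le_sup_left.trans le_sup_left) ((closure_le _).2 ?_)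
    rintro _ ⟨_, rfl | rfl, rfl⟩
    · obtain ⟨e, he, e1, -⟩ := pf.ex
      exact mem_sup_left (show f * F.t * f⁻¹ ∈ _ from e1 ▸ mul_mem tS (mem_sup_left he))
    · have : f * F.v2 * f⁻¹ = s * o * F.v2⁻¹ := by rw [← eo]; group
      exact show f * F.v2 * f⁻¹ ∈ _ from this ▸ mul_mem (mul_mem (mem_sup_left
        (sup_le le_sup_left (zpowers_le.2 tS) hs)) (mem_sup_right ((mO o).2 ⟨ho, oo⟩))) (mem_sup_left (inv_mem vS)))
  have po : Pt (F.R g r d1) F.t o' 1 :=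
    Pt.one (centralizer_le_normalizer _ (centralizer_le (le_sup_left (b := zpowers F.t)) ho'.2)) (ho'.2 _ tQ).symm
  have := (po.mul h.ab pf).cg (b := F.z) (by
    rw [one_mul, kfix (ho'.2 _ (mem_sup_left (h.XR (F.V1X1 (zV F))))).symm])
  exact ⟨o' * f, hn, this.nm, this.ex⟩

end Fr

end H60M.A7
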